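import Cfsg.Agent.L43.Inv

/-! A mutual pair and the frame of the Borel subgroup. -/

set_option autoImplicit false
set_option linter.unusedSectionVars false
set_option maxRecDepth 100000
set_option synthInstance.maxSize 4000

namespace Cfsg.Agent.L43

open Subgroup Cfsg.Agent.Local

variable {G : Type*} [Group G] [Finite G]

/-- The full hypothesis. -/
structure Hyp (z : G) (Q : Subgroup G) (φ : G → SL23) : Prop extends Hyp0 z Q φ where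
  inv : ∀ t, t * z = z * t → φ t = -1 → t * t = 1 → ∀ q ∈ Q, t * q * t⁻¹ * q ∈ zpowers z

/-- A conjugate subgroup. -/
def cq (x : G) (Q : Subgroup G) : Subgroup G := Q.comap (MulAut.conj x).symm.toMonoidHom

theorem mem_cq {x g : G} {Q : Subgroup G} : g ∈ cq x Q ↔ x⁻¹ * g * x ∈ Q := Iff.rfl

theorem zp_cj {x z e : G} : e ∈ zpowers (x * z * x⁻¹) ↔ x⁻¹ * e * x ∈ zpowers z := by
  refine ⟨fun ⟨k, hk⟩ => ⟨k, by rw [← hk]; simp only [conj_zpow]; group⟩, fun ⟨k, hk⟩ => ⟨k, ?_⟩⟩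
  simp only [conj_zpow] at hk ⊢
  rw [hk]; group

theorem cm_cj' {x z g : G} : g * (x * z * x⁻¹) = x * z * x⁻¹ * g ↔ x⁻¹ * g * x * z = z * (x⁻¹ * g * x) := by
  rw [← mul_left_cancel_iff (a := x⁻¹), ← mul_right_cancel_iff (a := x)]
  simp only [mul_assoc, inv_mul_cancel, inv_mul_cancel_left, mul_one]

theorem odd9 {g z : G} (h : g * z * g⁻¹ = z⁻¹) : g * g * z = z * (g * g) ∧ g ^ 9 * z * (g ^ 9)⁻¹ = z⁻¹ := by
  have h1 : g * g * z = z * (g * g) := cm_of_cj (by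
    rw [show g * g * z * (g * g)⁻¹ = g * (g * z * g⁻¹) * g⁻¹ by group, h, ← conj_inv, h, inv_inv])
  refine ⟨h1, ?_⟩
  rw [show g ^ 9 = g * (g * g) ^ 4 by rw [← pow_two, ← pow_mul, ← pow_succ'], ← h]
  nth_rewrite 2 [← cj_of_cm (cm_pow h1 4)]
  group

theorem sq_cube {x : G} (h2 : x * x = 1) (h3 : x ^ 3 = 1) : x = 1 := by rwa [pow_three', h2, one_mul] at h3

theorem rot {z w b e : G} (zw : w * z = z * w) (bz : b * z = z * b) (bw : b * w * b⁻¹ = z * w) (ew : e * w = w * e)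
    (ez : e * z * e⁻¹ = w * z) :
    b * e⁻¹ * b * z * (b * e⁻¹ * b)⁻¹ = w⁻¹ ∧ b * e⁻¹ * b * w * (b * e⁻¹ * b)⁻¹ = z := by
  have h1 : e⁻¹ * (w * z) * e = z := by rw [← ez]; group
  have h2 : e⁻¹ * z * e = w⁻¹ * z := by
    rw [eq_inv_mul_iff_mul_eq, ← mul_assoc, ← mul_assoc, ← cm_inv ew, mul_assoc _ w, h1]
  constructor
  · calc _ = b * (e⁻¹ * (b * z * b⁻¹) * e) * b⁻¹ := by group
      _ = b * (w⁻¹ * z) * b⁻¹ := by rw [cj_of_cm bz, h2]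
      _ = (b * w * b⁻¹)⁻¹ * (b * z * b⁻¹) := by group
      _ = _ := by rw [bw, cj_of_cm bz]; group
  · calc _ = b * (e⁻¹ * (b * w * b⁻¹) * e) * b⁻¹ := by group
      _ = _ := by rw [bw, ← zw, h1, cj_of_cm bz]

namespace Hyp

variable {z : G} {Q : Subgroup G} {φ : G → SL23} (h : Hyp z Q φ) {t u q g w : G}
include h

theorem conj (x : G) : Hyp (x * z * x⁻¹) (cq x Q) fun g => φ (x⁻¹ * g * x) := by
  have m : ∀ a b : G, x⁻¹ * (a * b) * x = x⁻¹ * a * x * (x⁻¹ * b * x) := fun a b => by group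
  have i : ∀ a : G, x⁻¹ * a⁻¹ * x = (x⁻¹ * a * x)⁻¹ := fun a => by group
  refine ⟨⟨(orderOf_conj' _ _).trans h.oz, mem_cq.mpr (by simpa [mul_assoc] using h.zQ), fun q hq => ?_,
    fun p hp q hq => zp_cj.mpr (by simpa only [m, i] using h.com _ (mem_cq.mp hp) _ (mem_cq.mp hq)), fun g hg => zp_cj.mpr (h.cen _ fun q hq => ?_),
    ?_, fun q hq => cm_cj'.mpr (h.le _ hq), fun a b ha hb => by rw [m, h.mul _ _ (cm_cj'.mp ha) (cm_cj'.mp hb)],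
    fun a ha => h.ker _ (cm_cj'.mp ha), fun σ => ?_⟩, fun t ht e tt q hq => zp_cj.mpr (by
      simpa only [m, i] using h.inv _ (cm_cj'.mp ht) e (by rw [← m, tt]; group) _ (mem_cq.mp hq))⟩
  · have := h.exp _ (mem_cq.mp hq)
    rw [show x⁻¹ * q * x = x⁻¹ * q * x⁻¹⁻¹ by group, conj_pow] at this
    exact conj_eq_one_iff.mp this
  · exact cm_cj'.mp (hg _ (mem_cq.mpr (by simpa [mul_assoc] using hq)))
  · rw [cq, ← map_equiv_eq_comap_symm', card_map_of_injective (MulAut.conj x).injective, h.card]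
  · obtain ⟨g, hg, e⟩ := h.surj σ
    exact ⟨x * g * x⁻¹, by rw [conj_mul, conj_mul, hg], by simpa [mul_assoc] using e⟩

theorem phi_t (ht : t * z = z * t) (tt : t * t = 1) (t1 : t ≠ 1) : φ t = -1 :=
  ((by decide : ∀ σ : SL23, σ * σ = 1 → σ = 1 ∨ σ = -1) _ (by rw [← h.mul _ _ ht ht, tt, h.phi_one])).resolve_left
    fun e => t1 (sq_cube tt (h.exp _ ((h.ker t ht).mp e)))

theorem mem_of_sq (hq : q ∈ Q) (e : q * q ∈ zpowers z) : q ∈ zpowers z := by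
  have := inv_mem e
  rwa [inv_eq_of_mul_eq_one_right ((pow_three' q).symm.trans (h.exp q hq))] at this

theorem c3 (hw : w ∈ Q) (w1 : w ∉ zpowers z) (hg : g * z = z * g) (gw : g * w = w * g) : φ g ^ 3 = 1 := by
  refine ((by decide : ∀ σ : SL23, σ ^ 3 = 1 ∨ ∃ k < 4, (σ ^ k) ^ 3 = -1 ∧ (σ ^ k) ^ 2 = 1) _).resolve_right ?_
  rintro ⟨k, -, e1, e2⟩
  have c := cm_pow hg k
  have := h.inv _ (cm_pow c 3) (by rwa [h.phi_pow c, h.phi_pow hg]) (by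
    rw [← pow_add, show 3 + 3 = 2 * 3 from rfl, pow_mul]
    exact h.exp _ ((h.ker _ (cm_pow c 2)).mp (by rwa [h.phi_pow c, h.phi_pow hg]))) w hw
  rw [cj_of_cm (cm_pow (cm_pow gw k) 3)] at this
  exact w1 (h.mem_of_sq hw this)

theorem c9 (hw : w ∈ Q) (w1 : w ∉ zpowers z) (hg : g * z = z * g) (gw : g * w = w * g) : g ^ 9 = 1 := by
  rw [show 9 = 3 * 3 from rfl, pow_mul]
  exact h.exp _ ((h.ker _ (cm_pow hg 3)).mp (by rw [h.phi_pow hg, h.c3 hw w1 hg gw]))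

theorem iota (ht : t * z = z * t) (tt : t * t = 1) (t1 : t ≠ 1) (hq : q ∈ Q) :
    q * (t * q * t⁻¹)⁻¹ ∈ Q ∧ t * (q * (t * q * t⁻¹)⁻¹) * t⁻¹ = (q * (t * q * t⁻¹)⁻¹)⁻¹ ∧
      ∃ c ∈ zpowers z, q * (t * q * t⁻¹)⁻¹ = q * q * c := by
  refine ⟨mul_mem hq (inv_mem (h.nC ht hq)), ?_, _, inv_mem (h.inv t ht (h.phi_t ht tt t1) tt q hq), ?_⟩
  · calc _ = t * q * t⁻¹ * ((t * t) * q⁻¹ * (t * t)⁻¹) := by group
      _ = _ := by rw [tt]; group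
  · group

theorem eigM (ht : t * z = z * t) (tt : t * t = 1) (t1 : t ≠ 1) (hu : u * z * u⁻¹ = z⁻¹) (hq : q ∈ Q)
    (e : u * q * u⁻¹ = q⁻¹) : ∃ r ∈ Q, t * r * t⁻¹ = r⁻¹ ∧ u * r * u⁻¹ = r⁻¹ ∧ ∃ c ∈ zpowers z, r = q * q * c := by
  obtain ⟨h1, h2, c, hc, h3⟩ := h.iota ht tt t1 hq
  refine ⟨_, h1, h2, ?_, c, hc, h3⟩
  obtain ⟨k, rfl⟩ := hc
  rw [h3, ← conj_mul, ← conj_mul, e, ← conj_zpow, hu, cm_zp (cm_mul (h.le q hq) (h.le q hq)) (zpow_mem (mem_zpowers z) k)]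
  group

theorem eigF (ht : t * z = z * t) (tt : t * t = 1) (t1 : t ≠ 1) (hu : u * z * u⁻¹ = z⁻¹) (uu : u * u = 1)
    (ut : u * t = t * u) (hq : q ∈ Q) : ∃ r ∈ Q, t * r * t⁻¹ = r⁻¹ ∧ u * r * u⁻¹ = r ∧
      ∃ c ∈ zpowers z, r = q * (u * q * u⁻¹) * (q * (u * q * u⁻¹)) * c := by
  have h0 := h.nI hu hq
  obtain ⟨h1, h2, c, hc, h3⟩ := h.iota ht tt t1 (mul_mem hq h0)
  refine ⟨_, h1, h2, ?_, c, hc, h3⟩
  have h4 : u * (q * (u * q * u⁻¹)) * u⁻¹ = u * q * u⁻¹ * q := by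
    calc _ = u * q * u⁻¹ * ((u * u) * q * (u * u)⁻¹) := by group
      _ = _ := by rw [uu]; group
  have h5 := h.com _ h0 _ hq
  generalize u * q * u⁻¹ = q' at *
  have h6 : q' * q = q' * q * q'⁻¹ * q⁻¹ * (q * q') := by group
  generalize q' * q * q'⁻¹ * q⁻¹ = e at *
  calc _ = u * (q * q') * u⁻¹ * (u * t * u⁻¹ * (u * (q * q') * u⁻¹) * (u * t * u⁻¹)⁻¹)⁻¹ := by group
    _ = e * (q * q') * (t * (q * q') * t⁻¹)⁻¹ * (t * e * t⁻¹)⁻¹ := by rw [h4, cj_of_cm ut, h6]; group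
    _ = _ := by rw [cj_of_cm (cm_zp ht h5), mul_assoc e, cj_of_cm (cm_zp (h.le _ h1) h5).symm]

theorem index3 {K : Subgroup G} (hK : K ≤ Q) (hq : q ∈ Q) : Nat.card K ≤ 3 * Nat.card ↥(K ⊓ centralizer {q}) := by
  let f : K →* Multiplicative (ZMod 3) := MonoidHom.mk' (fun x => Multiplicative.ofAdd (om z x q))
    fun a b => congrArg _ (h.omL (hK a.2) (hK b.2) hq)
  have h1 := f.ker.card_mul_index
  have h2 : f.ker = (K ⊓ centralizer {q}).subgroupOf K := by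
    ext x
    simp only [mem_subgroupOf, mem_inf, x.2, true_and, mem_centralizer_singleton_iff, ← h.om0 (hK x.2) hq]
    rfl
  rw [index_ker, h2, Nat.card_congr (subgroupOfEquivOfLe inf_le_left).toEquiv] at h1
  have h3 := card_le_card_group f.range
  rw [show Nat.card (Multiplicative (ZMod 3)) = 3 by simp] at h3
  nlinarith

theorem exom (hw : w ∈ Q) (w1 : w ∉ zpowers z) : ∃ b ∈ Q, om z w b = 1 := by
  obtain ⟨q, hq, e⟩ : ∃ q ∈ Q, om z w q ≠ 0 := by simpa using (h.memZ hw).not.mp w1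
  rcases (by decide : ∀ e : ZMod 3, e ≠ 0 → e = 1 ∨ -e = 1) _ e with e | e
  exacts [⟨q, hq, e⟩, ⟨_, inv_mem hq, (h.invR hw hq).trans e⟩]

end Hyp

/-- A mutual pair. -/
structure Mp (z w : G) (Q Q' : Subgroup G) (φ φ' : G → SL23) : Prop where
  H : Hyp z Q φ
  H' : Hyp w Q' φ'
  wQ : w ∈ Q
  w1 : w ∉ zpowers z

namespace Mp

variable {z w : G} {Q Q' : Subgroup G} {φ φ' : G → SL23} (M : Mp z w Q Q' φ φ') {a b t : G}
include M

theorem zw {e : G} (h1 : e ∈ zpowers z) (h2 : e ∈ zpowers w) : e = 1 := by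
  rcases mem_zpowers_three M.H'.oz h2 with rfl | rfl | rfl
  exacts [rfl, absurd h1 M.w1, absurd (inv_mem_iff.mp h1) M.w1]

theorem z1 : z ∉ zpowers w := fun e => by simpa [M.zw (mem_zpowers z) e] using M.H.oz

theorem exA : z ∈ Q' ∧ ∃ a ∈ Q, a ∈ Q' ∧ ∃ b ∈ Q, om z b w = 0 ∧ om z a b ≠ 0 := by
  have H := M.H
  obtain ⟨b, hb, e⟩ := H.exom M.wQ M.w1
  obtain ⟨a, ⟨⟨ha, aw⟩, ab⟩, a1⟩ : ∃ a ∈ Q ⊓ centralizer {w} ⊓ centralizer {b}, a ∉ zpowers z := by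
    by_contra! hn
    have h1 := H.index3 le_rfl M.wQ
    have h2 := H.index3 (K := Q ⊓ centralizer {w}) inf_le_left hb
    have h3 := card_le_of_le (show _ ≤ _ from hn)
    rw [Nat.card_zpowers, H.oz] at h3
    have := H.card
    omega
  obtain ⟨q, hq, e1⟩ := H.exom ha a1
  obtain ⟨l, -, e2⟩ := H.kill hb M.wQ hq (by rw [H.anti M.wQ hb, e]; decide)
  have h1 := mul_mem hq (pow_mem hb l)
  have e3 : om z a (q * b ^ l) = 1 := by
    rw [H.omR ha hq (pow_mem hb l), H.powR ha hb, (H.om0 ha hb).mpr (mem_centralizer_singleton_iff.mp ab), e1]; ring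
  generalize q * b ^ l = c at *
  have aw := mem_centralizer_singleton_iff.mp aw
  have cw := (H.om0 h1 M.wQ).mp e2
  have e4 : a * c * a⁻¹ * c⁻¹ = z := mul_inv_eq_iff_eq_mul.mpr ((H.om1 ha h1).mp e3)
  have zw := (H.le w M.wQ).symm
  have p3 : ∀ x ∈ Q, x * w = w * x → φ' x ^ 3 = 1 := fun x hx e => by rw [← M.H'.phi_pow e, H.exp x hx, M.H'.phi_one]
  have e5 : φ' z = φ' a * φ' c * (φ' a)⁻¹ * (φ' c)⁻¹ := by
    rw [← e4, M.H'.mul _ _ (cm_mul (cm_mul aw cw) (cm_inv aw)) (cm_inv cw), M.H'.phi_cj aw cw, M.H'.phi_inv cw]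
  obtain ⟨e6, e7⟩ := (by decide : ∀ α β : SL23, α ^ 3 = 1 → β ^ 3 = 1 → (α * β * α⁻¹ * β⁻¹) ^ 3 = 1 →
    α * β * α⁻¹ * β⁻¹ = 1 ∧ (α = 1 ∨ ∃ i < 3, β * α ^ i = 1)) _ _ (p3 a ha aw) (p3 c h1 cw) (e5 ▸ p3 z H.zQ zw)
  refine ⟨(M.H'.ker z zw).mp (e5.trans e6), ?_⟩
  rcases e7 with e7 | ⟨i, -, e7⟩
  · exact ⟨a, ha, (M.H'.ker a aw).mp e7, c, h1, e2, by rw [e3]; decide⟩
  · refine ⟨_, mul_mem h1 (pow_mem ha i), (M.H'.ker _ (cm_mul cw (cm_pow aw i))).mp (by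
      rwa [M.H'.mul _ _ cw (cm_pow aw i), M.H'.phi_pow aw]), a, ha, (H.om0 ha M.wQ).mpr aw, ?_⟩
    rw [H.omL h1 (pow_mem ha i) ha, H.powL ha ha, H.omS ha, H.anti ha h1, e3, mul_zero]
    decide

theorem symm : Mp w z Q' Q φ' φ := ⟨M.H', M.H, M.exA.1, M.z1⟩

theorem comm (h1 : a ∈ Q) (h2 : a ∈ Q') (h3 : b ∈ Q) (h4 : b ∈ Q') : a * b = b * a := by
  rw [← mul_inv_eq_iff_eq_mul, ← mul_inv_eq_one]
  exact M.zw (M.H.com a h1 b h3) (M.H'.com a h2 b h4)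

theorem exS (a2 : a ∈ Q') (hb : b ∈ Q) (bw : b * w = w * b) (ab : a * b ≠ b * a) :
    ∃ s ∈ Q', s * z = z * s ∧ om w a s ≠ 0 := by
  have H := M.H'
  have zQ := M.exA.1
  obtain ⟨c, hc, e⟩ := H.exom zQ M.z1
  obtain ⟨k, -, e1⟩ := H.kill zQ hc a2 (by rw [e]; decide)
  have h1 := mul_mem a2 (pow_mem zQ k)
  obtain ⟨q, hq, e2⟩ := H.exom h1 fun e => ab (by
    have := cm_mul (cm_zp bw e).symm (cm_inv (cm_pow (M.H.le b hb).symm k))
    rwa [mul_inv_cancel_right] at this)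
  obtain ⟨l, -, e3⟩ := H.kill hc zQ hq (by rw [H.anti zQ hc, e]; decide)
  have h2 := mul_mem hq (pow_mem hc l)
  refine ⟨_, h2, (H.om0 h2 zQ).mp e3, fun e4 => ?_⟩
  have e5 := H.omL a2 (pow_mem zQ k) h2
  rw [H.powL zQ h2, H.anti h2 zQ, e3, e4, H.omR h1 hq (pow_mem hc l), H.powR h1 hc, e1, e2] at e5
  simp at e5

theorem normW {g : G} (h1 : g * z * g⁻¹ ∈ closure {z, w}) (h2 : g * w * g⁻¹ ∈ closure {z, w}) :
    g ∈ normalizer (closure {z, w} : Subgroup G) := mem_normalizer_of_conj_mem fun e he => by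
  obtain ⟨i, -, j, -, rfl⟩ := G23.mem_pair M.H.z3 M.H'.z3 (M.H.le w M.wQ).symm he
  rw [← conj_mul, ← conj_pow, ← conj_pow]
  exact mul_mem (pow_mem h1 i) (pow_mem h2 j)

theorem exU (ht : t * z = z * t) (tt : t * t = 1) (tw : t * w * t⁻¹ = w⁻¹) : ∃ u, u * u = 1 ∧ u * t = t * u ∧
    u * z * u⁻¹ = z⁻¹ ∧ u * w * u⁻¹ = w⁻¹ ∧ ∀ a ∈ Q, a ∈ Q' → u * a * u⁻¹ * a⁻¹ ∈ closure {z, w} := by
  have zW : zpowers z ≤ closure {z, w} := zpowers_le.mpr (subset_closure (by simp))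
  have wW : zpowers w ≤ closure {z, w} := zpowers_le.mpr (subset_closure (by simp))
  have nW : ∀ {g e : G}, g ∈ normalizer (closure {z, w} : Subgroup G) → e ∈ closure {z, w} →
    g * e * g⁻¹ ∈ closure {z, w} := fun hg he => (mem_normalizer_iff.mp hg _).mp he
  let P : Subgroup G :=
    { carrier := {g | g ∈ normalizer (closure {z, w} : Subgroup G) ∧
        ∀ a ∈ Q, a ∈ Q' → g * a * g⁻¹ * a⁻¹ ∈ closure {z, w}}
      one_mem' := ⟨one_mem _, fun g _ _ => by simp⟩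
      mul_mem' := fun {x y} hx hy => ⟨mul_mem hx.1 hy.1, fun a h1 h2 => by
        convert mul_mem (nW hx.1 (hy.2 a h1 h2)) (hx.2 a h1 h2) using 1
        group⟩
      inv_mem' := fun {x} hx => ⟨inv_mem hx.1, fun a h1 h2 => by
        convert nW (inv_mem hx.1) (inv_mem (hx.2 a h1 h2)) using 1
        group⟩ }
  have zQ := M.exA.1
  have zw := M.H.le w M.wQ
  have h1 : Q ≤ P := fun q hq => ⟨M.normW (by rw [cj_of_cm (M.H.le q hq)]; exact zW (mem_zpowers z))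
    ((mul_mem_cancel_right (inv_mem (wW (mem_zpowers w)))).mp (zW (M.H.com q hq w M.wQ))),
    fun a h1 _ => zW (M.H.com q hq a h1)⟩
  have h2 : Q' ≤ P := fun q hq => ⟨M.normW
    ((mul_mem_cancel_right (inv_mem (zW (mem_zpowers z)))).mp (wW (M.H'.com q hq z zQ)))
    (by rw [cj_of_cm (M.H'.le q hq)]; exact wW (mem_zpowers w)), fun a _ h1 => wW (M.H'.com q hq a h1)⟩
  have h3 : ∀ g ∈ P, t * g * t⁻¹ ∈ P := fun g hg => by
    have tN := M.normW (by rw [cj_of_cm ht]; exact zW (mem_zpowers z)) (by rw [tw]; exact wW (inv_mem (mem_zpowers w)))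
    refine ⟨mul_mem (mul_mem tN hg.1) (inv_mem tN), fun a a1 a2 => ?_⟩
    convert nW tN (hg.2 _ (M.H.nC (cm_inv ht) a1) (M.H'.nI (Hyp0.inv_inv' tw) a2)) using 1
    group
  obtain ⟨b, hb, e1⟩ := M.H.exom M.wQ M.w1
  obtain ⟨c, hc, e2⟩ := M.H'.exom zQ M.z1
  obtain ⟨e3, e4⟩ := rot zw (M.H.le _ (inv_mem hb)) ((M.H.om1 (inv_mem hb) M.wQ).mp (by
    rw [M.H.invL hb M.wQ, ← M.H.anti hb M.wQ, e1])) (M.H'.le _ (inv_mem hc)) ((M.H'.om1 (inv_mem hc) zQ).mp (by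
    rw [M.H'.invL hc zQ, ← M.H'.anti hc zQ, e2]))
  have h4 := mul_mem (mul_mem (h1 (inv_mem hb)) (inv_mem (h2 (inv_mem hc)))) (h1 (inv_mem hb))
  generalize b⁻¹ * c⁻¹⁻¹ * b⁻¹ = n at e3 e4 h4
  have e5 := odd9 (g := n * n) (z := z) (by
    rw [show n * n * z * (n * n)⁻¹ = n * (n * z * n⁻¹) * n⁻¹ by group, e3, ← conj_inv, e4])
  have e6 := odd9 (g := n * n) (z := w) (by
    rw [show n * n * w * (n * n)⁻¹ = n * (n * w * n⁻¹) * n⁻¹ by group, e4, e3])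
  have e7 : (n * n) ^ 9 * (n * n) ^ 9 = 1 := by
    rw [← (Commute.refl _).mul_pow]
    exact M.H.c9 M.wQ M.w1 e5.1 e6.1
  have h5 := pow_mem (mul_mem h4 h4) 9
  generalize (n * n) ^ 9 = r at *
  have it := inv_eq_of_mul_eq_one_right tt
  have e8 := odd9 (g := t * r) (z := z) (by
    rw [show t * r * z * (t * r)⁻¹ = t * (r * z * r⁻¹) * t⁻¹ by group, e5.2, ← conj_inv, cj_of_cm ht])
  have e9 : t * r * w = w * (t * r) := cm_of_cj (by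
    rw [show t * r * w * (t * r)⁻¹ = t * (r * w * r⁻¹) * t⁻¹ by group, e6.2, ← conj_inv, tw, inv_inv])
  have e10 : (t * r) ^ 9 * (t * r) ^ 9 = 1 := by
    rw [← (Commute.refl _).mul_pow]
    exact M.H.c9 M.wQ M.w1 e8.1 (cm_mul e9 e9)
  have e11 : t * (t * r) ^ 9 = (t * r) ^ 9 * t := cm_of_cj (by
    rw [← conj_pow, ← mul_assoc, tt, one_mul, ← inv_eq_of_mul_eq_one_right e10, ← inv_pow, mul_inv_rev,
      inv_eq_of_mul_eq_one_right e7])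
  have h6 : t * (t * r) ^ 9 ∈ P := by
    rw [show (9 : ℕ) = 2 * 4 + 1 from rfl, pow_succ', pow_mul, pow_two, ← mul_assoc, ← mul_assoc, ← mul_assoc, tt,
      one_mul]
    exact mul_mem h5 (pow_mem (mul_mem (by simpa only [it] using h3 r h5) h5) 4)
  have e12 := cj_of_cm (cm_pow e9 9)
  generalize (t * r) ^ 9 = v at *
  refine ⟨t * v, by rw [mul_assoc, ← mul_assoc v, ← e11, ← mul_assoc, ← mul_assoc, tt, one_mul, e10],
    by rw [mul_assoc, ← e11], ?_, ?_, h6.2⟩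
  · rw [show t * v * z * (t * v)⁻¹ = t * (v * z * v⁻¹) * t⁻¹ by group, e8.2, ← conj_inv, cj_of_cm ht]
  · rw [show t * v * w * (t * v)⁻¹ = t * (v * w * v⁻¹) * t⁻¹ by group, e12, tw]

end Mp

end Cfsg.Agent.L43
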