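import Cfsg.Agent.L43.Frame
import Cfsg.Agent.L43.TC

/-! The relations of the Borel subgroup. -/

set_option autoImplicit false
set_option linter.unusedSectionVars false
set_option maxRecDepth 100000
set_option synthInstance.maxSize 4000

namespace Cfsg.Agent.L43

open Subgroup Cfsg.Agent.Local Cfsg.Agent.Mat

variable {G : Type*} [Group G] [Finite G]

/-- The relations of the Borel subgroup. -/
structure RB (z w y a b s t u : G) : Prop where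
  z3 : z ^ 3 = 1
  w3 : w ^ 3 = 1
  y3 : y ^ 3 = 1
  a3 : a ^ 3 = 1
  b3 : b ^ 3 = 1
  s3 : s ^ 3 = 1
  tt : t * t = 1
  uu : u * u = 1
  wz : w * z = z * w
  yz : y * z = z * y
  az : a * z = z * a
  bz : b * z = z * b
  sz : s * z = z * s
  tz : t * z = z * t
  uz : u * z * u⁻¹ = z⁻¹
  yw : y * w = w * y
  aw : a * w = w * a
  sw : s * w = w * s
  wb : w * b * w⁻¹ = z * b
  ay : a * y * a⁻¹ = z * y
  yb : b * y = y * b
  sy : s * y = y * s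
  ab : a * b = b * a
  as : a * s * a⁻¹ = w * s
  sb : s * b * s⁻¹ = y * b
  tw : t * w * t⁻¹ = w⁻¹
  ty : t * y * t⁻¹ = y⁻¹
  ta : t * a * t⁻¹ = a⁻¹
  tb : t * b * t⁻¹ = b⁻¹
  ts : t * s = s * t
  uw : u * w * u⁻¹ = w⁻¹
  uy : u * y * u⁻¹ = y⁻¹
  ua : u * a = a * u
  ub : u * b = b * u
  us : u * s * u⁻¹ = s⁻¹
  ut : u * t = t * u

/-- The letters. -/
def lB (z w y a b s t u : G) : List G := [z, z⁻¹, w, w⁻¹, y, y⁻¹, a, a⁻¹, b, b⁻¹, s, s⁻¹, t, t⁻¹, u, u⁻¹]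

theorem RB.rels {z w y a b s t u : G} (R : RB z w y a b s t u) (l : List G) :
    ∀ r ∈ relsB, ev (lB z w y a b s t u ++ l) r = 1 := by
  simp only [relsB, lB, List.forall_mem_cons, ev, List.cons_append, List.getD_cons_succ, List.getD_cons_zero,
    mul_one, ← mul_assoc, ← pow_three', R.z3, R.w3, R.y3, R.a3, R.b3, R.s3, R.tt, R.uu, cj_of_cm R.wz, cj_of_cm R.yz,
    cj_of_cm R.az, cj_of_cm R.bz, cj_of_cm R.sz, cj_of_cm R.tz, R.uz, cj_of_cm R.yw, cj_of_cm R.aw, cj_of_cm R.sw,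
    R.wb, R.ay, cj_of_cm R.yb, cj_of_cm R.sy, cj_of_cm R.ab, R.as, R.sb, R.tw, R.ty, R.ta, R.tb, cj_of_cm R.ts,
    R.uw, R.uy, cj_of_cm R.ua, cj_of_cm R.ub, R.us, cj_of_cm R.ut, mul_inv_cancel, inv_mul_cancel,
    mul_inv_cancel_right, List.not_mem_nil, IsEmpty.forall_iff, implies_true, and_self]

theorem cj_inv {g a : G} (h : g * a * g⁻¹ = a⁻¹) : g * a⁻¹ * g⁻¹ = a⁻¹⁻¹ := by rw [← conj_inv, h]

theorem cj_mul {g k a : G} : g * k * a * (g * k)⁻¹ = g * (k * a * k⁻¹) * g⁻¹ := by group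

theorem Mp.frame {z w : G} {Q Q' : Subgroup G} {φ φ' : G → SL23} (M : Mp z w Q Q' φ φ') {t : G} (ht : t * z = z * t)
    (tt : t * t = 1) (tw : t * w * t⁻¹ = w⁻¹) :
    ∃ y a b s u, RB z w y a b s t u ∧ y ∈ Q ∧ a ∈ Q ∧ b ∈ Q ∧ a ∈ Q' := by
  have H := M.H
  have H' := M.H'
  have wQ := M.wQ
  obtain ⟨u, uu, ut, uz, uw, hu⟩ := M.exU ht tt tw
  obtain ⟨zQ, a0, a1, a2, b0, b1, b2, b3⟩ := M.exA
  obtain ⟨s0, s1, s2, s3⟩ := M.exS a2 b1 ((H.om0 b1 wQ).mp b2) fun e => b3 ((H.om0 a1 b1).mpr e)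
  have ne : ∀ {x g : G}, orderOf x = 3 → g * x * g⁻¹ = x⁻¹ → g ≠ 1 := fun {x g} hx e e' => by
    rw [e', one_mul, inv_one, mul_one, eq_inv_iff_mul_eq_one, ← pow_two, ← orderOf_dvd_iff_pow_eq_one, hx] at e
    exact absurd e (by decide)
  have t1 := ne H'.oz tw
  have two : (1 : ZMod 3) + 1 + (1 + 1) = 1 := by decide
  obtain ⟨a, ha, ta, ua, ha', as0⟩ : ∃ a ∈ Q, t * a * t⁻¹ = a⁻¹ ∧ u * a * u⁻¹ = a ∧ a ∈ Q' ∧ om w a s0 ≠ 0 := by
    obtain ⟨a, ha, ta, ua, c, hc, e⟩ := H.eigF ht tt t1 uz uu ut a1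
    have p1 := H'.nI uw a2
    have p2 := zpowers_le.mpr zQ hc
    have p3 := mul_mem a2 p1
    refine ⟨a, ha, ta, ua, e ▸ mul_mem (mul_mem p3 p3) p2, ?_⟩
    have p4 : om w (u * a0 * u⁻¹ * a0⁻¹) s0 = 0 := (H'.om0 (mul_mem p1 (inv_mem a2)) s1).mpr
      (mem_centralizer_singleton_iff.mp ((closure_le (centralizer {s0})).mpr (by
        rintro _ (rfl | rfl)
        exacts [mem_centralizer_singleton_iff.mpr s2.symm, mem_centralizer_singleton_iff.mpr (H'.le _ s1).symm])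
        (hu a0 a1 a2)))
    rw [H'.omL p1 (inv_mem a2) s1, H'.invL a2 s1, add_neg_eq_zero] at p4
    rw [e, H'.omL (mul_mem p3 p3) p2 s1, H'.omL p3 p3 s1, H'.omL a2 p1 s1, p4, (H'.om0 p2 s1).mpr (cm_zp s2 hc).symm]
    exact fun e => s3 (by linear_combination e - om w a0 s0 * two)
  obtain ⟨s, hs, ts, us, sz, as0⟩ : ∃ s ∈ Q', t * s = s * t ∧ u * s * u⁻¹ = s⁻¹ ∧ s * z = z * s ∧ om w a s ≠ 0 := by
    have p1 := H'.nI uw s1
    have p2 := mul_mem s1 (inv_mem p1)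
    have p3 := cm_mul s2 (cm_inv (Hyp0.cm_cj uz s2))
    obtain ⟨s, hs, e1, e2, c, hc, e⟩ := H'.eigM (t := t * u) (cm_of_cj (by rw [cj_mul, uw, cj_inv tw, inv_inv]))
      (by rw [mul_assoc, ← mul_assoc u, ut, mul_assoc, uu, mul_one, tt]) (ne H.oz (by
        rw [cj_mul, uz, ← conj_inv, cj_of_cm ht])) uw p2 (by
        calc _ = u * s0 * u⁻¹ * ((u * u) * s0⁻¹ * (u * u)⁻¹) := by group
          _ = _ := by rw [uu]; group)
    refine ⟨s, hs, cm_of_cj (by rwa [cj_mul, e2, ← conj_inv, inv_inj] at e1), e2,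
      e ▸ cm_mul (cm_mul p3 p3) (cm_zp (H'.le z zQ) hc).symm, ?_⟩
    have p4 := H'.omI uw ha' s1
    rw [ua] at p4
    rw [e, H'.omR ha' (mul_mem p2 p2) (H'.zle hc), H'.omR ha' p2 p2, H'.omR ha' s1 (inv_mem p1), H'.invR ha' p1, p4,
      H'.anti (H'.zle hc) ha', H'.omZ hc ha']
    exact fun e => as0 (by linear_combination e - om w a s0 * two)
  obtain ⟨a, ha, ta, ua, ha', as⟩ : ∃ a ∈ Q, t * a * t⁻¹ = a⁻¹ ∧ u * a * u⁻¹ = a ∧ a ∈ Q' ∧ om w a s = 1 := by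
    rcases (by decide : ∀ e : ZMod 3, e ≠ 0 → e = 1 ∨ -e = 1) _ as0 with e | e
    exacts [⟨a, ha, ta, ua, ha', e⟩, ⟨_, inv_mem ha, cj_inv ta, by rw [← conj_inv, ua], inv_mem ha',
      (H'.invL ha' hs).trans e⟩]
  replace as := (H'.om1 ha' hs).mp as
  have aw := (H.om0 ha wQ).mpr (H'.le a ha')
  have sw := H'.le s hs
  have cab : ∀ b ∈ Q, u * b * u⁻¹ = b → om z a b = 0 := fun b hb e => z3_half (by
    have := H.omI uz ha hb
    rwa [ua, e] at this)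
  have sa : s⁻¹ * a * s = w * a := by
    rw [← mul_inv_eq_iff_eq_mul, show s⁻¹ * a * s * a⁻¹ = s⁻¹ * (a * s * a⁻¹) by group, as, ← sw]; group
  have sa' : s * a * s⁻¹ = w⁻¹ * a := by
    rw [eq_inv_mul_iff_mul_eq, ← cj_of_cm sw, conj_mul, ← sa]; group
  obtain ⟨b, hb, tb, ub, wb, sb⟩ : ∃ b ∈ Q, t * b * t⁻¹ = b⁻¹ ∧ u * b * u⁻¹ = b ∧ om z w b = 1 ∧
      om z (s * b * s⁻¹) b = 0 := by
    obtain ⟨q, hq, e0⟩ := H.exom wQ M.w1
    obtain ⟨b, hb, tb, ub, c, hc, e⟩ := H.eigF ht tt t1 uz uu ut hq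
    have p1 := H.nI uz hq
    have p3 := mul_mem hq p1
    have p4 := H.omI uz wQ hq
    rw [uw, H.invL wQ p1, neg_inj, e0] at p4
    have p5 : om z w b = 1 := by
      rw [e, H.omR wQ (mul_mem p3 p3) (H.zle hc), H.omR wQ p3 p3, H.omR wQ hq p1, p4, e0, H.anti (H.zle hc) wQ,
        H.omZ hc wQ, two, neg_zero, add_zero]
    have p6 := cab b hb ub
    have p7 := (H.om0 ha hb).mp p6
    obtain ⟨m, e1⟩ := (by decide : ∀ x : ZMod 3, ∃ m : Fin 3, x + (m.1 : ℕ) = 0) (om z (s * b * s⁻¹) b)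
    have p8 := pow_mem ha m
    have p9 := H.nC sz hb
    have p10 := mul_mem (inv_mem wQ) ha
    refine ⟨b * a ^ m.1, mul_mem hb p8, ?_, by rw [← conj_mul, ← conj_pow, ua, ub], ?_, ?_⟩
    · rw [← conj_mul, ← conj_pow, ta, tb, ← cm_pow p7, mul_inv_rev, inv_pow]
    · rw [H.omR wQ hb p8, H.powR wQ ha, H.anti ha wQ, aw, p5]; ring
    · rw [← conj_mul, ← conj_pow, sa', H.omL p9 (pow_mem p10 _) (mul_mem hb p8), H.powL p10 (mul_mem hb p8),
        H.omR p9 hb p8, H.powR p9 ha, H.omC' sz hb ha, sa, H.omR hb wQ ha, H.omR p10 hb p8, H.powR p10 ha,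
        H.omL (inv_mem wQ) ha hb, H.omL (inv_mem wQ) ha ha, H.invL wQ hb, H.invL wQ ha, H.anti wQ hb, H.anti ha hb,
        H.anti ha wQ, H.omS ha, aw, p5, p6]
      linear_combination e1 - (m.1 : ℕ) * (by decide : (3 : ZMod 3) = 0)
  have ab := cab b hb ub
  have p1 := H.nC sz hb
  have hy := mul_mem p1 (inv_mem hb)
  have yb : om z (s * b * s⁻¹ * b⁻¹) b = 0 := by rw [H.omL p1 (inv_mem hb) hb, H.invL hb hb, H.omS hb, sb]; ring
  have sw' : s⁻¹ * w * s = w := by rw [mul_assoc, ← sw]; group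
  have yw : om z (s * b * s⁻¹ * b⁻¹) w = 0 := by
    rw [H.omL p1 (inv_mem hb) wQ, H.invL hb wQ, H.omC' sz hb wQ, sw']; ring
  have ya : om z (s * b * s⁻¹ * b⁻¹) a = -1 := by
    rw [H.omL p1 (inv_mem hb) ha, H.invL hb ha, H.omC' sz hb ha, sa, H.omR hb wQ ha, H.anti wQ hb, wb]; ring
  have ty : t * (s * b * s⁻¹ * b⁻¹) * t⁻¹ = (s * b * s⁻¹ * b⁻¹)⁻¹ := by
    rw [← conj_mul, ← conj_mul, ← conj_mul, ← conj_inv (b := t), ← conj_inv (b := t), cj_of_cm ts, tb, ← conj_inv,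
      cm_inv (Commute.inv_right (Commute.inv_right ((H.om0 p1 hb).mp sb))).eq]
    group
  have uy : u * (s * b * s⁻¹ * b⁻¹) * u⁻¹ = s⁻¹ * b * s * b⁻¹ := by
    rw [← conj_mul, ← conj_mul, ← conj_mul, ← conj_inv (b := u), ← conj_inv (b := u), us, ub, inv_inv]
  have sb : s * b * s⁻¹ = s * b * s⁻¹ * b⁻¹ * b := by group
  generalize s * b * s⁻¹ * b⁻¹ = y at *
  have s3 := H'.exp s hs
  have sy : s * y = y * s := by
    have q1 := H.nC sz hy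
    have he := mul_mem q1 (inv_mem hy)
    have q2 := H.nC sz q1
    have q3 : s * (s * y * s⁻¹) * s⁻¹ * (s * y * s⁻¹) * y = 1 := by
      have : s * (s * (s * b * s⁻¹) * s⁻¹) * s⁻¹ = b := by
        rw [show s * (s * (s * b * s⁻¹) * s⁻¹) * s⁻¹ = s * s * s * b * (s * s * s)⁻¹ by group, ← pow_three', s3]; group
      have e1 : s * (s * b * s⁻¹) * s⁻¹ = s * y * s⁻¹ * (y * b) := by rw [sb, ← conj_mul, sb]
      rw [e1, ← conj_mul (c := y * b), ← sb, e1, ← mul_assoc, ← mul_assoc, mul_eq_right] at this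
      exact this
    have q4 := H.omZ (q3 ▸ one_mem (zpowers z)) hb
    have q5 := H.omC sz hy hb
    have q6 := H.omC sz q1 hb
    rw [H.omL (mul_mem q2 q1) hy hb, H.omL q2 q1 hb, yb] at q4
    rw [sb, H.omR q1 hy hb, yb] at q5
    rw [sb, H.omR q2 hy hb, H.omC' sz q1 hy, H.omC' sz hy (by simpa using H.nC (cm_inv sz) hy)] at q6
    rw [show s⁻¹ * (s⁻¹ * y * s) * s = s * y * s⁻¹ by
      rw [show s⁻¹ * (s⁻¹ * y * s) * s = (s * s)⁻¹ * y * (s * s) by group,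
        eq_inv_of_mul_eq_one_left ((pow_three' s).symm.trans s3), inv_inv],
      H.anti q1 hy] at q6
    have q7 : s * y * s⁻¹ * y⁻¹ ∈ zpowers z := H.basis4 wQ hb ha hy (by rw [wb]; decide)
      (by rw [H.anti hy ha, ya]; decide) (by rw [H.anti ha wQ, aw, neg_zero]) (by rw [H.anti hy wQ, yw, neg_zero])
      (by rw [H.anti ha hb, ab, neg_zero]) he
      (by rw [H.omL q1 (inv_mem hy) wQ, H.invL hy wQ, H.omC' sz hy wQ, sw']; ring)
      (by rw [H.omL q1 (inv_mem hy) hb, H.invL hy hb, yb]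
          linear_combination q4 - q6 - q5)
      (by rw [H.omL q1 (inv_mem hy) ha, H.invL hy ha, H.omC' sz hy ha, sa, H.omR hy wQ ha, yw]; ring)
      (by rw [H.omL q1 (inv_mem hy) hy, H.invL hy hy, H.omS hy]
          linear_combination 2 * q5 + q6 - q4)
    have q8 := cj_of_cm (cm_zp ht q7)
    rw [← conj_mul, ← conj_mul, ← conj_mul, ← conj_inv (b := t), ← conj_inv (b := t), cj_of_cm ts, ty] at q8
    rw [← mul_inv_eq_iff_eq_mul, ← mul_inv_eq_one]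
    refine sq_cube (mul_eq_one_iff_inv_eq.mpr ?_) (H.exp _ he)
    calc _ = y⁻¹ * (s * y * s⁻¹ * y⁻¹)⁻¹ * y⁻¹⁻¹ := (cj_of_cm (cm_zp (H.le _ (inv_mem hy)) (inv_mem q7))).symm
      _ = _ := by group
      _ = _ := q8
  refine ⟨y, a, b, s, u, ⟨H.z3, H'.z3, H.exp y hy, H.exp a ha, H.exp b hb, s3, tt, uu, H.le w wQ, H.le y hy, H.le a ha,
    H.le b hb, sz, ht, uz, (H.om0 hy wQ).mp yw, H'.le a ha', sw, (H.om1 wQ hb).mp wb,
    (H.om1 ha hy).mp (by rw [H.anti hy ha, ya, neg_neg]), ((H.om0 hy hb).mp yb).symm, sy, (H.om0 ha hb).mp ab, as, sb,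
    tw, ty, ta, tb, ts, uw, ?_, cm_of_cj ua, cm_of_cj ub, us, ut⟩, hy, ha, hb, ha'⟩
  rw [uy, mul_inv_eq_iff_eq_mul, ← mul_left_cancel_iff (a := y), ← mul_assoc, ← mul_assoc, ← cm_inv sy, mul_assoc _ y,
    ← sb]
  group

end Cfsg.Agent.L43
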