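import Cfsg.Agent.L43.Frame2

/-! The Weyl generators. -/

set_option autoImplicit false
set_option linter.unusedSectionVars false
set_option maxRecDepth 100000
set_option synthInstance.maxSize 4000

namespace Cfsg.Agent.L43

open Subgroup Cfsg.Agent.Local Cfsg.Agent.Mat

variable {G : Type*} [Group G] [Finite G]

theorem q8 {n x t : G} (nn : n * n = t) (tt : t * t = 1) (tx : t * x = x * t) (x3 : x ^ 3 = 1)
    (c1 : (n * x) ^ 3 * n = n * (n * x) ^ 3) (c2 : (n * x) ^ 3 * x = x * (n * x) ^ 3) (c3 : ((n * x) ^ 3) ^ 3 = 1) :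
    (n * x) ^ 3 = 1 := by
  have h0 : n * (x * n * x⁻¹) = (n * x) ^ 3 * (x⁻¹ * n * x)⁻¹ := by
    rw [pow_three', eq_mul_inv_iff_mul_eq, show n * (x * n * x⁻¹) * (x⁻¹ * n * x) = n * x * n * (x * x)⁻¹ * n * x by group,
      eq_inv_of_mul_eq_one_left ((pow_three' x).symm.trans x3)]
    group
  have n2 : x * n * x⁻¹ * (x * n * x⁻¹) = t := by rw [conj_mul, nn, cj_of_cm tx.symm]
  have n3 : x⁻¹ * n * x * (x⁻¹ * n * x) = t := by
    rw [show x⁻¹ * n * x * (x⁻¹ * n * x) = x⁻¹ * (n * n * x) by group, nn, tx, inv_mul_cancel_left]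
  have c4 := cm_inv (cm_mul (cm_mul (cm_inv c2.symm) c1.symm) c2.symm)
  generalize (n * x) ^ 3 = c at *
  generalize x * n * x⁻¹ = p at *
  generalize x⁻¹ * n * x = q at *
  have tn : n * t = t * n := by rw [← nn, mul_assoc]
  have h1 : n * p * (n * p) = c * c * t := by
    rw [h0, show c * q⁻¹ * (c * q⁻¹) = c * (q⁻¹ * c) * q⁻¹ by group, c4, ← inv_eq_of_mul_eq_one_right tt, ← n3]; group
  have h2 : n⁻¹ * (n * p) * n = (n * p)⁻¹ := eq_inv_of_mul_eq_one_right (by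
    rw [show n * p * (n⁻¹ * (n * p) * n) = n * (p * p) * n by group, n2, tn, mul_assoc, nn, tt])
  have h3 : n⁻¹ * (c * c * t) * n = (c * c * t)⁻¹ := by
    rw [← h1, show n⁻¹ * (n * p * (n * p)) * n = n⁻¹ * (n * p) * n * (n⁻¹ * (n * p) * n) by group, h2]; group
  rw [mul_assoc, cm_mul (cm_mul c1 c1) tn.symm, inv_mul_cancel_left, eq_inv_iff_mul_eq_one,
    show c * c * t * (c * c * t) = c * c * (t * (c * c)) * t by group, ← nn,
    cm_mul (cm_mul c1 c1).symm (cm_mul c1 c1).symm, nn, show c * c * (c * c * t) * t = c * c * c * c * (t * t) by group,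
    tt, mul_one, ← pow_three', c3, one_mul] at h3
  exact h3

theorem br {n m t u : G} (nn : n * n = t) (mm : m * m = u) (tt : t * t = 1) (uu : u * u = 1) (ut : u * t = t * u)
    (un : u * n * u⁻¹ = n⁻¹) (tm : t * m * t⁻¹ = m⁻¹) :
    t * (n * m * n) * t⁻¹ = t * u * (n * m * n) ∧ t * (m * n * m) * t⁻¹ = t * u * (m * n * m) := by
  have tn : t * n * t⁻¹ = n := by rw [← nn]; group
  have ni : n⁻¹ = t * n := inv_eq_of_mul_eq_one_left (by rw [mul_assoc, nn, tt])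
  have mi : m⁻¹ = u * m := inv_eq_of_mul_eq_one_left (by rw [mul_assoc, mm, uu])
  have nu : n * u = u * (t * n) := by
    rw [← ni, ← un, ← mul_assoc, ← mul_assoc, uu, one_mul, inv_eq_of_mul_eq_one_right uu]
  have mt : m * t = t * (u * m) := by
    rw [← mi, ← tm, ← mul_assoc, ← mul_assoc, tt, one_mul, inv_eq_of_mul_eq_one_right tt]
  constructor <;> rw [← conj_mul, ← conj_mul, tn, tm, mi]
  · rw [← mul_assoc, nu, ← ut]; group
  · calc _ = u * m * (n * u) * m := by group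
      _ = m * m * m * (m * m) * t * n * m := by rw [nu, ← mm]; group
      _ = u * u * (m * t) * n * m := by rw [← mm]; group
      _ = _ := by rw [uu, mt]; group

theorem cj_inv' {g a b : G} (h : g * a * g⁻¹ = b⁻¹) : g * a⁻¹ * g⁻¹ = b := by rw [← conj_inv, h, inv_inv]

namespace Hyp

variable {z : G} {Q : Subgroup G} {φ : G → SL23} (h : Hyp z Q φ) {t x q r : G}
include h

theorem memQ (ht : t * z = z * t) (tt : t * t = 1) (t1 : t ≠ 1) (hx : x * z = z * x) (x3 : x ^ 3 = 1)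
    (e : t * x * t⁻¹ = x⁻¹) : x ∈ Q :=
  (h.ker x hx).mp ((by decide : ∀ σ : SL23, σ ^ 3 = 1 → -1 * σ * (-1)⁻¹ = σ⁻¹ → σ = 1) _
    (by rw [← h.phi_pow hx, x3, h.phi_one]) (by rw [← h.phi_t ht tt t1, ← h.phi_cj ht hx, e, h.phi_inv hx]))

theorem fixZ (ht : t * z = z * t) (tt : t * t = 1) (t1 : t ≠ 1) (hq : q ∈ Q) (e : t * q = q * t) : q ∈ zpowers z :=
  h.mem_of_sq hq (by simpa only [cj_of_cm e] using h.inv t ht (h.phi_t ht tt t1) tt q hq)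

theorem invZ (ht : t * z * t⁻¹ = z⁻¹) (hq : q ∈ zpowers z) (e : t * q = q * t) : q = 1 := by
  obtain ⟨k, rfl⟩ := hq
  refine sq_cube (mul_eq_one_iff_eq_inv.mpr ?_) (h.exp _ (zpow_mem h.zQ k))
  nth_rewrite 1 [← cj_of_cm e]
  rw [← conj_zpow, ht, inv_zpow]

theorem exact (ht : t * z = z * t) (hr : r ∈ Q) (e : q * r⁻¹ ∈ zpowers z) (e1 : t * q * t⁻¹ = q⁻¹)
    (e2 : t * r * t⁻¹ = r⁻¹) : q = r := by
  have h1 := cj_of_cm (cm_zp ht e)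
  rw [← conj_mul, e1, cj_inv e2] at h1
  refine mul_inv_eq_one.mp (sq_cube (mul_eq_one_iff_inv_eq.mpr ?_) (h.exp _ (h.zle e)))
  calc _ = r⁻¹ * (q * r⁻¹)⁻¹ * r⁻¹⁻¹ := (cj_of_cm (cm_zp (h.le _ (inv_mem hr)) (inv_mem e))).symm
    _ = _ := by group
    _ = _ := h1

theorem ne_one (e : t * x * t⁻¹ = x⁻¹) (x3 : x ^ 3 = 1) (x1 : x ≠ 1) : t ≠ 1 := fun e' => x1 (sq_cube (by
  rwa [e', one_mul, inv_one, mul_one, eq_inv_iff_mul_eq_one] at e) x3)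

theorem z1 : z ≠ 1 := fun e => by simpa [e] using h.oz

end Hyp

namespace RB

variable {z w y a b s t u : G} (R : RB z w y a b s t u) {Q : Subgroup G} {φ : G → SL23} (H : Hyp z Q φ) {g : G}
include R H

theorem t1 : t ≠ 1 := H.ne_one R.tw R.w3 fun e => H.z1 (by simpa [e] using R.wb.symm)

theorem wQ : w ∈ Q := H.memQ R.tz R.tt (R.t1 H) R.wz R.w3 R.tw

theorem yQ : y ∈ Q := H.memQ R.tz R.tt (R.t1 H) R.yz R.y3 R.ty

theorem aQ : a ∈ Q := H.memQ R.tz R.tt (R.t1 H) R.az R.a3 R.ta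

theorem bQ : b ∈ Q := H.memQ R.tz R.tt (R.t1 H) R.bz R.b3 R.tb

theorem oms : (om z w b = 1 ∧ om z a y = 1 ∧ om z w a = 0 ∧ om z w y = 0 ∧ om z b a = 0 ∧ om z b y = 0) ∧
    om z b w = -1 ∧ om z y a = -1 ∧ om z a w = 0 ∧ om z y w = 0 ∧ om z a b = 0 ∧ om z y b = 0 := by
  have h1 := (H.om1 (R.wQ H) (R.bQ H)).mpr R.wb
  have h2 := (H.om1 (R.aQ H) (R.yQ H)).mpr R.ay
  exact ⟨⟨h1, h2, (H.om0 (R.wQ H) (R.aQ H)).mpr R.aw.symm, (H.om0 (R.wQ H) (R.yQ H)).mpr R.yw.symm,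
    (H.om0 (R.bQ H) (R.aQ H)).mpr R.ab.symm, (H.om0 (R.bQ H) (R.yQ H)).mpr R.yb⟩,
    h1 ▸ H.anti (R.wQ H) (R.bQ H), h2 ▸ H.anti (R.aQ H) (R.yQ H), (H.om0 (R.aQ H) (R.wQ H)).mpr R.aw,
    (H.om0 (R.yQ H) (R.wQ H)).mpr R.yw, (H.om0 (R.aQ H) (R.bQ H)).mpr R.ab, (H.om0 (R.yQ H) (R.bQ H)).mpr R.yb.symm⟩

theorem w1 : w ∉ zpowers z := fun e => absurd ((H.omZ e (R.bQ H)).symm.trans (R.oms H).1.1) (by decide)

theorem bas (hg : g ∈ Q) (h1 : om z g w = 0) (h2 : om z g b = 0) (h3 : om z g a = 0) (h4 : om z g y = 0) :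
    g ∈ zpowers z := by
  obtain ⟨⟨e1, e2, e3, e4, e5, -⟩, -⟩ := R.oms H
  exact H.basis4 (R.wQ H) (R.bQ H) (R.aQ H) (R.yQ H) (by rw [e1]; decide) (by rw [e2]; decide) e3 e4 e5 hg h1 h2 h3 h4

omit H in
theorem sa : s⁻¹ * a * s = w * a ∧ s * a * s⁻¹ = w⁻¹ * a ∧ s⁻¹ * b * s = y⁻¹ * b ∧ s⁻¹ * w * s = w ∧
    s⁻¹ * y * s = y := by
  have h1 : s⁻¹ * a * s = w * a := by
    rw [← mul_inv_eq_iff_eq_mul, show s⁻¹ * a * s * a⁻¹ = s⁻¹ * (a * s * a⁻¹) by group, R.as, ← R.sw]; group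
  have h2 : s⁻¹ * y * s = y := by rw [mul_assoc, ← R.sy]; group
  refine ⟨h1, by rw [eq_inv_mul_iff_mul_eq, ← cj_of_cm R.sw, conj_mul, ← h1]; group, ?_,
    by rw [mul_assoc, ← R.sw]; group, h2⟩
  rw [eq_inv_mul_iff_mul_eq, ← h2, show s⁻¹ * y * s * (s⁻¹ * b * s) = s⁻¹ * (y * b) * s by group, ← R.sb]
  group

theorem s1 : φ s ≠ 1 := fun e => R.w1 H (inv_mem_iff.mp (by
  simpa [R.sa.2.1] using H.com s ((H.ker s R.sz).mp e) a (R.aQ H)))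

theorem centW (h1 : g * z = z * g) (h2 : g * w = w * g) (h3 : u * g = g * u) : g ∈ zpowers a := by
  have c := fun {x} => H.c3 (g := x) (R.wQ H) (R.w1 H)
  obtain ⟨i, -, e⟩ := (by decide : ∀ α β : SL23, β ≠ 1 → β ^ 3 = 1 → α ^ 3 = 1 → (α * β) ^ 3 = 1 →
    (α * β⁻¹) ^ 3 = 1 → ∃ i < 3, α * β ^ i = 1 ∧ (α * β⁻¹ ^ i = 1 → α = 1)) _ _ (R.s1 H) (c R.sz R.sw) (c h1 h2)
    (H.mul _ _ h1 R.sz ▸ c (cm_mul h1 R.sz) (cm_mul h2 R.sw))
    (H.phi_inv R.sz ▸ H.mul _ _ h1 (cm_inv R.sz) ▸ c (cm_mul h1 (cm_inv R.sz)) (cm_mul h2 (cm_inv R.sw)))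
  have h4 := H.nI R.uz ((H.ker _ (cm_mul h1 (cm_pow R.sz i))).mp (by rw [H.mul _ _ h1 (cm_pow R.sz i), H.phi_pow R.sz, e.1]))
  rw [← conj_mul, ← conj_pow, cj_of_cm h3, R.us] at h4
  have hg := (H.ker g h1).mp (e.2 (by
    rw [← H.phi_inv R.sz, ← H.phi_pow (cm_inv R.sz), ← H.mul _ _ h1 (cm_pow (cm_inv R.sz) i)]
    exact (H.ker _ (H.le _ h4)).mpr h4))
  obtain ⟨⟨-, e2, -⟩, -, -, e3, -, e4, -⟩ := R.oms H
  obtain ⟨k, -, e5⟩ := H.kill (R.aQ H) (R.yQ H) hg (by rw [e2]; decide)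
  have h5 := mul_mem hg (pow_mem (R.aQ H) k)
  have h6 := cm_mul h3.symm (cm_pow R.ua.symm k)
  have h7 : ∀ x ∈ Q, u * x = x * u → om z (g * a ^ k) x = 0 := fun x hx e => z3_half (by
    have := H.omI R.uz h5 hx
    rwa [cj_of_cm h6.symm, cj_of_cm e] at this)
  have h8 := H.invZ R.uz (R.bas H h5 ((H.om0 h5 (R.wQ H)).mpr (cm_mul h2 (cm_pow R.aw k))) (h7 b (R.bQ H) R.ub)
    (h7 a (R.aQ H) R.ua) e5) h6.symm
  exact eq_inv_of_mul_eq_one_left h8 ▸ inv_mem (pow_mem (mem_zpowers a) k)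

theorem centW' (h1 : g * z = z * g) (h2 : g * w = w * g) (h3 : u * g = g * u) (h4 : t * g = g * t) : g = 1 := by
  obtain ⟨k, rfl⟩ := R.centW H h1 h2 h3
  refine sq_cube (mul_eq_one_iff_eq_inv.mpr ?_) (H.exp _ (zpow_mem (R.aQ H) k))
  nth_rewrite 1 [← cj_of_cm h4]
  rw [← conj_zpow, R.ta, inv_zpow]

theorem quad {c r : G} (hc : c ∈ Q) (hr : r ∈ Q) : om z (s * c * s⁻¹) r + om z (s⁻¹ * c * s) r + om z c r = 0 := by
  have n' : ∀ {q}, q ∈ Q → s⁻¹ * q * s ∈ Q := fun hq => by simpa using H.nC (cm_inv R.sz) hq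
  have h1 : ∀ r ∈ Q, om z (s * c * s⁻¹ * (s⁻¹ * c * s) * c) r =
      om z c (s⁻¹ * r * s) + om z c (s * r * s⁻¹) + om z c r := fun r hr => by
    have := H.omC' (cm_inv R.sz) hc hr
    rw [inv_inv] at this
    rw [H.omL (mul_mem (H.nC R.sz hc) (n' hc)) hc hr, H.omL (H.nC R.sz hc) (n' hc) hr, H.omC' R.sz hc hr, this]
  have h3 : (3 : ZMod 3) = 0 := by decide
  obtain ⟨e1, e2, e3, e4, e5⟩ := R.sa
  have := H.omZ (R.bas H (mul_mem (mul_mem (H.nC R.sz hc) (n' hc)) hc)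
    (by rw [h1 w (R.wQ H), e4, cj_of_cm R.sw]; linear_combination om z c w * h3)
    (by rw [h1 b (R.bQ H), e3, R.sb, H.omR hc (inv_mem (R.yQ H)) (R.bQ H), H.omR hc (R.yQ H) (R.bQ H),
          H.invR hc (R.yQ H)]; linear_combination om z c b * h3)
    (by rw [h1 a (R.aQ H), e1, e2, H.omR hc (inv_mem (R.wQ H)) (R.aQ H), H.omR hc (R.wQ H) (R.aQ H),
          H.invR hc (R.wQ H)]; linear_combination om z c a * h3)
    (by rw [h1 y (R.yQ H), e5, cj_of_cm R.sy]; linear_combination om z c y * h3)) hr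
  rwa [H.omL (mul_mem (H.nC R.sz hc) (n' hc)) hc hr, H.omL (H.nC R.sz hc) (n' hc) hr] at this

end RB

/-- The relations of the first Weyl generator. -/
structure RN (z w y a b s t u n : G) : Prop where
  nn : n * n = t
  nz : n * z = z * n
  nw : n * w * n⁻¹ = a
  ny : n * y * n⁻¹ = b⁻¹
  un : u * n * u⁻¹ = n⁻¹
  ns : (n * s) ^ 3 = 1

theorem RB.exN {z w y a b s t u : G} (R : RB z w y a b s t u) {Q : Subgroup G} {φ : G → SL23} (H : Hyp z Q φ) :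
    ∃ n, RN z w y a b s t u n := by
  have t1 := R.t1 H
  have ft := H.phi_t R.tz R.tt t1
  have f3 := H.c3 (R.wQ H) (R.w1 H) R.sz R.sw
  have uq : ∀ n n', n * z = z * n → n' * z = z * n' → n * n = t → n' * n' = t → φ n = φ n' → n = n' :=
    fun n n' h1 h2 h3 h4 e => by
      have h5 := H.fixZ R.tz R.tt t1 (H.phi_eq h1 h2 e) (cm_mul (x := n) (by rw [← h3, mul_assoc])
        (cm_inv (by rw [← h4, mul_assoc]))).symm
      refine mul_inv_eq_one.mp (sq_cube ?_ (H.exp _ (H.zle h5)))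
      nth_rewrite 2 [← cj_of_cm (cm_zp h2 h5)]
      rw [show n * n'⁻¹ * (n' * (n * n'⁻¹) * n'⁻¹) = n * n * (n' * n')⁻¹ by group, h3, h4, mul_inv_cancel]
  have cube : ∀ n, n * z = z * n → n * n = t → (φ n * φ s) ^ 3 = 1 → (n * s) ^ 3 = 1 := fun n h1 h2 e => by
    have h3 := cm_pow (cm_mul h1 R.sz) 3
    have h4 := H.fixZ R.tz R.tt t1 ((H.ker _ h3).mp (by rwa [H.phi_pow (cm_mul h1 R.sz), H.mul _ _ h1 R.sz]))
      (cm_pow (cm_mul (x := n) (by rw [← h2, mul_assoc]) R.ts.symm) 3).symm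
    exact q8 h2 R.tt R.ts R.s3 (cm_zp h1 h4).symm (cm_zp R.sz h4).symm (H.exp _ (H.zle h4))
  obtain ⟨n, nz, nn, ns⟩ : ∃ n, n * z = z * n ∧ n * n = t ∧ (φ n * φ s) ^ 3 = 1 := by
    obtain ⟨i, e1, e2⟩ := (by decide : ∀ σ : SL23, σ ≠ 1 → σ ^ 3 = 1 → ∃ i, i * i = -1 ∧ (i * σ) ^ 3 = 1) _ (R.s1 H) f3
    obtain ⟨g, hg, rfl⟩ := H.surj i
    have h1 := H.phi_eq (cm_mul (cm_mul hg R.tz) (cm_inv hg)) R.tz (by rw [H.phi_cj hg R.tz, ft]; simp)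
    have h2 : g * t * g⁻¹ * t⁻¹ * g * t = t * (g * t * g⁻¹ * t⁻¹ * g) := cm_of_cj (by
      have h3 := H.exp _ h1
      have h4 : t * (g * t * g⁻¹ * t⁻¹)⁻¹ * t⁻¹ = g * t * g⁻¹ * t⁻¹ := by
        calc _ = t * t * (g * t⁻¹ * g⁻¹ * t⁻¹) := by group
          _ = _ := by rw [R.tt, one_mul, inv_eq_of_mul_eq_one_right R.tt]
      have h5 : g * t * g⁻¹ = g * t * g⁻¹ * t⁻¹ * t := by group
      generalize g * t * g⁻¹ * t⁻¹ = x at *
      rw [cj_mul, h5, show x * (x * t) * x⁻¹ = x * x * (t * x⁻¹ * t⁻¹) * t by group, h4, ← pow_three', h3, one_mul])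
    have h3 := cm_mul (H.le _ h1) hg
    have h4 : φ (g * t * g⁻¹ * t⁻¹ * g) = φ g := by rw [H.mul _ _ (H.le _ h1) hg, (H.ker _ (H.le _ h1)).mpr h1, one_mul]
    generalize g * t * g⁻¹ * t⁻¹ * g = k at h2 h3 h4
    have h5 := H.fixZ R.tz R.tt t1 (H.phi_eq (cm_mul h3 h3) R.tz (by rw [H.mul _ _ h3 h3, h4, e1, ft]))
      (cm_mul (cm_mul h2 h2) (cm_inv rfl)).symm
    have h6 := H.le _ (H.zle h5)
    refine ⟨k * (k * k * t⁻¹), cm_mul h3 h6, ?_, by rwa [H.mul _ _ h3 h6, (H.ker _ h6).mpr (H.zle h5), mul_one, h4]⟩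
    have h7 := H.exp _ (H.zle h5)
    have h8 := cm_zp h3 h5
    have h9 := cm_zp R.tz h5
    have h10 : k * k = k * k * t⁻¹ * t := by group
    generalize k * k * t⁻¹ = c at *
    rw [mul_assoc, ← mul_assoc c, ← h8, ← mul_assoc, ← mul_assoc, h10, ← h9,
      mul_assoc, mul_assoc, ← pow_three, h7, mul_one]
  obtain ⟨n, nz, nn, ns, un⟩ : ∃ n, n * z = z * n ∧ n * n = t ∧ (n * s) ^ 3 = 1 ∧ u * n * u⁻¹ = n⁻¹ := by
    have h1 := cube n nz nn ns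
    have h2 := Hyp0.cm_cj R.uz (cm_inv nz)
    have h3 : u * n⁻¹ * u⁻¹ * (u * n⁻¹ * u⁻¹) = t := by
      rw [conj_mul, ← mul_inv_rev, nn, inv_eq_of_mul_eq_one_right R.tt, cj_of_cm R.ut]
    have h4 : (s * (u * n⁻¹ * u⁻¹)) ^ 3 = 1 := by
      rw [← inv_inv s, ← cj_inv R.us, conj_mul, conj_pow, ← mul_inv_rev, inv_pow, h1]; group
    obtain ⟨k, hk, e⟩ := (by decide : ∀ σ i j : SL23, σ ≠ 1 → σ ^ 3 = 1 → i * i = -1 → j * j = -1 → (i * σ) ^ 3 = 1 →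
      (σ * j) ^ 3 = 1 → ∃ k < 3, j = σ ^ k * i * (σ ^ k)⁻¹) _ _ _ (R.s1 H) f3 (by rw [← H.mul _ _ nz nz, nn, ft])
      (by rw [← H.mul _ _ h2 h2, h3, ft]) ns (by rw [← H.mul _ _ R.sz h2, ← H.phi_pow (cm_mul R.sz h2), h4, H.phi_one])
    have h5 : ∀ k : ℕ, s ^ k * n * (s ^ k)⁻¹ * z = z * (s ^ k * n * (s ^ k)⁻¹) ∧
        s ^ k * n * (s ^ k)⁻¹ * (s ^ k * n * (s ^ k)⁻¹) = t := fun k =>
      ⟨cm_mul (cm_mul (cm_pow R.sz k) nz) (cm_inv (cm_pow R.sz k)), by rw [conj_mul, nn, cj_of_cm (cm_pow R.ts.symm k)]⟩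
    have h6 := uq _ _ h2 (h5 k).1 h3 (h5 k).2 (by rw [e, H.phi_cj (cm_pow R.sz k) nz, H.phi_pow R.sz])
    refine ⟨_, (h5 (2 * k)).1, (h5 (2 * k)).2, ?_, ?_⟩
    · rw [show s ^ (2 * k) * n * (s ^ (2 * k))⁻¹ * s = s ^ (2 * k) * (n * s) * (s ^ (2 * k))⁻¹ by group, conj_pow, h1]
      group
    · have h7 : s ^ k * s ^ k = (s ^ k)⁻¹ := eq_inv_of_mul_eq_one_left (by
        rw [← pow_three', ← pow_mul, mul_comm, pow_mul, R.s3, one_pow])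
      rw [← conj_mul, ← conj_mul, ← conj_inv (b := u), ← conj_pow, R.us, ← inv_inv (u * n * u⁻¹), conj_inv, h6,
        inv_pow, two_mul, pow_add, h7]
      generalize s ^ k = S at h7
      rw [show S⁻¹⁻¹ * (S * n * S⁻¹)⁻¹ * S⁻¹⁻¹⁻¹ = S * S * n⁻¹ * (S * S)⁻¹ by group, h7]
      group
  have tn : t * n * t⁻¹ = n := by rw [← nn]; group
  have ni : n⁻¹ = n * t := inv_eq_of_mul_eq_one_right (by rw [← mul_assoc, nn, R.tt])
  have key : ∀ v ∈ Q, s * v = v * s → t * v * t⁻¹ = v⁻¹ → u * v * u⁻¹ = v⁻¹ → ∀ p ∈ Q, t * p * t⁻¹ = p⁻¹ →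
      u * p = p * u → om z v a = -om z p w → om z v b = om z p y → n * v * n⁻¹ = p := fun v hv sv tv uv p hp tp up e1 e2 => by
    have hx := H.nC nz hv
    have h1 : t * (n * v * n⁻¹) * t⁻¹ = (n * v * n⁻¹)⁻¹ := by
      rw [← conj_mul, ← conj_mul, ← conj_inv (b := t), tn, tv]; group
    have h2 : u * (n * v * n⁻¹) * u⁻¹ = n * v * n⁻¹ := by
      rw [← conj_mul, ← conj_mul, ← conj_inv (b := u), un, uv]
      nth_rewrite 1 2 [ni]
      rw [cj_mul, cj_inv tv, inv_inv]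
    have h3 : ∀ r ∈ Q, om z (s * (n * v * n⁻¹) * s⁻¹) r - om z (s⁻¹ * (n * v * n⁻¹) * s) r = om z v r := fun r hr => by
      have c1 : n⁻¹ * v * n ∈ Q := by simpa using H.nC (cm_inv nz) hv
      have c2 : n⁻¹ * r * n ∈ Q := by simpa using H.nC (cm_inv nz) hr
      have c3 := R.quad H c1 c2
      have c4 : s * n * s = n⁻¹ * s⁻¹ * n⁻¹ := by
        rw [← mul_left_cancel_iff (a := n), ← mul_right_cancel_iff (a := n * s), ← mul_inv_eq_one, ← ns, pow_three']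
        group
      have c5 : s * (n * v * n⁻¹) * s⁻¹ = n * (t * (s⁻¹ * (n⁻¹ * v * n) * s) * t⁻¹) * n⁻¹ := by
        rw [← cj_mul (g := n), ← ni]
        calc _ = s * n * s * (s⁻¹ * v * s) * (s * n * s)⁻¹ := by group
          _ = _ := by rw [c4, mul_assoc s⁻¹ v, ← sv]; group
      have c6 : s⁻¹ * (n * v * n⁻¹) * s = n * (s * (n⁻¹ * v * n) * s⁻¹) * n⁻¹ := by
        calc _ = s⁻¹ * (n⁻¹ * (t * v * t⁻¹) * n) * s := by rw [← nn]; group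
          _ = n * (s * n * s) * (s⁻¹ * v⁻¹ * s) * (n * (s * n * s))⁻¹ := by
            rw [tv, c4, mul_assoc s⁻¹ v⁻¹, cm_inv sv.symm]
            calc _ = s⁻¹ * n⁻¹ * v⁻¹ * (s⁻¹ * n⁻¹)⁻¹ := by group
              _ = _ := by group
          _ = n * (s * (n⁻¹ * (t * v⁻¹ * t⁻¹) * n) * s⁻¹) * n⁻¹ := by rw [← nn]; group
          _ = _ := by rw [cj_inv tv, inv_inv]
      have c7 : s⁻¹ * (n⁻¹ * v * n) * s ∈ Q := by simpa using H.nC (cm_inv R.sz) c1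
      have c8 := H.omZ (H.inv t R.tz ft R.tt _ c7) c2
      have c9 := H.omC' nz c1 hr
      rw [H.omL (H.nC R.tz c7) c7 c2] at c8
      rw [show n * (n⁻¹ * v * n) * n⁻¹ = v by group] at c9
      rw [c5, c6, H.omC' nz (H.nC R.tz c7) hr, H.omC' nz (H.nC R.sz c1) hr, c9]
      linear_combination c8 - c3
    have h4 : ∀ q ∈ Q, u * q * u⁻¹ = q → ∀ r ∈ Q, u * r = r * u → om z q r = 0 := fun q hq e r hr e' => z3_half (by
      have := H.omI R.uz hq hr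
      rwa [e, cj_of_cm e'] at this)
    have h5 := mul_mem hx (inv_mem hp)
    have h6 : u * (n * v * n⁻¹ * p⁻¹) * u⁻¹ = n * v * n⁻¹ * p⁻¹ := by
      rw [← conj_mul (c := p⁻¹), h2, ← conj_inv, cj_of_cm up]
    obtain ⟨e3, e4, e5, -⟩ := R.sa
    have h7 : ∀ r ∈ Q, om z (s⁻¹ * (n * v * n⁻¹) * s) r = om z (n * v * n⁻¹) (s * r * s⁻¹) := fun r hr => by
      simpa only [inv_inv] using H.omC' (cm_inv R.sz) hx hr
    have h8 := h3 a (R.aQ H)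
    have h9 := h3 b (R.bQ H)
    rw [h7 a (R.aQ H), H.omC' R.sz hx (R.aQ H), e3, e4, H.omR hx (R.wQ H) (R.aQ H), H.omR hx (inv_mem (R.wQ H)) (R.aQ H),
      H.invR hx (R.wQ H), e1] at h8
    rw [h7 b (R.bQ H), H.omC' R.sz hx (R.bQ H), e5, R.sb, H.omR hx (R.yQ H) (R.bQ H),
      H.omR hx (inv_mem (R.yQ H)) (R.bQ H), H.invR hx (R.yQ H), e2] at h9
    have h10 : (3 : ZMod 3) = 0 := by decide
    refine H.exact R.tz hp (R.bas H h5 ?_ (h4 _ h5 h6 b (R.bQ H) R.ub) (h4 _ h5 h6 a (R.aQ H) R.ua) ?_) h1 tp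
    · rw [H.omL hx (inv_mem hp) (R.wQ H), H.invL hp (R.wQ H)]
      linear_combination -h8 + om z (n * v * n⁻¹) w * h10
    · rw [H.omL hx (inv_mem hp) (R.yQ H), H.invL hp (R.yQ H)]
      linear_combination h9 + om z (n * v * n⁻¹) y * h10
  obtain ⟨⟨e1, e2, e3, e4, e5, e6⟩, e7, e8, e9, e10, e11, e12⟩ := R.oms H
  exact ⟨n, nn, nz, key w (R.wQ H) R.sw R.tw R.uw a (R.aQ H) R.ta R.ua (by rw [e3, e9, neg_zero]) (by rw [e1, e2]),
    key y (R.yQ H) R.sy R.ty R.uy b⁻¹ (inv_mem (R.bQ H)) (cj_inv R.tb) (cm_inv R.ub.symm).symm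
      (by rw [H.invL (R.bQ H) (R.wQ H), e7, e8, neg_neg]) (by rw [H.invL (R.bQ H) (R.yQ H), e6, e12, neg_zero]), un, ns⟩

/-- The relations of the second Weyl generator. -/
structure RW (z w y a b s t u m : G) : Prop where
  mm : m * m = u
  mz : m * z * m⁻¹ = w
  my : m * y * m⁻¹ = s
  ma : m * a = a * m
  tm : t * m * t⁻¹ = m⁻¹
  mb : (m * b) ^ 3 = 1

theorem RB.shift {z w y a b s t u c : G} (R : RB z w y a b s t u) (hc : c ∈ zpowers z) : RB z w y a b (s * c) t u := by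
  obtain ⟨k, rfl⟩ := hc
  have e : ∀ {x}, x * z = z * x → z ^ k * x = x * z ^ k := fun h => (cm_zp h (zpow_mem (mem_zpowers z) k)).symm
  exact { R with
    s3 := by rw [(show Commute s (z ^ k) from (e R.sz).symm).mul_pow, R.s3, one_mul, ← zpow_natCast, ← zpow_mul,
      mul_comm, zpow_mul, zpow_natCast, R.z3, one_zpow]
    sz := cm_mul R.sz (e rfl)
    sw := cm_mul R.sw (e R.wz)
    sy := cm_mul R.sy (e R.yz)
    as := by rw [← conj_mul, R.as, cj_of_cm (e R.az).symm, mul_assoc]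
    sb := by rw [cj_mul, cj_of_cm (e R.bz), R.sb]
    ts := (cm_mul R.ts.symm (e R.tz)).symm
    us := by rw [← conj_mul, R.us, ← conj_zpow, R.uz, inv_zpow, ← e R.sz, mul_inv_rev] }

theorem RB.exM {z w y a b s t u : G} (R : RB z w y a b s t u) {Q Q' : Subgroup G} {φ φ' : G → SL23} (H : Hyp z Q φ)
    (H' : Hyp w Q' φ') : ∃ m, ∃ c ∈ zpowers z, RW z w y a b (s * c) t u m := by
  have c1 : t * u * w = w * (t * u) := cm_of_cj (by rw [cj_mul, R.uw, cj_inv R.tw, inv_inv])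
  have c2 : t * u * (t * u) = 1 := by rw [mul_assoc, ← mul_assoc u, R.ut, mul_assoc, R.uu, mul_one, R.tt]
  have c3 : t * u * z * (t * u)⁻¹ = z⁻¹ := by rw [cj_mul, R.uz, ← conj_inv, cj_of_cm R.tz]
  have c4 := H.ne_one c3 R.z3 H.z1
  have c5 : t * u * s * (t * u)⁻¹ = s⁻¹ := by rw [cj_mul, R.us, ← conj_inv, cj_of_cm R.ts]
  have zQ := H'.memQ c1 c2 c4 R.wz.symm R.z3 c3
  have aQ := H'.memQ c1 c2 c4 R.aw R.a3 (by rw [cj_mul, cj_of_cm R.ua, R.ta])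
  have sQ := H'.memQ c1 c2 c4 R.sw R.s3 c5
  have M : Mp z w Q Q' φ φ' := ⟨H, H', R.wQ H, R.w1 H⟩
  obtain ⟨e, he, te, ue, ez⟩ : ∃ e ∈ Q', t * u * e * (t * u)⁻¹ = e⁻¹ ∧ u * e * u⁻¹ = e ∧ om w z e = -1 := by
    obtain ⟨q, hq, e0⟩ := H'.exom zQ M.z1
    obtain ⟨e, he, te, ue, c, hc, h⟩ := H'.eigF c1 c2 c4 R.uw R.uu (by rw [← mul_assoc, R.ut]) hq
    have p1 := H'.nI R.uw hq
    have p3 := mul_mem hq p1
    have p4 := H'.omI R.uw zQ hq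
    rw [R.uz, H'.invL zQ p1, neg_inj, e0] at p4
    refine ⟨e⁻¹, inv_mem he, cj_inv te, by rw [← conj_inv, ue], ?_⟩
    rw [H'.invR zQ he, h, H'.omR zQ (mul_mem p3 p3) (H'.zle hc), H'.omR zQ p3 p3, H'.omR zQ hq p1, p4, e0,
      H'.anti (H'.zle hc) zQ, H'.omZ hc zQ]
    decide
  have ea : om w e a = 0 := z3_half (by
    have := H'.omI R.uw he aQ
    rwa [ue, cj_of_cm R.ua] at this)
  rw [cj_mul, ue] at te
  obtain ⟨e3, e4⟩ := rot R.wz (cm_inv R.bz) ((H.om1 (inv_mem (R.bQ H)) (R.wQ H)).mp (by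
    rw [H.invL (R.bQ H) (R.wQ H), (R.oms H).2.1, neg_neg])) (H'.le e he) ((H'.om1 he zQ).mp (by
    rw [H'.anti zQ he, ez, neg_neg]))
  have e5 : b * e * b * a = a * (b * e * b) := cm_mul (cm_mul R.ab.symm ((H'.om0 he aQ).mp ea)) R.ab.symm
  have e6 : b * e * b * u = u * (b * e * b) := cm_mul (cm_mul R.ub.symm (cm_of_cj ue).symm) R.ub.symm
  have e7 : t * (b * e * b) * t⁻¹ = (b * e * b)⁻¹ := by rw [← conj_mul, ← conj_mul, te, R.tb]; group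
  rw [show b⁻¹ * e⁻¹ * b⁻¹ = (b * e * b)⁻¹ by group] at e3 e4
  generalize b * e * b = r at *
  replace e3 : r * w * r⁻¹ = z⁻¹ := by rw [← inv_inj, conj_inv, ← e3]; group
  replace e4 : r * z * r⁻¹ = w := by rw [← e4]; group
  have e8 := R.centW H (g := r * r * u) (cm_of_cj (by rw [cj_mul, cj_mul, R.uz, ← conj_inv, e4, cj_inv' e3]))
    (cm_of_cj (by rw [cj_mul, cj_mul, R.uw, cj_inv' e3, e4])) (cm_mul (cm_mul e6 e6) rfl).symm
  have e9 : r * r = r * r * u * u := by rw [mul_assoc _ u, R.uu, mul_one]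
  generalize r * r * u = c at *
  have d1 := cm_zp e5 e8
  have d2 := cm_zp R.ua e8
  have mz : r * c * z * (r * c)⁻¹ = w := by rw [cj_mul, cj_of_cm (cm_zp R.az.symm e8).symm, e4]
  have mw : r * c * w * (r * c)⁻¹ = z⁻¹ := by rw [cj_mul, cj_of_cm (cm_zp R.aw.symm e8).symm, e3]
  have ma := cm_mul e5 (cm_zp rfl e8).symm
  have mu := cm_mul e6 d2.symm
  have mm : r * c * (r * c) = u := by
    rw [mul_assoc, ← mul_assoc c, ← d1, ← mul_assoc, ← mul_assoc, e9, ← d2, mul_assoc, mul_assoc, ← pow_three,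
      H.exp _ (zpowers_le.mpr (R.aQ H) e8), mul_one]
  have tm : t * (r * c) * t⁻¹ = (r * c)⁻¹ := by
    obtain ⟨k, rfl⟩ := e8
    rw [← conj_mul, e7, ← conj_zpow, R.ta, d1, mul_inv_rev, inv_zpow]
  generalize r * c = m at *
  have bw : b * w * b⁻¹ = z⁻¹ * w := by
    rw [eq_inv_mul_iff_mul_eq, ← mul_assoc, ← mul_assoc, ← R.wb]; group
  have f1 : m * b * z * (m * b)⁻¹ = w := by rw [cj_mul, cj_of_cm R.bz, mz]
  have f2 : m * b * w * (m * b)⁻¹ = w⁻¹ * z⁻¹ := by rw [cj_mul, bw, ← conj_mul, ← conj_inv, mz, mw]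
  have f3 : m * b * (w⁻¹ * z⁻¹) * (m * b)⁻¹ = z := by
    rw [← conj_mul, ← conj_inv, ← conj_inv (b := m * b), f1, f2]; group
  have f4 := R.centW H (g := (m * b) ^ 3) (cm_of_cj (by rw [pow_three', cj_mul, cj_mul, f1, f2, f3]))
    (cm_of_cj (by rw [pow_three', cj_mul, cj_mul, f2, f3, f1])) (cm_pow (cm_mul mu R.ub.symm) 3).symm
  have g1 : m * y * m⁻¹ * w = w * (m * y * m⁻¹) := by rw [← mz, conj_mul, conj_mul, R.yz]
  have g2 : u * (m * y * m⁻¹) * u⁻¹ = (m * y * m⁻¹)⁻¹ := by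
    rw [← cj_mul, ← mu, cj_mul, R.uy, conj_inv]
  have g3 : t * (m * y * m⁻¹) * t⁻¹ = m * y * m⁻¹ := by
    rw [← conj_mul, ← conj_mul, ← conj_inv (b := t), tm, R.ty, ← R.uy, ← mm]; group
  have g4 : t * u * (m * y * m⁻¹) * (t * u)⁻¹ = (m * y * m⁻¹)⁻¹ := by rw [cj_mul, g2, ← conj_inv (b := t), g3]
  have g5 := H'.memQ c1 c2 c4 g1 (by rw [conj_pow, R.y3]; group) g4
  have g6 : m * y * m⁻¹ * z = z * (m * y * m⁻¹) := by
    rw [← inv_inv z, ← mw, conj_inv, conj_mul, conj_mul, (Commute.inv_right R.yw).eq]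
  have g7 : a * (m * y * m⁻¹) * a⁻¹ = w * (m * y * m⁻¹) := by rw [← cj_mul, ← ma, cj_mul, R.ay, ← conj_mul, mz]
  refine ⟨m, s⁻¹ * (m * y * m⁻¹), ?_, mm, mz, by group, ma, tm,
    q8 mm R.uu R.ub R.b3 (cm_zp ma f4).symm (cm_zp R.ab.symm f4).symm (H.exp _ (zpowers_le.mpr (R.aQ H) f4))⟩
  generalize m * y * m⁻¹ = x at *
  have g8 := mul_mem (inv_mem sQ) g5
  have g9 : om w s x = 0 := z3_half (by
    have := H'.omI R.uw sQ g5
    rwa [R.us, g2, H'.invL sQ (inv_mem g5), H'.invR sQ g5, neg_neg] at this)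
  obtain ⟨k, -, g10⟩ := H'.kill zQ he g8 (by rw [ez]; decide)
  have g11 := mul_mem g8 (pow_mem zQ k)
  have g12 := (H'.om1 aQ sQ).mpr R.as
  have g13 := (H'.om0 zQ aQ).mpr R.az.symm
  have g14 := (H'.om0 zQ sQ).mpr R.sz.symm
  have g15 := H'.basis4 zQ he aQ sQ (by rw [ez]; decide) (by rw [g12]; decide) g13 g14 ea g11
    ((H'.om0 g11 zQ).mpr (cm_mul (cm_mul (cm_inv R.sz) g6) (cm_pow rfl k))) g10
    (by rw [H'.omL g8 (pow_mem zQ k) aQ, H'.powL zQ aQ, H'.omL (inv_mem sQ) g5 aQ, H'.invL sQ aQ, H'.anti aQ sQ,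
          H'.anti aQ g5, g12, g13, (H'.om1 aQ g5).mpr g7]; ring)
    (by rw [H'.omL g8 (pow_mem zQ k) sQ, H'.powL zQ sQ, H'.omL (inv_mem sQ) g5 sQ, H'.invL sQ sQ, H'.omS sQ,
          H'.anti sQ g5, g9, g14]; ring)
  have g16 := H'.exact (q := s⁻¹ * x) c1 (inv_mem (pow_mem zQ k)) (by rwa [inv_inv])
    (by rw [← conj_mul, cj_inv c5, g4, mul_inv_rev, inv_inv, cm_inv ((H'.om0 sQ g5).mp g9).symm])
    (by rw [← conj_inv, ← conj_pow, c3, inv_pow])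
  exact g16 ▸ inv_mem (pow_mem (mem_zpowers z) k)

end Cfsg.Agent.L43
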