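import Cfsg.Agent.L43.Frame3

/-! The amalgam. -/

set_option autoImplicit false
set_option linter.unusedSectionVars false
set_option maxRecDepth 100000
set_option synthInstance.maxSize 4000

namespace Cfsg.Agent.L43

open Subgroup Cfsg.Agent.Local Cfsg.Agent.Mat

variable {G : Type*} [Group G] [Finite G] {z w y a b s t u n m l : G} {Q : Subgroup G} {φ : G → SL23}

theorem cj_sq {g x v : G} (h : g * x * g⁻¹ = v) : g * v * g⁻¹ = g * g * x * (g * g)⁻¹ := by rw [← h, cj_mul]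

theorem braid (R : RB z w y a b s t u) (N : RN z w y a b s t u n) (W : RW z w y a b s t u m) (H : Hyp z Q φ) :
    n * m * n = m * n * m := by
  have na : n * a * n⁻¹ = w⁻¹ := by rw [cj_sq N.nw, N.nn, R.tw]
  have mw : m * w * m⁻¹ = z⁻¹ := by rw [cj_sq W.mz, W.mm, R.uz]
  obtain ⟨h1, h2⟩ := br N.nn W.mm R.tt R.uu R.ut N.un W.tm
  obtain ⟨h3, h4⟩ := br W.mm N.nn R.uu R.tt R.ut.symm W.tm N.un
  have e1 : n * m * n * z * (n * m * n)⁻¹ = m * n * m * z * (m * n * m)⁻¹ := by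
    simp only [cj_mul, cj_of_cm N.nz, W.mz, N.nw, cj_of_cm W.ma]
  have e2 : n * m * n * w * (n * m * n)⁻¹ = m * n * m * w * (m * n * m)⁻¹ := by
    have f1 : n * z⁻¹ * n⁻¹ = z⁻¹ := by rw [← conj_inv (b := n), cj_of_cm N.nz]
    have f2 : m * z⁻¹ * m⁻¹ = w⁻¹ := by rw [← conj_inv (b := m), W.mz]
    simp only [cj_mul, N.nw, cj_of_cm W.ma, na, mw, f1, f2]
  generalize n * m * n = p at *
  generalize m * n * m = q at *
  refine (inv_mul_eq_one.mp (R.centW' H (cm_of_cj ?_) (cm_of_cj ?_) (cm_of_cj ?_) (cm_of_cj ?_))).symm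
  · rw [cj_mul, e1]; group
  · rw [cj_mul, e2]; group
  · rw [← conj_mul, ← conj_inv, h3, h4]; group
  · rw [← conj_mul, ← conj_inv, h1, h2]; group

/-- The frame of the parabolic subgroup. -/
structure Fr (z w y a b s t u n m : G) : Prop where
  R : RB z w y a b s t u
  N : RN z w y a b s t u n
  W : RW z w y a b s t u m
  br : n * m * n = m * n * m

/-- Intersections of conjugates of `Q`. -/
def Key (z : G) (Q : Subgroup G) (x : G) : Prop := x⁻¹ * z * x ∈ Q ∧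
  ∀ v ∈ Q, x⁻¹ * v * x ∈ Q → ∀ c, c * z = z * c → v * (c * v * c⁻¹) = c * v * c⁻¹ * v

theorem Hyp.exq (H : Hyp z Q φ) {v : G} (hv : v ∈ Q) (v1 : v ∉ zpowers z) (ht : t * z = z * t) (tt : t * t = 1)
    (t1 : t ≠ 1) : ∃ q ∈ Q, t * (q * v * q⁻¹) * t⁻¹ = (q * v * q⁻¹)⁻¹ := by
  obtain ⟨-, h1, c, hc, h2⟩ := H.iota ht tt t1 hv
  obtain ⟨b, hb, e⟩ := H.exom hv v1
  obtain ⟨k, hk⟩ := H.zex (inv_mem hc)
  have h0 : b⁻¹ * v * b⁻¹⁻¹ = z * v := by
    have := (H.om1 hv hb).mp e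
    rw [inv_inv, show b⁻¹ * v * b = b⁻¹ * (v * b * v⁻¹) * v by group, this, ← H.le b hb]; group
  have h3 : ∀ k : ℕ, b⁻¹ ^ k * v * (b⁻¹ ^ k)⁻¹ = z ^ k * v := fun k => by
    induction k with
    | zero => simp
    | succ k ih =>
      rw [pow_succ', cj_mul, ih, ← conj_mul, cj_of_cm (cm_pow (H.le _ (inv_mem hb)).symm k).symm, h0, pow_succ,
        mul_assoc]
  refine ⟨b⁻¹ ^ k.val, pow_mem (inv_mem hb) _, ?_⟩
  rw [h2, eq_inv_of_mul_eq_one_left ((pow_three' _).symm.trans (H.exp _ hv))] at h1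
  rw [h3, ← hk]
  simpa only [mul_inv_rev v⁻¹, inv_inv] using cj_inv h1

theorem bruhat : ∀ σ ι : SL23, σ ≠ 1 → σ ^ 3 = 1 → ι * ι = -1 → ∀ τ, ∃ i < 3, ∃ j < 4,
    ∃ k < 3, τ = σ ^ i * ι ^ j * σ ^ k := by decide +kernel

theorem Mp.nrm {Q' : Subgroup G} {φ' : G → SL23} (M : Mp z w Q Q' φ φ') (R : RB z w y a b s t u)
    (N : RN z w y a b s t u n) (ha : a ∈ Q') {g v : G} (hg : g * z = z * g) (hv : v ∈ Q ⊓ Q') :
    g * v * g⁻¹ ∈ Q ⊓ Q' := by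
  have H := M.H
  have zQ := M.exA.1
  have ft := H.phi_t R.tz R.tt (R.t1 H)
  have h1 : Q ≤ normalizer (Q ⊓ Q' : Subgroup G) := fun p hp => mem_normalizer_of_conj_mem fun v hv => by
    obtain ⟨v1, v2⟩ := mem_inf.mp hv
    exact mem_inf.mpr ⟨H.nC (H.le p hp) v1,
      (Q'.mul_mem_cancel_right (inv_mem v2)).mp (zpowers_le.mpr zQ (H.com p hp v v1))⟩
  have c1 : t * u * w = w * (t * u) := cm_of_cj (by rw [cj_mul, R.uw, cj_inv R.tw, inv_inv])
  have sQ := M.H'.memQ c1 (by rw [mul_assoc, ← mul_assoc u, R.ut, mul_assoc, R.uu, mul_one, R.tt])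
    (H.ne_one (by rw [cj_mul, R.uz, ← conj_inv, cj_of_cm R.tz]) R.z3 H.z1) R.sw R.s3
    (by rw [cj_mul, R.us, ← conj_inv, cj_of_cm R.ts])
  have h2 : s ∈ normalizer (Q ⊓ Q' : Subgroup G) := mem_normalizer_of_conj_mem fun v hv => by
    obtain ⟨v1, v2⟩ := mem_inf.mp hv
    exact mem_inf.mpr ⟨H.nC R.sz v1, mul_mem (mul_mem sQ v2) (inv_mem sQ)⟩
  have h3 : n ∈ normalizer (Q ⊓ Q' : Subgroup G) := mem_normalizer_of_conj_mem fun v hv => by
    obtain ⟨v1, v2⟩ := mem_inf.mp hv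
    refine mem_inf.mpr ⟨H.nC N.nz v1, ?_⟩
    obtain ⟨⟨e1, e2, e3, -⟩, -, -, e4, -, e5, -⟩ := R.oms H
    obtain ⟨i, -, e6⟩ := H.kill (R.wQ H) (R.bQ H) v1 (by rw [e1]; decide)
    have p1 := mul_mem v1 (pow_mem (R.wQ H) i)
    obtain ⟨j, -, e7⟩ := H.kill (R.aQ H) (R.yQ H) p1 (by rw [e2]; decide)
    have p2 := mul_mem p1 (pow_mem (R.aQ H) j)
    have p3 := mul_mem (mul_mem v2 (pow_mem M.H'.zQ i)) (pow_mem ha j)
    have p4 := R.bas H p2 ((H.om0 p2 (R.wQ H)).mpr (M.comm p2 p3 (R.wQ H) M.H'.zQ))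
      (by rw [H.omL p1 (pow_mem (R.aQ H) j) (R.bQ H), H.powL (R.aQ H) (R.bQ H), e6, e5]; ring)
      ((H.om0 p2 (R.aQ H)).mpr (M.comm p2 p3 (R.aQ H) ha)) e7
    have p5 := cj_of_cm (cm_zp N.nz p4)
    rw [← conj_mul, ← conj_mul, ← conj_pow, ← conj_pow, N.nw, cj_sq N.nw, N.nn, R.tw] at p5
    rw [← p5] at p3
    exact (Q'.mul_mem_cancel_right (pow_mem ha i)).mp
      ((Q'.mul_mem_cancel_right (pow_mem (inv_mem M.H'.zQ) j)).mp p3)
  obtain ⟨i, -, j, -, k, -, e⟩ := bruhat _ _ (R.s1 H) (H.c3 (R.wQ H) (R.w1 H) R.sz R.sw)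
    (by rw [← H.mul _ _ N.nz N.nz, N.nn, ft]) (φ g)
  have p1 := cm_mul (cm_pow R.sz i) (cm_pow N.nz j)
  have h4 : g ∈ normalizer (Q ⊓ Q' : Subgroup G) :=
    (Subgroup.mul_mem_cancel_right _ (inv_mem (mul_mem (mul_mem (pow_mem h2 i) (pow_mem h3 j)) (pow_mem h2 k)))).mp
      (h1 (H.phi_eq hg (cm_mul p1 (cm_pow R.sz k)) (by
        rw [H.mul _ _ p1 (cm_pow R.sz k), H.mul _ _ (cm_pow R.sz i) (cm_pow N.nz j), H.phi_pow R.sz, H.phi_pow R.sz,
          H.phi_pow N.nz, e])))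
  exact (mem_normalizer_iff.mp h4 _).mp hv

theorem Hyp.frame (H : Hyp z Q φ) {x : G} (hx : x * z * x⁻¹ ∈ Q) (x1 : x * z * x⁻¹ ∉ zpowers z) :
    Key z Q x ∧ ∃ w y a b s t u n m, Fr z w y a b s t u n m := by
  obtain ⟨t, ht, ft, tt⟩ := H.exists_t
  have t1 : t ≠ 1 := fun e => absurd (H.phi_one.symm.trans (e ▸ ft)) (by decide)
  obtain ⟨q, hq, tw⟩ := H.exq hx x1 ht tt t1
  rw [← cj_mul (g := q)] at tw
  have qz := H.le q hq
  have M : Mp z (q * x * z * (q * x)⁻¹) Q (cq (q * x) Q) φ _ := ⟨H, H.conj (q * x), by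
    rw [cj_mul]; exact H.nC qz hx, fun e => x1 (by
      have := cj_of_cm (cm_zp (cm_inv qz) e)
      rw [show q⁻¹ * (q * x * z * (q * x)⁻¹) * q⁻¹⁻¹ = x * z * x⁻¹ by group] at this
      rw [this]; exact e)⟩
  obtain ⟨y, a, b, s, u, R, -, -, -, ha⟩ := M.frame ht tt tw
  obtain ⟨m, c, hc, W⟩ := R.exM H M.H'
  replace R := R.shift hc
  obtain ⟨n, N⟩ := R.exN H
  refine ⟨⟨?_, fun v hv hv' g hg => ?_⟩, _, y, a, b, _, t, u, n, m, R, N, W, braid R N W H⟩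
  · have := mem_cq.mp M.exA.1
    rwa [show (q * x)⁻¹ * z * (q * x) = x⁻¹ * (q⁻¹ * (z * q)) * x by group, ← qz, inv_mul_cancel_left] at this
  have h0 : q * v * q⁻¹ ∈ cq (q * x) Q := mem_cq.mpr (by convert hv' using 1; group)
  have h5 := M.nrm R N ha (cm_inv qz) (mem_inf.mpr ⟨H.nC qz hv, h0⟩)
  rw [show q⁻¹ * (q * v * q⁻¹) * q⁻¹⁻¹ = v by group] at h5
  obtain ⟨h6, h7⟩ := mem_inf.mp (M.nrm R N ha hg h5)
  exact M.comm hv (mem_inf.mp h5).2 h6 h7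

theorem Hyp.key (H : Hyp z Q φ) {v c : G} (hv : v ∈ Q) (hc : c * z = z * c) (e : v * (c * v * c⁻¹) ≠ c * v * c⁻¹ * v) :
    ¬ IsConj z v := fun h => by
  obtain ⟨x, rfl⟩ := isConj_iff.mp h
  exact e ((H.frame hv fun e' => e (cm_zp (H.le _ (H.nC hc hv)) e').symm).1.2 _ hv (by simpa [mul_assoc] using H.zQ) c hc)

/-- The letters of the parabolic subgroup. -/
def lM (z w y a b s t u n m : G) : List G := lB z w y a b s t u ++ [n, n⁻¹, m, m⁻¹]

theorem Fr.rels (F : Fr z w y a b s t u n m) (l : List G) : ∀ r ∈ relsM, ev (lM z w y a b s t u n m ++ l) r = 1 := by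
  refine List.forall_mem_append.mpr ⟨by rw [lM, List.append_assoc]; exact F.R.rels _, ?_⟩
  have h1 := F.N.ns
  have h2 := F.W.mb
  simp only [pow_three', ← mul_assoc] at h1 h2
  simp only [lM, lB, List.forall_mem_cons, ev, List.cons_append, List.nil_append, List.getD_cons_succ,
    List.getD_cons_zero, mul_one, ← mul_assoc, F.N.nn, cj_of_cm F.N.nz, F.N.nw, F.N.ny, F.N.un, h1, F.W.mm, F.W.mz, F.W.my,
    cj_of_cm F.W.ma, F.W.tm, h2, F.br, mul_inv_cancel, inv_mul_cancel,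
    mul_inv_cancel_right, List.not_mem_nil, IsEmpty.forall_iff, implies_true, and_self]

theorem Fr.fused (F : Fr z w y a b s t u n m) (H : Hyp z Q φ) (h : IsConj z y) :
    ∃ l, ∀ r ∈ relsK, ev (lM z w y a b s t u n m ++ [l, l⁻¹]) r = 1 := by
  have R := F.R
  obtain ⟨x, hx⟩ := isConj_iff.mp (h.trans (isConj_iff.mpr ⟨u, R.uy⟩))
  have i : ∀ {g v : G}, g * v = v * g → g * v⁻¹ = v⁻¹ * g := fun h => (cm_inv h.symm).symm
  have R' : RB z y⁻¹ w⁻¹ b a s t u :=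
    ⟨R.z3, by rw [inv_pow, R.y3, inv_one], by rw [inv_pow, R.w3, inv_one], R.b3, R.a3, R.s3, R.tt, R.uu, cm_inv R.yz,
      cm_inv R.wz, R.bz, R.az, R.sz, R.tz, R.uz, i (cm_inv R.yw.symm), i R.yb, i R.sy,
      by rw [← mul_left_cancel_iff (a := y), ← mul_assoc y z, R.yz, ← R.ay]; group,
      by rw [← mul_left_cancel_iff (a := w), ← mul_assoc, ← mul_assoc, R.wb, ← mul_assoc, R.wz]; group,
      i R.aw, i R.sw, R.ab.symm,
      by rw [eq_inv_mul_iff_mul_eq, ← mul_assoc, ← mul_assoc, ← R.sb]; group,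
      R.sa.2.1, cj_inv R.ty, cj_inv R.tw, R.tb, R.ta, R.ts, cj_inv R.uy, cj_inv R.uw, R.ub, R.ua, R.us, R.ut⟩
  obtain ⟨l, c, hc, W⟩ := R'.exM H (hx ▸ H.conj x)
  have mw : m * w * m⁻¹ = z⁻¹ := by rw [cj_sq F.W.mz, F.W.mm, R.uz]
  have ms : m * s * m⁻¹ = y⁻¹ := by rw [cj_sq F.W.my, F.W.mm, R.uy]
  obtain rfl : c = 1 := by
    have h1 : IsConj z (m⁻¹ * (s * c) * m) := isConj_iff.mpr ⟨m⁻¹ * l * u * m, by
      rw [cj_mul, cj_mul, cj_mul, F.W.mz, R.uw, W.my, inv_inv]⟩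
    obtain ⟨⟨e1, -⟩, -, e2, -, -, -, e3⟩ := R.oms H
    have e4 := (R.oms H).1.2.2.1
    have p1 := R.wQ H
    have p2 := R.yQ H
    have p3 := R.aQ H
    have p4 := inv_mem (R.bQ H)
    have f1 : m⁻¹ * s * m = y := by rw [← F.W.my]; group
    have f2 : m⁻¹ * z⁻¹ * m = w := by rw [← mw]; group
    have f3 : m⁻¹ * z * m = w⁻¹ := by rw [← f2]; group
    have f4 : ∀ c, m⁻¹ * (s * c) * m = m⁻¹ * s * m * (m⁻¹ * c * m) := fun c => by group
    rcases mem_zpowers_three H.oz hc with e | e | e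
    · exact e
    · rw [e, f4, f1, f3] at h1
      refine absurd h1 (H.key (mul_mem p2 (inv_mem p1)) F.N.nz fun e => ?_)
      rw [← H.om0 (mul_mem p2 (inv_mem p1)) (H.nC F.N.nz (mul_mem p2 (inv_mem p1))), ← conj_mul, ← conj_inv, F.N.ny,
        F.N.nw, H.omL p2 (inv_mem p1) (mul_mem p4 (inv_mem p3)), H.invL p1 (mul_mem p4 (inv_mem p3)),
        H.omR p1 p4 (inv_mem p3), H.omR p2 p4 (inv_mem p3), H.invR p1 p3, H.invR p2 p3, H.invR p1 (R.bQ H),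
        H.invR p2 (R.bQ H), e1, e2, e3, e4] at e
      exact absurd e (by decide)
    · rw [e, f4, f1, f2] at h1
      refine absurd h1 (H.key (mul_mem p2 p1) F.N.nz fun e => ?_)
      rw [← H.om0 (mul_mem p2 p1) (H.nC F.N.nz (mul_mem p2 p1)), ← conj_mul, F.N.ny, F.N.nw,
        H.omL p2 p1 (mul_mem p4 p3), H.omR p1 p4 p3, H.omR p2 p4 p3, H.invR p1 (R.bQ H),
        H.invR p2 (R.bQ H), e1, e2, e3, e4] at e
      exact absurd e (by decide)
  rw [mul_one] at W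
  have h1 := braid R' ⟨F.N.nn, F.N.nz, cj_inv' F.N.ny, by rw [← conj_inv, F.N.nw], F.N.un, F.N.ns⟩ W H
  have lw : l * w * l⁻¹ = s⁻¹ := by rw [← W.my, conj_inv, inv_inv]
  have ul : u * l = l * u := by rw [← W.mm, mul_assoc]
  have um : u * m = m * u := by rw [← F.W.mm, mul_assoc]
  have h2 : l * m = m * l := by
    refine (inv_mul_eq_one.mp (R.centW' H (cm_of_cj ?_) (cm_of_cj ?_) ?_ (cm_of_cj ?_))).symm
    · rw [cj_mul, cj_mul, F.W.mz, lw, ← F.W.my, conj_inv, ← W.mz]; group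
    · rw [cj_mul, cj_mul, mw, ← conj_inv (b := l), W.mz, ← ms, conj_inv, ← lw]; group
    · exact (cm_mul (cm_inv (cm_mul um.symm ul.symm)) (cm_mul ul.symm um.symm)).symm
    · rw [← conj_mul, ← conj_mul, ← conj_inv, ← conj_mul, W.tm, F.W.tm,
        show l⁻¹ = l * u from inv_eq_of_mul_eq_one_right (by rw [← mul_assoc, W.mm, R.uu]),
        show m⁻¹ = m * u from inv_eq_of_mul_eq_one_right (by rw [← mul_assoc, F.W.mm, R.uu]),
        mul_assoc m, ← mul_assoc u, ul, mul_assoc l u u, R.uu, mul_one, mul_assoc l, ← mul_assoc u, um,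
        mul_assoc m u u, R.uu, mul_one]
  refine ⟨l, List.forall_mem_append.mpr ⟨F.rels _, ?_⟩⟩
  have h3 := W.mb
  simp only [pow_three', ← mul_assoc] at h3
  simp only [lM, lB, List.forall_mem_cons, ev, List.cons_append, List.nil_append, List.getD_cons_succ,
    List.getD_cons_zero, mul_one, ← mul_assoc, W.mm, W.mz, lw, cj_of_cm W.ma, W.tm, h3, h1, cj_of_cm h2,
    mul_inv_cancel, inv_mul_cancel, mul_inv_cancel_right, List.not_mem_nil, IsEmpty.forall_iff, implies_true, and_self]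

end Cfsg.Agent.L43
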