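import Cfsg.Agent.G23.Gen
import Cfsg.Agent.Local.SL23
import Cfsg.Agent.Char.Param
import Cfsg.Agent.Local.ZasK

/-! The centraliser of a central element of order three: the commutator form. -/

set_option autoImplicit false
set_option linter.unusedSectionVars false
set_option maxRecDepth 100000
set_option synthInstance.maxSize 4000

namespace Cfsg.Agent.L43

open Subgroup Cfsg.Agent.Local

variable {G : Type*} [Group G] [Finite G]

/-- The basic hypothesis. -/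
structure Hyp0 (z : G) (Q : Subgroup G) (φ : G → SL23) : Prop where
  oz : orderOf z = 3
  zQ : z ∈ Q
  exp : ∀ q ∈ Q, q ^ 3 = 1
  com : ∀ p ∈ Q, ∀ q ∈ Q, p * q * p⁻¹ * q⁻¹ ∈ zpowers z
  cen : ∀ g, (∀ q ∈ Q, g * q = q * g) → g ∈ zpowers z
  card : Nat.card Q = 243
  le : ∀ q ∈ Q, q * z = z * q
  mul : ∀ x y, x * z = z * x → y * z = z * y → φ (x * y) = φ x * φ y
  ker : ∀ x, x * z = z * x → (φ x = 1 ↔ x ∈ Q)
  surj : ∀ σ, ∃ x, x * z = z * x ∧ φ x = σ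

/-- The commutator form. -/
noncomputable def om (z p q : G) : ZMod 3 := Classical.epsilon fun k => p * q * p⁻¹ * q⁻¹ = z ^ k.val

theorem cm_mul {x y z : G} (hx : x * z = z * x) (hy : y * z = z * y) : x * y * z = z * (x * y) :=
  (Commute.mul_left hx hy).eq

theorem cm_inv {x z : G} (hx : x * z = z * x) : x⁻¹ * z = z * x⁻¹ := (Commute.inv_left hx).eq

theorem cm_pow {x z : G} (hx : x * z = z * x) (n : ℕ) : x ^ n * z = z * x ^ n := (Commute.pow_left hx n).eq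

theorem cm_zp {x z e : G} (hx : x * z = z * x) (he : e ∈ zpowers z) : x * e = e * x := by
  obtain ⟨k, rfl⟩ := he
  exact (Commute.zpow_right hx k).eq

theorem cj_of_cm {x y : G} (h : x * y = y * x) : x * y * x⁻¹ = y := by rw [h, mul_inv_cancel_right]

theorem cm_of_cj {x y : G} (h : x * y * x⁻¹ = y) : x * y = y * x := mul_inv_eq_iff_eq_mul.mp h

theorem third {H K Q : Subgroup G} (hQ : Nat.card Q = 243) (hK : K ≤ Q) (h : H ≤ K) {x : G} (hx : x ∈ K)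
    (hx' : x ∉ H) : 3 * Nat.card H ≤ Nat.card K := by
  obtain ⟨m, hm⟩ := card_dvd_of_le h
  have h1 : m ∣ 243 := hQ ▸ (Dvd.intro_left _ hm.symm).trans (card_dvd_of_le hK)
  have h2 : m ≠ 1 := fun e => hx' (eq_of_le_of_card_ge h (by rw [hm, e, mul_one]) ▸ hx)
  have h3 : 3 ≤ m := by
    by_contra h4
    have : m = 0 ∨ m = 2 := by omega
    rcases this with rfl | rfl <;> norm_num at h1
  rw [hm, mul_comm]
  exact Nat.mul_le_mul_left _ h3

namespace Hyp0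

variable {z : G} {Q : Subgroup G} {φ : G → SL23} (h : Hyp0 z Q φ)
include h

theorem z3 : z ^ 3 = 1 := h.exp z h.zQ

theorem zle : zpowers z ≤ Q := zpowers_le.mpr h.zQ

theorem zinj {k l : ZMod 3} (e : z ^ k.val = z ^ l.val) : k = l :=
  ZMod.val_injective 3 (pow_injOn_Iio_orderOf (k.val_lt.trans_eq h.oz.symm) (l.val_lt.trans_eq h.oz.symm) e)

theorem zex {e : G} (he : e ∈ zpowers z) : ∃ k : ZMod 3, e = z ^ k.val := by
  rcases mem_zpowers_three h.oz he with rfl | rfl | rfl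
  exacts [⟨0, (pow_zero _).symm⟩, ⟨1, (pow_one _).symm⟩,
    ⟨2, inv_eq_of_mul_eq_one_left (by rw [← h.z3]; exact (pow_succ _ 2).symm)⟩]

variable {p p' q q' g : G}

theorem spec (hp : p ∈ Q) (hq : q ∈ Q) : p * q * p⁻¹ * q⁻¹ = z ^ (om z p q).val :=
  Classical.epsilon_spec (h.zex (h.com p hp q hq))

theorem om_eq (hp : p ∈ Q) (hq : q ∈ Q) {k : ZMod 3} (e : p * q * p⁻¹ * q⁻¹ = z ^ k.val) : om z p q = k :=
  h.zinj ((h.spec hp hq).symm.trans e)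

theorem omL (hp : p ∈ Q) (hp' : p' ∈ Q) (hq : q ∈ Q) : om z (p * p') q = om z p q + om z p' q :=
  h.om_eq (mul_mem hp hp') hq (by
    rw [add_comm, Char.pow_val_add h.z3, ← h.spec hp hq, ← cj_of_cm (Commute.pow_right (h.le p hp) _).eq,
      ← h.spec hp' hq]
    group)

theorem anti (hp : p ∈ Q) (hq : q ∈ Q) : om z q p = -om z p q := by
  refine eq_neg_of_add_eq_zero_left (h.zinj ?_)
  rw [Char.pow_val_add h.z3, ← h.spec hp hq, ← h.spec hq hp, ZMod.val_zero]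
  group

theorem omR (hp : p ∈ Q) (hq : q ∈ Q) (hq' : q' ∈ Q) : om z p (q * q') = om z p q + om z p q' := by
  rw [h.anti (mul_mem hq hq') hp, h.omL hq hq' hp, h.anti hq hp, h.anti hq' hp, neg_add]

theorem om0 (hp : p ∈ Q) (hq : q ∈ Q) : om z p q = 0 ↔ p * q = q * p := by
  refine ⟨fun e => ?_, fun e => h.om_eq hp hq (by rw [e]; simp)⟩
  have := h.spec hp hq
  rwa [e, ZMod.val_zero, pow_zero, mul_inv_eq_one, mul_inv_eq_iff_eq_mul] at this

theorem om1 (hp : p ∈ Q) (hq : q ∈ Q) : om z p q = 1 ↔ p * q * p⁻¹ = z * q := by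
  refine ⟨fun e => ?_, fun e => h.om_eq hp hq (by rw [e]; simp [ZMod.val_one])⟩
  have := h.spec hp hq
  rwa [e, ZMod.val_one, pow_one, mul_inv_eq_iff_eq_mul] at this

theorem omS (hp : p ∈ Q) : om z p p = 0 := (h.om0 hp hp).mpr rfl

theorem omZ (hp : p ∈ zpowers z) (hq : q ∈ Q) : om z p q = 0 :=
  (h.om0 (h.zle hp) hq).mpr (cm_zp (h.le q hq) hp).symm

theorem invL (hp : p ∈ Q) (hq : q ∈ Q) : om z p⁻¹ q = -om z p q := by
  rw [eq_neg_iff_add_eq_zero, ← h.omL (inv_mem hp) hp hq, inv_mul_cancel, h.omZ (one_mem _) hq]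

theorem invR (hp : p ∈ Q) (hq : q ∈ Q) : om z p q⁻¹ = -om z p q := by
  rw [h.anti (inv_mem hq) hp, h.invL hq hp, h.anti hq hp]

theorem powL (hp : p ∈ Q) (hq : q ∈ Q) (n : ℕ) : om z (p ^ n) q = n * om z p q := by
  induction n with
  | zero => simpa using h.omZ (one_mem _) hq
  | succ n ih => rw [pow_succ, h.omL (pow_mem hp n) hp hq, ih]; push_cast; ring

theorem powR (hp : p ∈ Q) (hq : q ∈ Q) (n : ℕ) : om z p (q ^ n) = n * om z p q := by
  rw [h.anti (pow_mem hq n) hp, h.powL hq hp, h.anti hq hp, mul_neg]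

theorem memZ (hp : p ∈ Q) : p ∈ zpowers z ↔ ∀ q ∈ Q, om z p q = 0 :=
  ⟨fun e _ hq => h.omZ e hq, fun e => h.cen p fun q hq => (h.om0 hp hq).mp (e q hq)⟩

theorem phi_one : φ 1 = 1 := (h.ker 1 (by simp)).mpr (one_mem _)

theorem phi_inv (hg : g * z = z * g) : φ g⁻¹ = (φ g)⁻¹ :=
  eq_inv_of_mul_eq_one_left (by rw [← h.mul _ _ (cm_inv hg) hg, inv_mul_cancel, h.phi_one])

theorem phi_pow (hg : g * z = z * g) (n : ℕ) : φ (g ^ n) = φ g ^ n := by
  induction n with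
  | zero => simpa using h.phi_one
  | succ n ih => rw [pow_succ, h.mul _ _ (cm_pow hg n) hg, ih, pow_succ]

theorem phi_cj (hg : g * z = z * g) (hp : p * z = z * p) : φ (g * p * g⁻¹) = φ g * φ p * (φ g)⁻¹ := by
  rw [h.mul _ _ (cm_mul hg hp) (cm_inv hg), h.mul _ _ hg hp, h.phi_inv hg]

theorem phi_eq (hg : g * z = z * g) (hp : p * z = z * p) (e : φ g = φ p) : g * p⁻¹ ∈ Q :=
  (h.ker _ (cm_mul hg (cm_inv hp))).mp (by rw [h.mul _ _ hg (cm_inv hp), h.phi_inv hp, e, mul_inv_cancel])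

theorem nC (hg : g * z = z * g) (hq : q ∈ Q) : g * q * g⁻¹ ∈ Q :=
  (h.ker _ (cm_mul (cm_mul hg (h.le q hq)) (cm_inv hg))).mp (by
    rw [h.phi_cj hg (h.le q hq), (h.ker q (h.le q hq)).mpr hq, mul_one, mul_inv_cancel])

omit h in
theorem cm_cj (hg : g * z * g⁻¹ = z⁻¹) (hp : p * z = z * p) : g * p * g⁻¹ * z = z * (g * p * g⁻¹) := by
  rw [← inv_inv z, ← hg, conj_inv, conj_mul, conj_mul, (Commute.inv_right hp).eq]

omit h in
theorem inv_inv' (hg : g * z * g⁻¹ = z⁻¹) : g⁻¹ * z * g⁻¹⁻¹ = z⁻¹ := by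
  nth_rewrite 1 [← inv_inv z, ← hg]
  group

theorem nI (hg : g * z * g⁻¹ = z⁻¹) (hq : q ∈ Q) : g * q * g⁻¹ ∈ Q := by
  have h1 := cm_cj hg (h.le q hq)
  refine (h.ker _ h1).mp ((by decide : ∀ σ : SL23, σ ^ 3 = 1 → (∀ τ, (σ * (τ * σ * τ⁻¹)) ^ 3 = 1) → σ = 1) _
    (by rw [← h.phi_pow h1, conj_pow, h.exp q hq, mul_one, mul_inv_cancel, h.phi_one]) fun τ => ?_)
  obtain ⟨x, hx, rfl⟩ := h.surj τ
  have h2 := h.exp _ (mul_mem hq (h.nC (cm_cj (inv_inv' hg) hx) hq))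
  have h3 := cm_mul (cm_mul hx h1) (cm_inv hx)
  rw [← h.phi_cj hx h1, ← h.mul _ _ h1 h3, ← h.phi_pow (cm_mul h1 h3), ← h.phi_one,
    show g * q * g⁻¹ * (x * (g * q * g⁻¹) * x⁻¹) =
      g * (q * (g⁻¹ * x * g⁻¹⁻¹ * q * (g⁻¹ * x * g⁻¹⁻¹)⁻¹)) * g⁻¹ by group, conj_pow, h2, mul_one, mul_inv_cancel]

theorem omC (hg : g * z = z * g) (hp : p ∈ Q) (hq : q ∈ Q) : om z (g * p * g⁻¹) (g * q * g⁻¹) = om z p q :=
  h.om_eq (h.nC hg hp) (h.nC hg hq) (by
    rw [← cj_of_cm (Commute.pow_right hg _).eq, ← h.spec hp hq]; group)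

theorem omC' (hg : g * z = z * g) (hp : p ∈ Q) (hq : q ∈ Q) : om z (g * p * g⁻¹) q = om z p (g⁻¹ * q * g) := by
  rw [← h.omC hg hp (by simpa using h.nC (cm_inv hg) hq)]
  congr 1
  group

theorem omI (hg : g * z * g⁻¹ = z⁻¹) (hp : p ∈ Q) (hq : q ∈ Q) :
    om z (g * p * g⁻¹) (g * q * g⁻¹) = -om z p q := by
  rw [← h.anti hp hq]
  refine h.om_eq (h.nI hg hp) (h.nI hg hq) ?_
  rw [← inv_inv (z ^ _), ← inv_pow, ← hg, conj_pow, ← h.spec hq hp]
  group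

theorem omQ (hg : g ∈ Q) (hp : p ∈ Q) (hq : q ∈ Q) : om z (g * p * g⁻¹) q = om z p q := by
  rw [h.omL (mul_mem hg hp) (inv_mem hg) hq, h.omL hg hp hq, h.invL hg hq]
  ring

theorem basis4 {a b c d x : G} (ha : a ∈ Q) (hb : b ∈ Q) (hc : c ∈ Q) (hd : d ∈ Q) (ab : om z a b ≠ 0)
    (cd : om z c d ≠ 0) (ac : om z a c = 0) (ad : om z a d = 0) (bc : om z b c = 0)
    (hx : x ∈ Q) (xa : om z x a = 0) (xb : om z x b = 0) (xc : om z x c = 0) (xd : om z x d = 0) :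
    x ∈ zpowers z := by
  have m : ∀ {u v}, u ∈ Q → v ∈ Q → (u ∈ centralizer {v} ↔ om z u v = 0) := fun hu hv =>
    mem_centralizer_singleton_iff.trans (h.om0 hu hv).symm
  have ba : om z b a ≠ 0 := by rwa [h.anti ha hb, neg_ne_zero]
  have dc : om z d c ≠ 0 := by rwa [h.anti hc hd, neg_ne_zero]
  have h1 := third (H := Q ⊓ centralizer {a}) h.card le_rfl inf_le_left hb fun e => ba ((m hb ha).mp e.2)
  have h2 := third (H := Q ⊓ centralizer {a} ⊓ centralizer {c}) h.card inf_le_left inf_le_left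
    ⟨hd, (m hd ha).mpr (by rw [h.anti ha hd, ad, neg_zero])⟩ fun e => dc ((m hd hc).mp e.2)
  have h3 := third (H := Q ⊓ centralizer {a} ⊓ centralizer {c} ⊓ centralizer {b}) h.card
    (inf_le_left.trans inf_le_left) inf_le_left ⟨⟨ha, (m ha ha).mpr (h.omS ha)⟩, (m ha hc).mpr ac⟩
    fun e => ab ((m ha hb).mp e.2)
  have h4 := third (H := Q ⊓ centralizer {a} ⊓ centralizer {c} ⊓ centralizer {b} ⊓ centralizer {d}) h.card
    (inf_le_left.trans (inf_le_left.trans inf_le_left)) inf_le_left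
    ⟨⟨⟨hc, (m hc ha).mpr (by rw [h.anti ha hc, ac, neg_zero])⟩, (m hc hc).mpr (h.omS hc)⟩,
      (m hc hb).mpr (by rw [h.anti hb hc, bc, neg_zero])⟩ fun e => cd ((m hc hd).mp e.2)
  have h5 : ∀ {v}, v ∈ Q → zpowers z ≤ centralizer {v} := fun hv u hu => (m (h.zle hu) hv).mpr (h.omZ hu hv)
  refine (eq_of_le_of_card_ge (le_inf (le_inf (le_inf (le_inf h.zle (h5 ha)) (h5 hc)) (h5 hb)) (h5 hd)) ?_).ge
    ⟨⟨⟨⟨hx, (m hx ha).mpr xa⟩, (m hx hc).mpr xc⟩, (m hx hb).mpr xb⟩, (m hx hd).mpr xd⟩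
  rw [Nat.card_zpowers, h.oz]
  have := h.card
  omega

theorem kill {a b x : G} (ha : a ∈ Q) (hb : b ∈ Q) (hx : x ∈ Q) (ab : om z a b ≠ 0) :
    ∃ k < 3, om z (x * a ^ k) b = 0 := by
  obtain ⟨k, hk, e⟩ := (by decide : ∀ u v : ZMod 3, v ≠ 0 → ∃ k < 3, u + (k : ℕ) * v = 0) (om z x b) _ ab
  exact ⟨k, hk, by rw [h.omL hx (pow_mem ha k) hb, h.powL ha hb, e]⟩

theorem exists_t : ∃ t, t * z = z * t ∧ φ t = -1 ∧ t * t = 1 := by
  obtain ⟨x, hx, e⟩ := h.surj (-1)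
  refine ⟨x ^ 3, cm_pow hx 3, by rw [h.phi_pow hx, e]; decide, ?_⟩
  rw [← pow_add, show 3 + 3 = 2 * 3 from rfl, pow_mul]
  exact h.exp _ ((h.ker _ (cm_pow hx 2)).mp (by rw [h.phi_pow hx, e]; decide))

end Hyp0

end Cfsg.Agent.L43
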