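import Cfsg.Agent.L43.Hyp

/-! The central involution of `C / Q` inverts `Q / Z`. -/

set_option autoImplicit false
set_option linter.unusedSectionVars false
set_option maxRecDepth 100000
set_option synthInstance.maxSize 4000

namespace Cfsg.Agent.L43

open Subgroup Cfsg.Agent.Local

variable {G : Type*} [Group G] [Finite G]

/-- Eigenvectors. -/
def Ei (z : G) (Q : Subgroup G) (t : G) (ε : ZMod 3) (a : G) : Prop :=
  a ∈ Q ∧ ∀ q ∈ Q, om z (t * a * t⁻¹) q = ε * om z a q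

/-- Scalar action on the fixed space. -/
def Ac (z : G) (Q : Subgroup G) (t g : G) (δ : ZMod 3) : Prop :=
  ∀ x, Ei z Q t 1 x → ∀ q ∈ Q, om z (g * x * g⁻¹) q = δ * om z x q

theorem z3_half {x : ZMod 3} (h : x = -x) : x = 0 := by revert x; decide

/-- An invariant factor with non-trivial action. -/
structure Fac (z : G) (Q B B' : Subgroup G) : Prop where
  lo : zpowers z ≤ B
  lt : B < B'
  hi : B' ≤ Q
  i1 : ∀ g, g * z = z * g → ∀ a ∈ B, g * a * g⁻¹ ∈ B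
  i2 : ∀ g, g * z = z * g → ∀ a ∈ B', g * a * g⁻¹ ∈ B'
  mx : ∀ D, B < D → D < B' → ∃ g, g * z = z * g ∧ ∃ a ∈ D, g * a * g⁻¹ ∉ D
  nc : ∃ g, g * z = z * g ∧ ∃ a ∈ B', g * a * g⁻¹ * a⁻¹ ∉ B

namespace Hyp0

variable {z : G} {Q : Subgroup G} {φ : G → SL23} (h : Hyp0 z Q φ) {t : G} (ht : t * z = z * t) (hφ : φ t = -1)
  (tt : t * t = 1) {a b c x g : G} {ε δ : ZMod 3}
include h ht

theorem Emul (ha : Ei z Q t ε a) (hb : Ei z Q t ε b) : Ei z Q t ε (a * b) :=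
  ⟨mul_mem ha.1 hb.1, fun q hq => by
    rw [← conj_mul, h.omL (h.nC ht ha.1) (h.nC ht hb.1) hq, ha.2 q hq, hb.2 q hq, h.omL ha.1 hb.1 hq, mul_add]⟩

theorem Epow (ha : Ei z Q t ε a) (n : ℕ) : Ei z Q t ε (a ^ n) :=
  ⟨pow_mem ha.1 n, fun q hq => by
    rw [← conj_pow, h.powL (h.nC ht ha.1) hq, ha.2 q hq, h.powL ha.1 hq, mul_left_comm]⟩

theorem Einv (ha : Ei z Q t ε a) : Ei z Q t ε a⁻¹ :=
  ⟨inv_mem ha.1, fun q hq => by rw [← conj_inv, h.invL (h.nC ht ha.1) hq, ha.2 q hq, h.invL ha.1 hq, mul_neg]⟩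

theorem orth (he : ε ≠ 0) (ha : Ei z Q t ε a) (hc : Ei z Q t (-ε) c) : om z a c = 0 := by
  have h1 := h.omC ht ha.1 hc.1
  rw [ha.2 _ (h.nC ht hc.1), h.anti (h.nC ht hc.1) ha.1, hc.2 _ ha.1, h.anti ha.1 hc.1] at h1
  exact (by decide : ∀ e x : ZMod 3, e ≠ 0 → e * -(-e * -x) = x → x = 0) _ _ he h1

include tt

theorem split (ha : a ∈ Q) : Ei z Q t 1 (a * (t * a * t⁻¹)) ∧ Ei z Q t (-1) (a * (t * a * t⁻¹)⁻¹) := by
  have h1 := h.nC ht ha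
  have h2 : t * (t * a * t⁻¹) * t⁻¹ = a := by
    rw [show t * (t * a * t⁻¹) * t⁻¹ = t * t * a * (t * t)⁻¹ by group, tt]; group
  refine ⟨⟨mul_mem ha h1, fun q hq => ?_⟩, mul_mem ha (inv_mem h1), fun q hq => ?_⟩
  · rw [← conj_mul, h2, h.omL h1 ha hq, h.omL ha h1 hq]; ring
  · rw [← conj_mul, ← conj_inv (b := t) (a := t * a * t⁻¹), h2, h.omL h1 (inv_mem ha) hq,
      h.omL ha (inv_mem h1) hq, h.invL ha hq, h.invL h1 hq]; ring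

theorem partner (he : ε ≠ 0) (ha : Ei z Q t ε a) (a1 : a ∉ zpowers z) : ∃ b, Ei z Q t ε b ∧ om z a b ≠ 0 := by
  obtain ⟨q, hq, e⟩ : ∃ q ∈ Q, om z a q ≠ 0 := by simpa using (h.memZ ha.1).not.mp a1
  obtain ⟨h1, h2⟩ := h.split ht tt hq
  have h3 := h.nC ht hq
  have h4 := h.omR ha.1 hq h3
  have h5 := (h.omR ha.1 hq (inv_mem h3)).trans (congrArg _ (h.invR ha.1 h3))
  have h6 := (by decide : ∀ x y : ZMod 3, x + y = 0 → x + -y = 0 → x = 0) (om z a q) (om z a (t * q * t⁻¹))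
  rcases (by decide : ∀ e : ZMod 3, e ≠ 0 → e = 1 ∨ e = -1) ε he with rfl | rfl
  · exact ⟨_, h1, fun e' => e (h6 (h4 ▸ e') (h5 ▸ h.orth ht he ha h2))⟩
  · exact ⟨_, h2, fun e' => e (h6 (h4 ▸ h.orth ht he ha (by rwa [neg_neg])) (h5 ▸ e'))⟩

theorem two (he : ε ≠ 0) (ha : Ei z Q t ε a) (a1 : a ∉ zpowers z) (hc : Ei z Q t (-ε) c) (c1 : c ∉ zpowers z)
    (hx : Ei z Q t ε x) (e : om z x a = 0) : ∃ k < 3, x * a ^ k ∈ zpowers z := by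
  obtain ⟨b, hb, ab⟩ := h.partner ht tt he ha a1
  obtain ⟨d, hd, cd⟩ := h.partner ht tt (neg_ne_zero.mpr he) hc c1
  obtain ⟨k, hk, e1⟩ := h.kill ha.1 hb.1 hx.1 ab
  have h1 := h.Emul ht hx (h.Epow ht ha k)
  exact ⟨k, hk, h.basis4 ha.1 hb.1 hc.1 hd.1 ab cd (h.orth ht he ha hc) (h.orth ht he ha hd) (h.orth ht he hb hc)
    h1.1 (by rw [h.omL hx.1 (pow_mem ha.1 k) ha.1, h.powL ha.1 ha.1, e, h.omS ha.1]; ring) e1
    (h.orth ht he h1 hc) (h.orth ht he h1 hd)⟩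

include hφ

theorem exI : ∃ c, Ei z Q t (-1) c ∧ c ∉ zpowers z := by
  by_contra! hn
  have h1 := (h.ker t ht).mpr (h.zle (h.cen t fun q hq => ?_))
  · rw [hφ] at h1
    exact absurd h1 (by decide)
  have h2 := hn _ (h.split ht tt hq).2
  generalize hc : q * (t * q * t⁻¹)⁻¹ = c at h2
  have h3 : t * q * t⁻¹ = c⁻¹ * q := by rw [← hc]; group
  have h4 : c * c = 1 := by
    have h5 : t * (t * q * t⁻¹) * t⁻¹ = q := by
      rw [show t * (t * q * t⁻¹) * t⁻¹ = t * t * q * (t * t)⁻¹ by group, tt]; group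
    rw [h3, ← conj_mul, h3, ← conj_inv, cj_of_cm (cm_zp ht h2), ← mul_assoc, mul_eq_right, ← mul_inv_rev,
      inv_eq_one] at h5
    exact h5
  have h5 := h.exp c (h.zle h2)
  rw [pow_three', h4, one_mul] at h5
  rw [h5, inv_one, one_mul] at h3
  exact cm_of_cj h3

omit tt in
theorem Econj (hg : g * z = z * g) (ha : Ei z Q t ε a) : Ei z Q t ε (g * a * g⁻¹) :=
  ⟨h.nC hg ha.1, fun q hq => by
    have h1 := h.phi_eq (cm_mul ht hg) (cm_mul hg ht) (by rw [h.mul _ _ ht hg, h.mul _ _ hg ht, hφ]; simp)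
    have h2 : g⁻¹ * q * g ∈ Q := by simpa using h.nC (cm_inv hg) hq
    rw [show t * (g * a * g⁻¹) * t⁻¹ = t * g * (g * t)⁻¹ * (g * (t * a * t⁻¹) * g⁻¹) * (t * g * (g * t)⁻¹)⁻¹ by group,
      h.omQ h1 (h.nC hg (h.nC ht ha.1)) hq, h.omC' hg (h.nC ht ha.1) hq, ha.2 _ h2, h.omC' hg ha.1 hq]⟩

omit tt in
theorem omT (hg : g * z = z * g) (e : φ g = -1) (ha : Ei z Q t ε a) {q : G} (hq : q ∈ Q) :
    om z (g * a * g⁻¹) q = ε * om z a q := by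
  rw [show g * a * g⁻¹ = g * t⁻¹ * (t * a * t⁻¹) * (g * t⁻¹)⁻¹ by group,
    h.omQ (h.phi_eq hg ht (e.trans hφ.symm)) (h.nC ht ha.1) hq, ha.2 q hq]

omit tt in
theorem Ac1 (hg : g * z = z * g) (e : φ g = 1 ∨ φ g = -1) : Ac z Q t g 1 := fun x hx q hq =>
  e.elim (fun e => by rw [h.omQ ((h.ker g hg).mp e) hx.1 hq, one_mul]) fun e => h.omT ht hφ hg e hx hq

omit tt in
theorem Acmul {g' : G} {δ' : ZMod 3} (hg' : g' * z = z * g') (h1 : Ac z Q t g δ) (h2 : Ac z Q t g' δ') :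
    Ac z Q t (g * g') (δ * δ') := fun x hx q hq => by
  rw [show g * g' * x * (g * g')⁻¹ = g * (g' * x * g'⁻¹) * g⁻¹ by group, h1 _ (h.Econj ht hφ hg' hx) q hq,
    h2 x hx q hq, mul_assoc]

omit tt in
theorem Acconj {s : G} (hs : s * z = z * s) (hg : g * z = z * g) (h1 : Ac z Q t g δ) :
    Ac z Q t (s * g * s⁻¹) δ := fun x hx q hq => by
  have h2 := h.Econj ht hφ (cm_inv hs) hx
  rw [show s * g * s⁻¹ * x * (s * g * s⁻¹)⁻¹ = s * (g * (s⁻¹ * x * s⁻¹⁻¹) * g⁻¹) * s⁻¹ by group,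
    h.omC' hs (h.nC hg h2.1) hq, h1 _ h2 _ (by simpa using h.nC (cm_inv hs) hq), ← h.omC' hs h2.1 hq]
  congr 2
  group

theorem dich (hg : g * z = z * g) (e : φ g * φ g = -1) : Ac z Q t g 1 ∨ Ac z Q t g (-1) := by
  by_contra hn
  simp only [Ac, not_or, not_forall] at hn
  obtain ⟨⟨x, hx, q, hq, e1⟩, y, hy, r, hr, e2⟩ := hn
  obtain ⟨c, hc, c1⟩ := h.exI ht hφ tt
  have h0 : ∀ x, Ei z Q t 1 x → ∀ q ∈ Q, om z (g * (g * x * g⁻¹) * g⁻¹) q = om z x q := fun x hx q hq => by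
    have := h.Ac1 ht hφ (cm_mul hg hg) (.inr (by rw [h.mul _ _ hg hg, e])) x hx q hq
    rwa [one_mul, show g * g * x * (g * g)⁻¹ = g * (g * x * g⁻¹) * g⁻¹ by group] at this
  have hx' := h.Econj ht hφ hg hx
  have hy' := h.Econj ht hφ hg hy
  have h1 := h.Emul ht hx (h.Einv ht hx')
  have h2 := h.Emul ht hy hy'
  have h3 : ∀ q ∈ Q, om z (g * (x * (g * x * g⁻¹)⁻¹) * g⁻¹) q = -om z (x * (g * x * g⁻¹)⁻¹) q := fun q hq => by
    rw [← conj_mul, ← conj_inv (b := g) (a := g * x * g⁻¹), h.omL hx'.1 (inv_mem (h.nC hg hx'.1)) hq,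
      h.invL (h.nC hg hx'.1) hq, h0 x hx q hq, h.omL hx.1 (inv_mem hx'.1) hq, h.invL hx'.1 hq]; ring
  have h4 : ∀ q ∈ Q, om z (g * (y * (g * y * g⁻¹)) * g⁻¹) q = om z (y * (g * y * g⁻¹)) q := fun q hq => by
    rw [← conj_mul, h.omL hy'.1 (h.nC hg hy'.1) hq, h0 y hy q hq, h.omL hy.1 hy'.1 hq, add_comm]
  have h5 : x * (g * x * g⁻¹)⁻¹ ∉ zpowers z := fun k => e1 (by
    have := h.omZ k hq
    rw [h.omL hx.1 (inv_mem hx'.1) hq, h.invL hx'.1 hq] at this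
    linear_combination -this)
  have h6 : y * (g * y * g⁻¹) ∉ zpowers z := fun k => e2 (by
    have := h.omZ k hr
    rw [h.omL hy.1 hy'.1 hr] at this
    linear_combination this)
  generalize x * (g * x * g⁻¹)⁻¹ = u at h1 h3 h5
  generalize y * (g * y * g⁻¹) = v at h2 h4 h6
  obtain ⟨k, -, h7⟩ := h.two ht tt one_ne_zero h2 h6 hc c1 h1 (z3_half (by
    have := h.omC hg h1.1 h2.1
    rw [h3 _ (h.nC hg h2.1), h.anti (h.nC hg h2.1) h1.1, h4 _ h1.1, h.anti h1.1 h2.1, neg_neg] at this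
    exact this.symm))
  refine h5 ((h.memZ h1.1).mpr fun q hq => z3_half ?_)
  have h8 := h.omZ h7 hq
  have h9 := h.omZ (by rwa [cj_of_cm (cm_zp hg h7)] : g * (u * v ^ k) * g⁻¹ ∈ _) hq
  rw [← conj_mul, ← conj_pow, h.omL (h.nC hg h1.1) (pow_mem (h.nC hg h2.1) k) hq, h.powL (h.nC hg h2.1) hq,
    h3 q hq, h4 q hq] at h9
  rw [h.omL h1.1 (pow_mem h2.1 k) hq, h.powL h2.1 hq] at h8
  linear_combination h8 - h9

theorem fix (ha : Ei z Q t 1 a) (a1 : a ∉ zpowers z) (hg : g * z = z * g) (e : φ g ^ 4 = 1) : Ac z Q t g 1 := by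
  obtain ⟨σ, e1⟩ := (by decide : ∃ σ : SL23, ∀ τ : SL23, τ ^ 4 = 1 → (τ = 1 ∨ τ = -1) ∨ τ * τ = -1 ∧
    (τ * (σ * τ * σ⁻¹) * (σ⁻¹ * τ * σ⁻¹⁻¹) = 1 ∨ τ * (σ * τ * σ⁻¹) * (σ⁻¹ * τ * σ⁻¹⁻¹) = -1))
  obtain ⟨s, hs, rfl⟩ := h.surj σ
  rcases e1 _ e with e | ⟨e, e'⟩
  · exact h.Ac1 ht hφ hg e
  refine (h.dich ht hφ tt hg e).resolve_right fun h1 => a1 ((h.memZ ha.1).mpr fun q hq => z3_half ?_)
  have c1 := cm_mul (cm_mul hs hg) (cm_inv hs)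
  have c2 := cm_mul (cm_mul (cm_inv hs) hg) (cm_inv (cm_inv hs))
  have h2 := h.Acmul ht hφ c2 (h.Acmul ht hφ c1 h1 (h.Acconj ht hφ hs hg h1)) (h.Acconj ht hφ (cm_inv hs) hg h1) a ha q hq
  rw [h.Ac1 ht hφ (cm_mul (cm_mul hg c1) c2) (by
    rwa [h.mul _ _ (cm_mul hg c1) c2, h.mul _ _ hg c1, h.phi_cj hs hg, h.phi_cj (cm_inv hs) hg, h.phi_inv hs])
    a ha q hq] at h2
  linear_combination h2

theorem factor (ha : Ei z Q t 1 a) (a1 : a ∉ zpowers z) {B B' : Subgroup G} (F : Fac z Q B B') :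
    ∃ c ∈ B', Ei z Q t (-1) c ∧ c ∉ B := by
  by_contra! hn
  have h1 : ∀ g, g * z = z * g → φ g ^ 4 = 1 → ∀ x ∈ B', g * x * g⁻¹ * x⁻¹ ∈ B := fun g hg e x hx => by
    have hQ := F.hi hx
    obtain ⟨p1, p2⟩ := h.split ht tt hQ
    have p3 := hn _ (mul_mem hx (inv_mem (F.i2 t ht x hx))) p2
    have p4 := mul_mem (F.i1 g hg _ p3) (inv_mem p3)
    refine (mul_mem_cancel_right p4).mp (F.lo ((h.memZ (mul_mem (mul_mem (h.nC hg hQ) (inv_mem hQ))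
      (F.hi (F.lt.le p4)))).mpr fun q hq => ?_))
    have p5 := h.fix ht hφ tt ha a1 hg e _ p1 q hq
    have p6 := h.nC ht hQ
    generalize t * x * t⁻¹ = x' at *
    rw [← conj_mul, h.omL (h.nC hg hQ) (h.nC hg p6) hq, h.omL hQ p6 hq] at p5
    rw [h.omL (mul_mem (h.nC hg hQ) (inv_mem hQ)) (F.hi (F.lt.le p4)) hq, h.omL (h.nC hg hQ) (inv_mem hQ) hq,
      h.omL (h.nC hg p2.1) (inv_mem p2.1) hq, h.invL p2.1 hq, h.omL hQ (inv_mem p6) hq, ← conj_mul, ← conj_inv,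
      h.omL (h.nC hg hQ) (inv_mem (h.nC hg p6)) hq, h.invL hQ hq, h.invL p6 hq, h.invL (h.nC hg p6) hq]
    linear_combination -p5 + (om z (g * x * g⁻¹) q - om z x q) * (by decide : (3 : ZMod 3) = 0)
  obtain ⟨σ, e0, e1⟩ := (by decide : ∃ σ : SL23, σ ^ 3 = 1 ∧ ∀ τ : SL23, ∃ k < 3, (τ * σ⁻¹ ^ k) ^ 4 = 1)
  obtain ⟨s, hs, rfl⟩ := h.surj σ
  have h2 : ∀ x ∈ B', s * x * s⁻¹ * x⁻¹ ∈ B → ∀ g, g * z = z * g → g * x * g⁻¹ * x⁻¹ ∈ B := fun x hx e g hg => by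
    obtain ⟨k, -, e2⟩ := e1 (φ g)
    have c1 := cm_mul hg (cm_pow (cm_inv hs) k)
    have p1 := h1 _ c1 (by rwa [h.mul _ _ hg (cm_pow (cm_inv hs) k), h.phi_pow (cm_inv hs), h.phi_inv hs]) x hx
    have p2 : ∀ k : ℕ, s ^ k * x * (s ^ k)⁻¹ * x⁻¹ ∈ B := fun k => by
      induction k with
      | zero => simp
      | succ k ih =>
        convert mul_mem (F.i1 _ hs _ ih) e using 1
        group
    convert mul_mem (F.i1 _ c1 _ (p2 k)) p1 using 1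
    group
  have h3 : ∃ x ∈ B', x ∉ B ∧ s * x * s⁻¹ * x⁻¹ ∈ B := by
    by_contra! hn
    obtain ⟨x, hx, x1⟩ := SetLike.exists_of_lt F.lt
    have d : ∀ x ∈ B', s * x * s⁻¹ * x⁻¹ ∈ B' := fun x hx => mul_mem (F.i2 s hs x hx) (inv_mem hx)
    refine hn _ (d _ (d x hx)) (hn _ (d x hx) (hn x hx x1)) (F.lo ((h.memZ (F.hi (d _ (d _ (d x hx))))).mpr
      fun q hq => ?_))
    have dq : ∀ q ∈ Q, s⁻¹ * q * s ∈ Q := fun q hq => by simpa using h.nC (cm_inv hs) hq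
    have dl : ∀ u ∈ B', ∀ q ∈ Q, om z (s * u * s⁻¹ * u⁻¹) q = om z u (s⁻¹ * q * s) - om z u q := fun u hu q hq => by
      rw [h.omL (h.nC hs (F.hi hu)) (inv_mem (F.hi hu)) hq, h.omC' hs (F.hi hu) hq, h.invL (F.hi hu) hq,
        sub_eq_add_neg]
    have q4 := h.omQ ((h.ker _ (cm_pow hs 3)).mp (by rw [h.phi_pow hs, e0])) (F.hi hx) hq
    rw [h.omC' (cm_pow hs 3) (F.hi hx) hq,
      show (s ^ 3)⁻¹ * q * s ^ 3 = s⁻¹ * (s⁻¹ * (s⁻¹ * q * s) * s) * s by rw [pow_three']; group] at q4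
    rw [dl _ (d _ (d x hx)) q hq, dl _ (d x hx) q hq, dl _ (d x hx) _ (dq q hq), dl x hx q hq, dl x hx _ (dq q hq),
      dl x hx _ (dq _ (dq q hq))]
    linear_combination q4 + (om z x (s⁻¹ * q * s) - om z x (s⁻¹ * (s⁻¹ * q * s) * s)) * (by decide : (3 : ZMod 3) = 0)
  obtain ⟨x, hx, x1, x2⟩ := h3
  let D : Subgroup G :=
    { carrier := {x | x ∈ B' ∧ ∀ g, g * z = z * g → g * x * g⁻¹ * x⁻¹ ∈ B}
      one_mem' := ⟨one_mem _, fun g _ => by simp⟩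
      mul_mem' := fun {x y} hx hy => ⟨mul_mem hx.1 hy.1, fun g hg => by
        convert mul_mem (F.i1 _ (h.le _ (h.nC hg (F.hi hx.1))) _ (hy.2 g hg)) (hx.2 g hg) using 1
        group⟩
      inv_mem' := fun {x} hx => ⟨inv_mem hx.1, fun g hg => by
        convert F.i1 _ (h.le _ (inv_mem (F.hi hx.1))) _ (inv_mem (hx.2 g hg)) using 1
        group⟩ }
  obtain ⟨g, hg, y, hy, y1⟩ := F.nc
  obtain ⟨k, hk, v, hv, v1⟩ := F.mx D (lt_of_le_of_ne (fun y hy => ⟨F.lt.le hy, fun g hg =>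
    mul_mem (F.i1 g hg y hy) (inv_mem hy)⟩) fun e => x1 (e.ge ⟨hx, h2 x hx x2⟩))
    (lt_of_le_of_ne (fun _ hy => hy.1) fun e => y1 ((e.ge hy).2 g hg))
  refine v1 ⟨F.i2 k hk v hv.1, fun g hg => ?_⟩
  convert F.i1 k hk _ (hv.2 _ (cm_mul (cm_mul (cm_inv hk) hg) hk)) using 1
  group

theorem inv_of_fac {B₁ B₁' B₂ B₂' : Subgroup G} (F₁ : Fac z Q B₁ B₁') (F₂ : Fac z Q B₂ B₂') (hB : B₁' ≤ B₂)
    (ha : a ∈ Q) : t * a * t⁻¹ * a ∈ zpowers z := by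
  by_contra hn
  have h0 := (h.split ht tt ha).1
  have a1 : a * (t * a * t⁻¹) ∉ zpowers z := fun e => hn (by
    rwa [show t * a * t⁻¹ * a = a⁻¹ * (a * (t * a * t⁻¹)) * a⁻¹⁻¹ by group, cj_of_cm (cm_zp (h.le _ (inv_mem ha)) e)])
  obtain ⟨c, c1, c2, c3⟩ := h.factor ht hφ tt h0 a1 F₁
  obtain ⟨d, -, d2, d3⟩ := h.factor ht hφ tt h0 a1 F₂
  obtain ⟨g, hg, e⟩ := h.surj sl23I
  have e1 := h.Econj ht hφ hg c2
  have e2 := F₁.i2 g hg c c1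
  have c4 : c ∉ zpowers z := fun e => c3 (F₁.lo e)
  have n1 : (-1 : ZMod 3) ≠ 0 := by decide
  by_cases e3 : om z (g * c * g⁻¹) c = 0
  · obtain ⟨k, hk, e4⟩ := h.two ht tt n1 c2 c4 (by rwa [neg_neg]) a1 e1 e3
    refine c4 ((h.memZ c2.1).mpr fun q hq => ?_)
    have e5 := h.omZ e4 hq
    have e6 := h.omZ (by rwa [cj_of_cm (cm_zp hg e4)] : g * (g * c * g⁻¹ * c ^ k) * g⁻¹ ∈ _) hq
    have e7 := h.omT ht hφ (cm_mul hg hg) (by rw [h.mul _ _ hg hg, e]; decide) c2 hq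
    rw [show g * g * c * (g * g)⁻¹ = g * (g * c * g⁻¹) * g⁻¹ by group] at e7
    rw [← conj_mul (c := c ^ k), ← conj_pow, h.omL (h.nC hg e1.1) (pow_mem e1.1 k) hq, h.powL e1.1 hq, e7] at e6
    rw [h.omL e1.1 (pow_mem c2.1 k) hq, h.powL c2.1 hq] at e5
    exact (by decide : ∀ k x y : ZMod 3, y + k * x = 0 → -1 * x + k * y = 0 → x = 0) _ _ _ e5 e6
  · obtain ⟨l, -, e4⟩ := h.kill e1.1 c2.1 d2.1 e3
    obtain ⟨k, -, e5⟩ := h.two ht tt n1 c2 c4 (by rwa [neg_neg]) a1 (h.Emul ht d2 (h.Epow ht e1 l)) e4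
    exact d3 ((mul_mem_cancel_right (hB (pow_mem e2 l))).mp
      ((mul_mem_cancel_right (hB (pow_mem c1 k))).mp (F₂.lo e5)))

end Hyp0

end Cfsg.Agent.L43
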