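import Cfsg.Agent.Char.Param
import Cfsg.Agent.Char.Induce

/-! The lattice computation behind `se162`. -/

set_option autoImplicit false

namespace Cfsg.Agent.L43.SE

open Cfsg.Agent.Char
open scoped ComplexConjugate

section
variable {ι : Type*} [Fintype ι]

theorem dp_nonneg (u : ι → ℤ) : 0 ≤ u ⬝ᵥ u := Finset.sum_nonneg fun i _ => mul_self_nonneg (u i)

theorem dp_split {u : ι → ℤ} (h : u ⬝ᵥ u = 2) : ∃ p q, u = p + q ∧ p ⬝ᵥ p = 1 ∧ q ⬝ᵥ q = 1 ∧
    p ⬝ᵥ q = 0 := by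
  classical
  obtain ⟨i, hi⟩ : ∃ i, u i ≠ 0 := by
    by_contra hh
    push Not at hh
    simp [dotProduct, hh] at h
  have h1 : u i * u i ≤ 2 := h ▸ Finset.single_le_sum (f := fun i => u i * u i)
    (fun i _ => mul_self_nonneg (u i)) (Finset.mem_univ i)
  have h2 : u i * u i = 1 := by
    have : u i ≤ 1 := by nlinarith
    have : -1 ≤ u i := by nlinarith
    interval_cases u i <;> simp_all
  refine ⟨Pi.single i (u i), u - Pi.single i (u i), by simp, by simp [h2], ?_, by simp⟩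
  simp [h, h2]

theorem lat_core (D E Q : (ι → ℤ) →+ ℂ) (h : ∀ x, x ⬝ᵥ x = 1 → D x ≠ 0 ∧ Q x * D x = E x ^ 2)
    {o u v t c : ι → ℤ} (oo : o ⬝ᵥ o = 1) (uo : u ⬝ᵥ o = 0) (uu : u ⬝ᵥ u = 2) (vv : v ⬝ᵥ v = 2)
    (tt : t ⬝ᵥ t = 2) (cc : c ⬝ᵥ c = 3) (uv : u ⬝ᵥ v = 1) (ut : u ⬝ᵥ t = 1) (vt : v ⬝ᵥ t = 0)
    (uc : u ⬝ᵥ c = 0) (vc : v ⬝ᵥ c = -1) (tc : t ⬝ᵥ c = 1) (Du : D u = -1) (Eu : E u = -1)
    (Dv : D v = -1) (Ev : E v = -1) (Dt : D t = 1) (Et : E t = 1) (Dc : D c = 0) (Ec : E c = 0)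
    (hQ : Q t - Q c = 1) : ∃ x, x ⬝ᵥ x = 1 ∧ x ⬝ᵥ o = 0 ∧ (D x = E x ∨ D x = 1) := by
  obtain ⟨p, q, rfl, pp, qq, pq, pv, qv⟩ : ∃ p q, u = p + q ∧ p ⬝ᵥ p = 1 ∧ q ⬝ᵥ q = 1 ∧
      p ⬝ᵥ q = 0 ∧ p ⬝ᵥ v = 1 ∧ q ⬝ᵥ v = 0 := by
    obtain ⟨p, q, rfl, pp, qq, pq⟩ := dp_split uu
    have h1 := dp_nonneg (v - (p ⬝ᵥ v) • p - (q ⬝ᵥ v) • q)
    simp only [add_dotProduct, sub_dotProduct, dotProduct_sub, smul_dotProduct, dotProduct_smul,
      smul_eq_mul, dotProduct_comm v p, dotProduct_comm v q, dotProduct_comm q p, pp, qq, pq,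
      vv] at h1 uv
    have : p ⬝ᵥ v = 1 ∨ p ⬝ᵥ v = 0 := by
      have : p ⬝ᵥ v ≤ 1 := by nlinarith
      have : 0 ≤ p ⬝ᵥ v := by nlinarith
      omega
    rcases this with e | e
    · exact ⟨p, q, rfl, pp, qq, pq, e, by omega⟩
    · exact ⟨q, p, add_comm _ _, qq, pp, (dotProduct_comm _ _).trans pq, by omega, e⟩
  have po : p ⬝ᵥ o = 0 ∧ q ⬝ᵥ o = 0 := by
    have h1 := dp_nonneg (o - (p ⬝ᵥ o) • p - (q ⬝ᵥ o) • q)
    simp only [add_dotProduct, sub_dotProduct, dotProduct_sub, smul_dotProduct, dotProduct_smul,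
      smul_eq_mul, dotProduct_comm o p, dotProduct_comm o q, dotProduct_comm q p, pp, qq, pq,
      oo] at h1 uo
    constructor <;> nlinarith
  obtain ⟨r, rfl⟩ : ∃ r, v = p + r := ⟨v - p, by simp⟩
  simp only [add_dotProduct, dotProduct_add, dotProduct_comm q p, dotProduct_comm r p,
    map_add] at *
  have pr : p ⬝ᵥ r = 0 := by omega
  have qr : q ⬝ᵥ r = 0 := by omega
  have rr : r ⬝ᵥ r = 1 := by omega
  obtain ⟨pt, qt, rt⟩ : p ⬝ᵥ t = 0 ∧ q ⬝ᵥ t = 1 ∧ r ⬝ᵥ t = 0 := by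
    have h1 := dp_nonneg (t - (p ⬝ᵥ t) • p - (q ⬝ᵥ t) • q - (r ⬝ᵥ t) • r)
    simp only [sub_dotProduct, dotProduct_sub, smul_dotProduct, dotProduct_smul,
      smul_eq_mul, dotProduct_comm t p, dotProduct_comm t q, dotProduct_comm t r,
      dotProduct_comm q p, dotProduct_comm r p, dotProduct_comm r q, pp, qq, rr, pq, pr, qr,
      tt] at h1
    have : p ⬝ᵥ t = 1 ∨ p ⬝ᵥ t = 0 := by
      have : p ⬝ᵥ t ≤ 1 := by nlinarith
      have : 0 ≤ p ⬝ᵥ t := by nlinarith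
      omega
    rcases this with e | e
    · have h2 : (t - p + r) ⬝ᵥ (t - p + r) = 0 := by
        simp only [add_dotProduct, sub_dotProduct, dotProduct_sub, dotProduct_add,
          dotProduct_comm t p, dotProduct_comm t r, dotProduct_comm r p, pp, rr, pr, tt]
        omega
      have h3 := congrArg D (dotProduct_self_eq_zero.mp h2)
      simp only [map_add, map_sub, map_zero] at h3
      exact absurd (by linear_combination (Dv - h3 + Dt) / 2) (h p pp).1
    · omega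
  obtain ⟨y, rfl⟩ : ∃ y, t = q + y := ⟨t - q, by simp⟩
  simp only [add_dotProduct, dotProduct_add, dotProduct_comm y q, dotProduct_comm r q,
    map_add] at *
  have py : p ⬝ᵥ y = 0 := by omega
  have qy : q ⬝ᵥ y = 0 := by omega
  have ry : r ⬝ᵥ y = 0 := by omega
  have yy : y ⬝ᵥ y = 1 := by omega
  have h1 := dp_nonneg (c - (p ⬝ᵥ c) • p - (q ⬝ᵥ c) • q - (r ⬝ᵥ c) • r - (y ⬝ᵥ c) • y)
  simp only [sub_dotProduct, dotProduct_sub, smul_dotProduct, dotProduct_smul,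
    smul_eq_mul, dotProduct_comm c p, dotProduct_comm c q, dotProduct_comm c r,
    dotProduct_comm c y, dotProduct_comm q p, dotProduct_comm r p, dotProduct_comm r q,
    dotProduct_comm y p, dotProduct_comm y q, dotProduct_comm y r, pp, qq, rr, yy, pq, pr, qr, py,
    qy, ry, cc] at h1
  have : p ⬝ᵥ c = -1 ∨ p ⬝ᵥ c = 0 := by
    have e1 : q ⬝ᵥ c = -p ⬝ᵥ c := by rw [neg_dotProduct]; omega
    have e2 : r ⬝ᵥ c = -1 - p ⬝ᵥ c := by omega
    have e3 : y ⬝ᵥ c = 1 + p ⬝ᵥ c := by omega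
    rw [neg_dotProduct] at e1
    rw [e1, e2, e3] at h1
    have : p ⬝ᵥ c ≤ 0 := by nlinarith
    have : -1 ≤ p ⬝ᵥ c := by nlinarith
    omega
  clear h1
  rcases this with e | e
  · obtain ⟨x, rfl⟩ : ∃ x, c = x - p + q := ⟨c + p - q, by abel⟩
    simp only [add_dotProduct, dotProduct_add, sub_dotProduct, dotProduct_sub, dotProduct_comm x p,
      dotProduct_comm x q, dotProduct_comm q p, map_add, map_sub] at *
    obtain ⟨a1, a2⟩ := h p pp
    obtain ⟨b1, b2⟩ := h y yy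
    obtain ⟨c1, c2⟩ := h x (by omega)
    have d1 : D y = D p + 2 := by linear_combination Dt - Du
    have d2 : E y = E p + 2 := by linear_combination Et - Eu
    have d3 : D x = 2 * D p + 1 := by linear_combination Dc - Du
    have d4 : E x = 2 * E p + 1 := by linear_combination Ec - Eu
    rw [d1, d2] at b2
    rw [d3, d4] at c2
    have : (D p - E p) ^ 2 * (D p - 1) = 0 := by
      linear_combination (-(D p) * (D p + 2) * (2 * D p + 1) * hQ + (D p + 2) * (2 * D p + 1) * a2 +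
        D p * (2 * D p + 1) * b2 - D p * (D p + 2) * c2) / 2
    refine ⟨p, pp, po.1, ?_⟩
    simpa [sub_eq_zero] using this
  · obtain ⟨x, rfl⟩ : ∃ x, c = x - r + y := ⟨c + r - y, by abel⟩
    simp only [add_dotProduct, dotProduct_add, sub_dotProduct, dotProduct_sub, dotProduct_comm x r,
      dotProduct_comm x y, dotProduct_comm y r, map_add, map_sub] at *
    obtain ⟨a1, a2⟩ := h q qq
    obtain ⟨b1, b2⟩ := h r rr
    obtain ⟨c1, c2⟩ := h x (by omega)
    have d1 : D r = D q := by linear_combination Dv - Du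
    have d2 : E r = E q := by linear_combination Ev - Eu
    have d3 : D x = 2 * D q - 1 := by linear_combination Dc - Dt + d1
    have d4 : E x = 2 * E q - 1 := by linear_combination Ec - Et + d2
    rw [d1, d2] at b2
    rw [d3, d4] at c2
    have : (D q - E q) ^ 2 = 0 := by
      linear_combination (-(D q) * (2 * D q - 1) * hQ + (2 * D q - 1) * (a2 + b2) - D q * c2) / 2
    refine ⟨q, qq, po.2, Or.inl ?_⟩
    simpa [sub_eq_zero] using this

noncomputable def lin (F : ι → ℂ) : (ι → ℤ) →+ ℂ where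
  toFun x := ∑ i, x i * F i
  map_zero' := by simp
  map_add' x y := by simp [add_mul, Finset.sum_add_distrib]

theorem lin_unit {x : ι → ℤ} (h : x ⬝ᵥ x = 1) : ∃ i, (x i = 1 ∨ x i = -1) ∧
    ∀ F, lin F x = x i * F i := by
  obtain ⟨i, h1, h2⟩ := int_sum_sq_eq_one x (by simpa [dotProduct, pow_two] using h)
  exact ⟨i, h1, fun F => Finset.sum_eq_single i (fun j _ hj => by simp [h2 j hj]) (by simp)⟩

end

theorem char_core {X : Type*} [Group X] [Fintype X] {τ : X} (f : Fin 4 → X → ℂ)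
    (g : Fin 4 → Fin 5 → ℤ) (hg : g = ![![3, 2, 0, 0, 1], ![2, 3, -1, -1, 1], ![0, -1, 3, 1, -1],
      ![0, -1, 1, 3, 0]]) (hf : ∀ i, IsGeneralizedCharacter X (f i))
    (h1 : ∀ i j, classInner (f i) (f j) = g i j.castSucc) (h2 : ∀ i, classInner (f i) 1 = g i 4)
    (h3 : ∀ i, f i 1 = 0) (h4 : ∀ i, f i τ = 0)
    (h5 : ∀ x, f 2 (x * τ * x⁻¹ * τ) = f 3 (x * τ * x⁻¹ * τ)) :
    ∃ K : Subgroup X, K.Normal ∧ K ≠ ⊤ ∧ ∀ x, x * τ * x⁻¹ * τ⁻¹ ∈ K := by
  classical
  choose k hk _ using fun i => gen_exists_coeff (hf i)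
  let o : IrrCharacter X := ⟨1, irr_one⟩
  have kk : ∀ i j, k i ⬝ᵥ k j = g i j.castSucc := fun i j => by
    have := h1 i j
    rw [inner_eq_sum_irr (gen_isClassFunction (hf i))] at this
    simp only [hk, map_intCast] at this
    exact_mod_cast this
  have ko : ∀ i, k i o = g i 4 := fun i => by exact_mod_cast (hk i o).symm.trans (h2 i)
  have ev : ∀ i x, lin (fun χ : IrrCharacter X => χ.1 x) (k i) = f i x := fun i x => by
    rw [classFun_apply (gen_isClassFunction (hf i))]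
    simp only [hk]; rfl
  have eo : ∀ F : IrrCharacter X → ℂ, lin F (Pi.single o 1) = F o := fun F =>
    (Finset.sum_eq_single o (fun j _ hj => by simp [hj]) (by simp)).trans (by simp)
  have h6 : ∀ i, ∑ x, f i (x * τ * x⁻¹ * τ) =
      Nat.card X * lin (fun χ : IrrCharacter X => χ.1 τ * χ.1 τ / χ.1 1) (k i) := fun i => by
    rw [classFun_sum_conj_mul (gen_isClassFunction (hf i))]
    simp only [hk]; rfl
  have h7 := h6 2
  simp only [h5, h6 3] at h7
  have h8 := mul_left_cancel₀ (card_ne_zero' X) h7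
  subst hg
  obtain ⟨x, xx, xo, hx⟩ := lat_core (lin fun χ : IrrCharacter X => χ.1 1) (lin fun χ => χ.1 τ)
    (lin fun χ => χ.1 τ * χ.1 τ / χ.1 1) (fun x hx => by
      obtain ⟨i, hi, e⟩ := lin_unit hx
      have := irr_one_ne_zero i.2
      rcases hi with hi | hi <;> simp [e, hi, this] <;> field_simp)
    (o := Pi.single o 1) (u := k 0 - Pi.single o 1) (v := k 1 - Pi.single o 1)
    (t := k 2 + Pi.single o 1) (c := k 3) (by simp) (by simp [ko]) (by simp [ko, kk])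
    (by simp [ko, kk]) (by simp [ko, kk]) (by simp [kk]) (by simp [ko, kk]) (by simp [ko, kk])
    (by simp [ko, kk]) (by simp [ko, kk]) (by simp [ko, kk]) (by simp [ko, kk])
    (by simp [ev, eo, h3, o]) (by simp [ev, eo, h4, o]) (by simp [ev, eo, h3, o])
    (by simp [ev, eo, h4, o]) (by simp [ev, eo, h3, o]) (by simp [ev, eo, h4, o]) (by simp [ev, h3])
    (by simp [ev, h4]) (by simp [eo, o, h8])
  obtain ⟨χ, hχ, e⟩ := lin_unit xx
  obtain ⟨K, hK, k1, -⟩ := char_exists_ker (irr_isCharacter χ.2)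
  obtain ⟨n, hn, n1⟩ := irr_apply_one χ.2
  have hx0 : (x χ : ℂ) ≠ 0 := by rcases hχ with h | h <;> simp [h]
  refine ⟨K, hK, fun h => ?_, fun y => ?_⟩
  · have h9 : χ.1 = (n : ℂ) • 1 := funext fun y => by simp [(k1 y).mp (h ▸ Subgroup.mem_top y), n1]
    have h10 : χ ≠ o := fun h => by simp [h] at xo hx0; exact hx0 xo
    have := inner_irr_ne χ.2 irr_one fun h => h10 (Subtype.ext h)
    rw [h9, Char.inner_smul_left, inner_one_one] at this
    simp [hn.ne'] at this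
  · simp only [e] at hx
    rcases hx with hx | hx
    · have : τ ∈ K := (k1 τ).mpr (mul_left_cancel₀ hx0 hx).symm
      exact mul_mem (hK.conj_mem τ this y) (inv_mem this)
    · have h9 : χ.1 1 = 1 := by
        rcases hχ with h | h <;> rw [h, n1] at hx
        · simpa [n1] using hx
        · exact absurd (show (-1 * n : ℤ) = 1 by exact_mod_cast hx) (by omega)
      obtain ⟨φ, hφ⟩ := char_exists_monoidHom (irr_isCharacter χ.2) h9
      rw [k1, hφ, map_mul, map_mul, map_mul, mul_right_comm (φ y), mul_assoc, ← map_mul, ← map_mul]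
      simp

end Cfsg.Agent.L43.SE
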