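import Cfsg.Agent.L43.SEM
import Cfsg.Agent.L43.SEC
import Cfsg.Agent.Local.FrobNPC
import Cfsg.Agent.Local.Norm

/-! A strongly `3`-embedded subgroup `(3 ≀ 3) : 2` is the whole group. -/

set_option autoImplicit false

namespace Cfsg.Agent.L43

open Subgroup Cfsg.Agent.Local Cfsg.Agent.Char SE

variable {X : Type*} [Group X]

theorem se_hom {z w s c τ : X} (z3 : z ^ 3 = 1) (w3 : w ^ 3 = 1)
    (s3 : s ^ 3 = 1) (c3 : c ^ 3 = 1) (tt : τ * τ = 1) (zw : z * w = w * z) (zs : z * s = s * z)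
    (ws : w * s = s * w) (cz : c * z = z * c) (cw : c * w * c⁻¹ = z * w)
    (cs : c * s * c⁻¹ = z * w⁻¹ * s) (tz : τ * z * τ⁻¹ = z⁻¹) (tw : τ * w = w * τ)
    (ts : τ * s * τ⁻¹ = s⁻¹) (tc : τ * c * τ⁻¹ = c⁻¹) : ∃ φ : M →* X, ∀ m, φ m =
      z ^ m.a.val * w ^ m.b.val * s ^ m.d.val * c ^ m.k.val * if m.e then τ else 1 := by
  let E : F3 → F3 → F3 → X := fun a b d => z ^ a.val * w ^ b.val * s ^ d.val
  have hzw : Commute z w := zw
  have hzs : Commute z s := zs
  have hws : Commute w s := ws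
  have hE : ∀ a b d a' b' d', E a b d * E a' b' d' = E (a + a') (b + b') (d + d') := by
    intro a b d a' b' d'
    simp only [E, pow_val_add z3, pow_val_add w3, pow_val_add s3, mul_assoc]
    rw [(hzs.pow_pow _ _).symm.left_comm, (hzw.pow_pow _ _).symm.left_comm,
      (hws.pow_pow _ _).symm.left_comm]
  have hneg : ∀ {x : X}, x ^ 3 = 1 → ∀ a : F3, x⁻¹ ^ a.val = x ^ (-a).val := fun h a => by
    rw [inv_pow, inv_eq_iff_mul_eq_one, ← pow_val_add h]; simp
  have h1 : ∀ a b d, c * E a b d = E (a + b + d) (b - d) d * c := fun a b d => by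
    have e : c * E a b d * c⁻¹ = E a 0 0 * E b b 0 * E d (-d) d := by
      change MulAut.conj c (E a b d) = _
      simp only [E, map_mul, map_pow, MulAut.conj_apply, cw, cs, cz, mul_inv_cancel_right,
        ZMod.val_zero, pow_zero, mul_one, hzw.mul_pow, hzw.inv_right.mul_pow,
        (hzs.mul_left hws.inv_left).mul_pow, hneg w3]
    rw [← mul_inv_eq_iff_eq_mul, e, hE, hE]
    congr 1 <;> ring
  have h2 : ∀ k a b d : F3, c ^ k.val * E a b d = E (a + k * b + k * k * d) (b - k * d) d * c ^ k.val := by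
    intro k a b d
    have : k = 0 ∨ k = 1 ∨ k = 2 := by revert k; decide
    rcases this with rfl | rfl | rfl
    · simp
    · simp [ZMod.val_one, h1]
    · rw [show (2 : F3).val = 2 from rfl, pow_two, mul_assoc, h1, ← mul_assoc, h1, mul_assoc]
      congr 2 <;> grind
  have h3 : ∀ a b d, τ * E a b d = E (-a) b (-d) * τ := fun a b d => by
    rw [← mul_inv_eq_iff_eq_mul]
    change MulAut.conj τ (E a b d) = _
    simp only [E, map_mul, map_pow, MulAut.conj_apply, tz, ts, tw, mul_inv_cancel_right, hneg z3,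
      hneg s3]
  have h4 : ∀ k : F3, τ * c ^ k.val = c ^ (-k).val * τ := fun k => by
    rw [← hneg c3, ← tc, conj_pow]; group
  refine ⟨MonoidHom.mk' (fun m => E m.a m.b m.d * c ^ m.k.val * if m.e then τ else 1) ?_,
    fun _ => rfl⟩
  rintro ⟨a, b, d, k, e⟩ ⟨a', b', d', k', e'⟩
  have h5 : ∀ (x : X) a b d a' b' d', E a b d * (E a' b' d' * x) = E (a + a') (b + b') (d + d') * x :=
    fun x a b d a' b' d' => by rw [← mul_assoc, hE]
  have h6 : ∀ (x : X) (k a b d : F3), c ^ k.val * (E a b d * x) =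
      E (a + k * b + k * k * d) (b - k * d) d * (c ^ k.val * x) := fun x k a b d => by
    rw [← mul_assoc, h2, mul_assoc]
  have h7 : ∀ (x : X) (a b d : F3), τ * (E a b d * x) = E (-a) b (-d) * (τ * x) := fun x a b d => by
    rw [← mul_assoc, h3, mul_assoc]
  have h8 : ∀ (x : X) (k : F3), τ * (c ^ k.val * x) = c ^ (-k).val * (τ * x) := fun x k => by
    rw [← mul_assoc, h4, mul_assoc]
  clear_value E
  cases e
  · simp only [mul_def, sg, Bool.false_eq_true, if_false, one_mul, mul_one, Bool.false_xor,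
      pow_val_add c3, mul_assoc, h5, h6]
    congr 2 <;> ring
  · simp only [mul_def, sg, if_true, pow_val_add c3, mul_assoc, h5, h6, h7, h8, neg_one_mul]
    congr 2
    · ring
    · ring
    · cases e' <;> simp [tt]

theorem se_end [Finite X] {N K : Subgroup X} [K.Normal] (hK : K ≠ ⊤) {z w : X} (z1 : z ≠ 1)
    (z3 : z ^ 3 = 1) (w3 : w ^ 3 = 1) (zw : z * w = w * z) (wz : w ∉ zpowers z) (zK : z ∈ K)
    (wK : w ∈ K) (zN : z ∈ N) (wN : w ∈ N)
    (se : ∀ x ∈ N, orderOf x = 3 → ∀ g, g * x * g⁻¹ ∈ N → g ∈ N)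
    (h : N ≤ K ∨ IsPGroup 3 ↥(N ⊓ K)) : N = ⊤ := by
  have := Fact.mk Nat.prime_three
  have oz : orderOf z = 3 := orderOf_eq_prime z3 z1
  obtain ⟨S, hS, hz⟩ := exists_isSylowIn_ge (Q := zpowers z) (N := K)
    (IsPGroup.of_card (n := 1) (by rw [Nat.card_zpowers, oz, pow_one])) (zpowers_le.mpr zK)
  have zS : z ∈ S := hz (mem_zpowers z)
  have h3 : ∀ x ∈ S, x ≠ 1 → ∃ k, orderOf (x ^ k) = 3 := fun x hx x1 => by
    obtain ⟨n, hn⟩ := IsPGroup.iff_orderOf.mp hS.isPGroup ⟨x, hx⟩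
    rw [orderOf_mk] at hn
    refine ⟨_, orderOf_pow_orderOf_div (orderOf_pos x).ne' (hn ▸ dvd_pow_self 3 ?_)⟩
    rintro rfl
    exact x1 (orderOf_eq_one_iff.mp hn)
  have SN : S ≤ N := by
    have : Nontrivial S := ⟨⟨⟨z, zS⟩, 1, fun e => z1 (congrArg Subtype.val e)⟩⟩
    obtain ⟨⟨x, hx⟩, x1⟩ := @exists_ne _ hS.isPGroup.center_nontrivial 1
    obtain ⟨k, hk⟩ := h3 x x.2 fun e => x1 (Subtype.ext (Subtype.ext e))
    have hc : ∀ y ∈ S, y * (x : X) ^ k = (x : X) ^ k * y := fun y hy =>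
      Commute.pow_right (congrArg Subtype.val (mem_center_iff.mp hx ⟨y, hy⟩)) k
    have xN := se z zN oz ((x : X) ^ k) (by rwa [← hc z zS, mul_inv_cancel_right])
    exact fun y hy => se _ xN hk y (by rwa [hc y hy, mul_inv_cancel_right])
  have se' : ∀ x ∈ S, x ≠ 1 → ∀ g, g * x * g⁻¹ ∈ N → g ∈ N := fun x hx x1 g hg => by
    obtain ⟨k, hk⟩ := h3 x hx x1
    exact se _ (pow_mem (SN hx) k) hk g (by rw [← conj_pow]; exact pow_mem hg k)
  have fr : ∀ g, ∃ n ∈ K, n⁻¹ * g ∈ N := fun g => by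
    obtain ⟨n, hn, e⟩ := hS.frattini (g := g) (le_normalizer_of_normal (K := ⊤) (mem_top g))
    exact ⟨n, hn, se z zN oz _ (SN (conj_mem_of_mem_normalizer e zS))⟩
  rcases h with h | h
  · refine absurd (eq_top_iff.mpr fun g _ => ?_) hK
    obtain ⟨n, hn, e⟩ := fr g
    simpa using mul_mem hn (h e)
  have hNK : N ⊓ K = S := hS.eq_of_le h (le_inf SN hS.le) inf_le_right
  have hc := hasNPC_of_fusion hS fun x hx g hg e => by
    by_cases x1 : x = 1
    · exact ⟨1, one_mem _, by simp [x1]⟩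
    · exact ⟨g, hNK ▸ ⟨se' x hx x1 g (SN e), hg⟩, rfl⟩
  have CN : hc.compl ≤ N := le_of_centralizer_le_of_rank_two Nat.prime_three (hc.le_normalizer wK)
    (hc.le_normalizer zK) zw.symm w3 oz wz
    ((Nat.Prime.coprime_iff_not_dvd Nat.prime_three).mp (hc.coprime_card Nat.prime_three).symm)
    fun e he e1 g hg => by
      have eS : e ∈ S := (closure_le S).mpr (by
        rintro _ (rfl | rfl)
        exacts [hNK ▸ ⟨wN, wK⟩, zS]) he
      exact se' e eS e1 g (by
        rw [mem_centralizer_singleton_iff.mp hg.2, mul_inv_cancel_right]; exact SN eS)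
  refine eq_top_iff.mpr fun g _ => ?_
  obtain ⟨n, hn, e⟩ := fr g
  simpa using mul_mem (((hc.sup_compl hS).ge.trans (sup_le SN CN)) hn) e

theorem se162 [Finite X] {z w s c τ : X} (z1 : z ≠ 1) (z3 : z ^ 3 = 1) (w3 : w ^ 3 = 1)
    (s3 : s ^ 3 = 1) (c3 : c ^ 3 = 1) (tt : τ * τ = 1) (zw : z * w = w * z) (zs : z * s = s * z)
    (ws : w * s = s * w) (cz : c * z = z * c) (cw : c * w * c⁻¹ = z * w)
    (cs : c * s * c⁻¹ = z * w⁻¹ * s) (tz : τ * z * τ⁻¹ = z⁻¹) (tw : τ * w = w * τ)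
    (ts : τ * s * τ⁻¹ = s⁻¹) (tc : τ * c * τ⁻¹ = c⁻¹)
    (se : ∀ x ∈ closure ({z, w, s, c, τ} : Set X), orderOf x = 3 → ∀ g,
      g * x * g⁻¹ ∈ closure ({z, w, s, c, τ} : Set X) → g ∈ closure ({z, w, s, c, τ} : Set X)) :
    closure ({z, w, s, c, τ} : Set X) = ⊤ := by
  classical
  have := Fintype.ofFinite X
  obtain ⟨φ, hφ⟩ := se_hom z3 w3 s3 c3 tt zw zs ws cz cw cs tz tw ts tc
  have pz : φ z0 = z := by simp [hφ, z0, ZMod.val_one]
  have pw : φ w0 = w := by simp [hφ, w0, ZMod.val_one]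
  have ps : φ s0 = s := by simp [hφ, s0, ZMod.val_one]
  have pc : φ c0 = c := by simp [hφ, c0, ZMod.val_one]
  have pt : φ t0 = τ := by simp [hφ, t0]
  have hinj : Function.Injective φ := φ.ker_eq_bot_iff.mp (mem_normal _ (by
    rwa [MonoidHom.mem_ker, pz]))
  have hle : ∀ K : Subgroup X, z ∈ K → w ∈ K → s ∈ K → c ∈ K → ∀ m,
      φ m ∈ K ↔ (if m.e then τ else 1) ∈ K := fun K a1 a2 a3 a4 m => by
    rw [hφ, mul_mem_cancel_left (mul_mem (mul_mem (mul_mem (pow_mem a1 _) (pow_mem a2 _))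
      (pow_mem a3 _)) (pow_mem a4 _))]
  have hN : closure ({z, w, s, c, τ} : Set X) = φ.range := by
    refine le_antisymm ((closure_le _).mpr ?_) ?_
    · rintro _ (rfl | rfl | rfl | rfl | rfl)
      exacts [⟨_, pz⟩, ⟨_, pw⟩, ⟨_, ps⟩, ⟨_, pc⟩, ⟨_, pt⟩]
    · rintro _ ⟨m, rfl⟩
      rw [hle _ (subset_closure (by simp)) (subset_closure (by simp)) (subset_closure (by simp))
        (subset_closure (by simp))]
      split_ifs
      exacts [subset_closure (by simp), one_mem _]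
  rw [hN] at se ⊢
  have ti : ∀ m, m * m ≠ 1 → ∀ g, g * φ m * g⁻¹ ∈ φ.range → g ∈ φ.range := fun m hm g hg => by
    have := Fact.mk Nat.prime_three
    obtain ⟨k, h1, h2⟩ : ∃ k, m ^ k ≠ 1 ∧ (m ^ k) ^ 3 = 1 :=
      (pow_ord m hm).elim (fun h => ⟨_, h⟩) fun h => ⟨_, h⟩
    exact se (φ (m ^ k)) ⟨_, rfl⟩ (by rw [orderOf_injective φ hinj, orderOf_eq_prime h2 h1]) g
      (by rw [map_pow, ← conj_pow]; exact pow_mem hg k)
  let e := MonoidHom.ofInjective hinj
  have he : ∀ m, e.symm ⟨φ m, m, rfl⟩ = m := fun m => e.symm_apply_eq.mpr rfl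
  let θ : (M → ℤ × ℤ) → φ.range → ℂ := fun F n => ev (F (e.symm n))
  have tr : ∀ F G, classInner (θ F) (θ G) = classInner (fun x => ev (F x)) fun x => ev (G x) :=
    fun F G => by
      rw [classInner, classInner, ← Nat.card_congr e.toEquiv, ← Equiv.sum_comp e.toEquiv]
      simp [θ]
  have van : ∀ F G x, (∀ y m, y⁻¹ * x * y = φ m → F m = G m) →
      indFun φ.range (θ F) x = indFun φ.range (θ G) x := fun F G x h => by
    rw [indFun_apply, indFun_apply]
    refine congrArg _ (Finset.sum_congr rfl fun y _ => ?_)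
    by_cases hy : y⁻¹ * x * y ∈ φ.range
    · obtain ⟨m, hm⟩ := hy
      rw [← hm, extendByZero_of_mem φ.range _ ⟨m, rfl⟩, extendByZero_of_mem φ.range _ ⟨m, rfl⟩]
      simp only [θ, he, h y m hm.symm]
    · rw [extendByZero_of_notMem _ _ hy, extendByZero_of_notMem _ _ hy]
  have van0 : ∀ (i : Fin 4) x, x * x = 1 → indFun φ.range (θ (ff i.castSucc)) x = 0 :=
    fun i x hx => by
      rw [van _ 0 x fun y m hm => supp_ff i m (hinj (by
        rw [map_mul, ← hm, map_one]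
        calc _ = y⁻¹ * (x * x) * y := by group
          _ = 1 := by simp [hx])), show θ 0 = 0 from funext fun n => map_zero ev, indFun_zero]
      rfl
  have gen : ∀ i : Fin 4, IsGeneralizedCharacter φ.range (θ (ff i.castSucc)) := fun i =>
    gen_comp (g_ff i) e.symm.toMonoidHom
  have supp : ∀ (i : Fin 4) (h : φ.range), (h : X) ∉ {x | x ∈ φ.range ∧ x * x ≠ 1} →
      θ (ff i.castSucc) h = 0 := by
    rintro i ⟨_, m, rfl⟩ hm
    simp only [θ, he]
    rw [supp_ff i m (hinj (by simpa using hm)), map_zero]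
  obtain ⟨K, hK, K1, K2⟩ := char_core (τ := τ) (fun i => indFun φ.range (θ (ff i.castSucc))) gram
    rfl (fun i => gen_indFun _ (gen i)) (fun i j => by
      rw [inner_indFun_indFun_of_ti _ {x | x ∈ φ.range ∧ x * x ≠ 1} (gen_isClassFunction (gen j))
        ?_ (supp i) (supp j), tr, inner_ev (gram_eq i _)]
      rintro _ ⟨⟨m, rfl⟩, hm⟩ x hx
      exact inv_mem_iff.mp (ti m (fun h => hm (by rw [← map_mul, h, map_one])) x⁻¹
        (by simpa using hx.1)))
    (fun i => by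
      rw [inner_indFun_left _ _ classFun_one, ← inner_ev (gram_eq i 4), ← tr]
      exact congrArg _ (funext fun n => (congrFun ev_one' (e.symm n)).symm))
    (fun i => van0 i 1 (mul_one 1)) (fun i => van0 i τ tt) (fun x => van _ _ _ fun y m hm => by
      by_contra hne
      obtain ⟨h1, h2⟩ := not_real m hne
      have h3 : y⁻¹ * τ * y * φ m = (φ m)⁻¹ * (y⁻¹ * τ * y) := by
        rw [← hm]
        simp [mul_assoc, inv_eq_of_mul_eq_one_right tt, ← mul_assoc τ τ, tt]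
      obtain ⟨t, ht⟩ := ti m h1 (y⁻¹ * τ * y) (by
        rw [h3, mul_inv_cancel_right]; exact inv_mem ⟨m, rfl⟩)
      exact h2 t (hinj (by rw [map_mul, map_mul, map_inv, ht, h3])))
  have inK : ∀ x, x ^ 3 = 1 → τ * x * τ⁻¹ = x⁻¹ → x ∈ K := fun x h1 h2 => by
    have := K2 x⁻¹
    rwa [inv_inv, mul_assoc, mul_assoc, ← mul_assoc τ, h2, show x⁻¹ * x⁻¹ = x by
      rw [← mul_inv_rev, inv_eq_iff_mul_eq_one, ← h1, pow_succ, pow_two]] at this
  have zK := inK z z3 tz
  have sK := inK s s3 ts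
  have cK := inK c c3 tc
  have wK : w ∈ K := by
    have := hK.conj_mem s sK c
    rwa [cs, mul_mem_cancel_right sK, mul_mem_cancel_left zK, inv_mem_iff] at this
  refine se_end K1 z1 z3 w3 zw ?_ zK wK ⟨_, pz⟩ ⟨_, pw⟩ se ?_
  · rintro ⟨k, rfl⟩
    rw [(Commute.zpow_right cz k).eq, mul_inv_cancel_right] at cw
    exact z1 (by simpa using cw.symm)
  · by_cases hτ : τ ∈ K
    · left
      rintro _ ⟨m, rfl⟩
      rw [hle K zK wK sK cK]
      split_ifs
      exacts [hτ, one_mem _]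
    · right
      rintro ⟨_, ⟨m, rfl⟩, hm⟩
      have h9 : ∀ m : M, m.e = false → m ^ 3 ^ 2 = 1 := by decide +kernel
      refine ⟨2, Subtype.ext ?_⟩
      have := (hle K zK wK sK cK m).mp hm
      change φ m ^ 3 ^ 2 = 1
      rw [← map_pow, h9 m (by by_contra h; simp_all), map_one]

end Cfsg.Agent.L43
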