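import Cfsg.Agent.Char.Param
import Cfsg.Agent.Char.Induce

/-! The group `(3 ≀ 3) : 2` of order `162` and four generalized characters of it. -/

set_option autoImplicit false

namespace Cfsg.Agent.L43.SE

open Cfsg.Agent.Char
open scoped ComplexConjugate commutatorElement

abbrev F3 := ZMod 3

@[ext] structure M where
  a : F3
  b : F3
  d : F3
  k : F3
  e : Bool
deriving DecidableEq

def sg (e : Bool) : F3 := if e then -1 else 1

instance : Fintype M := Fintype.ofEquiv (F3 × F3 × F3 × F3 × Bool)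
  ⟨fun p => ⟨p.1, p.2.1, p.2.2.1, p.2.2.2.1, p.2.2.2.2⟩, fun m => (m.a, m.b, m.d, m.k, m.e),
    fun _ => rfl, fun _ => rfl⟩

instance : Mul M := ⟨fun x y => ⟨x.a + sg x.e * y.a + x.k * y.b + x.k * x.k * (sg x.e * y.d),
  x.b + y.b - x.k * (sg x.e * y.d), x.d + sg x.e * y.d, x.k + sg x.e * y.k, xor x.e y.e⟩⟩

instance : One M := ⟨⟨0, 0, 0, 0, false⟩⟩

instance : Inv M := ⟨fun x => ⟨sg x.e * (x.k * x.b - x.a - x.k * x.k * x.d), -x.b - x.k * x.d,
  -(sg x.e * x.d), -(sg x.e * x.k), x.e⟩⟩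

theorem mul_def (x y : M) : x * y = ⟨x.a + sg x.e * y.a + x.k * y.b + x.k * x.k * (sg x.e * y.d),
  x.b + y.b - x.k * (sg x.e * y.d), x.d + sg x.e * y.d, x.k + sg x.e * y.k, xor x.e y.e⟩ := rfl

instance : Group M := Group.ofLeftAxioms
  (fun x y z => by
    obtain ⟨a, b, d, k, e⟩ := x
    obtain ⟨a', b', d', k', e'⟩ := y
    obtain ⟨a'', b'', d'', k'', e''⟩ := z
    cases e <;> cases e' <;> simp only [mul_def, sg, M.mk.injEq] <;>
      refine ⟨?_, ?_, ?_, ?_, by cases e'' <;> rfl⟩ <;> simp <;> grind)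
  (by decide +kernel) (by decide +kernel)

theorem card_M : Nat.card M = 162 := by
  rw [Nat.card_eq_fintype_card]; rfl

/-- Eisenstein integers as pairs. -/
noncomputable def ev : ℤ × ℤ →+ ℂ where
  toFun p := p.1 + p.2 * om
  map_zero' := by simp
  map_add' p q := by simp; ring

def omp (k : F3) : ℤ × ℤ := if k = 0 then (1, 0) else if k = 1 then (0, 1) else (-1, -1)

theorem ev_omp (k : F3) : ev (omp k) = omz k := by
  have : k = 0 ∨ k = 1 ∨ k = 2 := by revert k; decide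
  rcases this with rfl | rfl | rfl
  · simp [ev, omp, omz_zero]
  · rw [omz_one]; simp [ev, omp]
  · rw [omz_two, show omp 2 = (-1, -1) from rfl]; simp [ev]; ring

def mc (p q : ℤ × ℤ) : ℤ × ℤ := (p.1 * q.1 + p.2 * q.2 - p.1 * q.2, p.2 * q.1 - p.1 * q.2)

theorem ev_mc (p q : ℤ × ℤ) : ev p * conj (ev q) = ev (mc p q) := by
  have h1 : conj om = -1 - om := by
    have h2 := Complex.norm_eq_one_of_pow_eq_one om_cube (by norm_num)
    rw [← Complex.inv_eq_conj h2, ← om_sq]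
    exact inv_eq_of_mul_eq_one_right (by rw [← om_cube]; ring)
  simp only [ev, mc, AddMonoidHom.coe_mk, ZeroHom.coe_mk, map_add, map_mul, map_intCast, h1]
  push_cast
  linear_combination (-(p.2 : ℂ) * q.2) * om_sq

theorem inner_ev {f g : M → ℤ × ℤ} {n : ℤ} (h : ∑ x, mc (f x) (g x) = (162 * n, 0)) :
    classInner (fun x => ev (f x)) (fun x => ev (g x)) = n := by
  simp only [classInner, ev_mc, card_M]
  rw [← map_sum, h]
  simp [ev]

theorem char_ev (p : M → Prop) [DecidablePred p] (l : M → F3) (s : M → Bool) (f : M → ℤ × ℤ) (n : ℕ)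
    (h1 : p 1 ∧ l 1 = 0 ∧ s 1 = false)
    (h2 : ∀ x y, p x → p y → p (x * y) ∧ l (x * y) = l x + l y ∧ s (x * y) = xor (s x) (s y))
    (h3 : ∀ x, p x → p x⁻¹) (h4 : (Finset.univ.filter p).card = n)
    (h5 : ∀ g, (∑ x, if p (x⁻¹ * g * x) then (if s (x⁻¹ * g * x) then -omp (l (x⁻¹ * g * x)) else
      omp (l (x⁻¹ * g * x))) else 0) = n • f g) : IsCharacter M fun x => ev (f x) := by
  let H : Subgroup M := ⟨⟨⟨{x | p x}, fun a b => (h2 _ _ a b).1⟩, h1.1⟩, fun a => h3 _ a⟩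
  let μ : H →* ℂ := ⟨⟨fun x => ev (if s x then -omp (l x) else omp (l x)), by
    simp [h1.2.1, h1.2.2, ev_omp, omz_zero]⟩, fun x y => by
      obtain ⟨-, e1, e2⟩ := h2 x y x.2 y.2
      simp only [Subgroup.coe_mul, e1, e2]
      cases s x <;> cases s y <;> simp [ev_omp, omz_add]⟩
  have hH : Nat.card H = n := by
    rw [← h4, ← Fintype.card_subtype, ← Nat.card_eq_fintype_card]; rfl
  convert char_indFun H (irr_isCharacter (irr_of_monoidHom μ)) using 2 with g
  have := card_ne_zero' H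
  rw [indFun_apply, eq_inv_mul_iff_mul_eq₀ this, hH, ← nsmul_eq_mul, ← map_nsmul, ← h5, map_sum]
  refine Finset.sum_congr rfl fun x _ => ?_
  by_cases e : p (x⁻¹ * g * x)
  · rw [if_pos e, extendByZero_of_mem H _ e]; rfl
  · rw [if_neg e, extendByZero_of_notMem H _ e, map_zero]

def one' (_ : M) : ℤ × ℤ := (1, 0)
def sgn (x : M) : ℤ × ℤ := if x.e then (-1, 0) else (1, 0)
def ch1 (x : M) : ℤ × ℤ := if x.e then 0 else if x.d = 0 then (2, 0) else (-1, 0)
def ch2 (x : M) : ℤ × ℤ := if x.e then 0 else if x.k = 0 then (2, 0) else (-1, 0)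
def thp (x : M) : ℤ × ℤ :=
  if x.e then omp (x.b - x.k * x.d) else if x.k = 0 ∧ x.d = 0 then 3 • omp x.b else 0
def thm (x : M) : ℤ × ℤ :=
  if x.e then -omp (x.b - x.k * x.d) else if x.k = 0 ∧ x.d = 0 then 3 • omp x.b else 0

theorem c_ch1 : IsCharacter M fun x => ev (ch1 x) :=
  char_ev (fun x => x.e = false) (fun x => x.d) (fun _ => false) ch1 81 (by decide)
    (by decide +kernel) (by decide +kernel) (by decide +kernel) (by decide +kernel)

theorem c_ch2 : IsCharacter M fun x => ev (ch2 x) :=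
  char_ev (fun x => x.e = false) (fun x => x.k) (fun _ => false) ch2 81 (by decide)
    (by decide +kernel) (by decide +kernel) (by decide +kernel) (by decide +kernel)

theorem c_thp : IsCharacter M fun x => ev (thp x) :=
  char_ev (fun x => x.k = 0) (fun x => x.b) (fun _ => false) thp 54 (by decide)
    (by decide +kernel) (by decide +kernel) (by decide +kernel) (by decide +kernel)

theorem c_thm : IsCharacter M fun x => ev (thm x) :=
  char_ev (fun x => x.k = 0) (fun x => x.b) (fun x => x.e) thm 54 (by decide)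
    (by decide +kernel) (by decide +kernel) (by decide +kernel) (by decide +kernel)

theorem c_sgn : IsCharacter M fun x => ev (sgn x) :=
  irr_isCharacter (irr_of_monoidHom ⟨⟨fun x => ev (sgn x), by simp [sgn, ev, show (1 : M).e = false from rfl]⟩,
    fun x y => by
      obtain ⟨_, _, _, _, e⟩ := x
      obtain ⟨_, _, _, _, e'⟩ := y
      cases e <;> cases e' <;> simp [ev, mul_def, sgn]⟩)

theorem ev_one' : (fun x => ev (one' x)) = 1 := by
  ext x; simp [ev, one']

def fa1 (x : M) : ℤ × ℤ := one' x + sgn x - ch1 x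
def fa2 (x : M) : ℤ × ℤ := one' x + sgn x - ch2 x
def fb (x : M) : ℤ × ℤ := thp x - one' x - ch1 x
def fc (x : M) : ℤ × ℤ := thm x - sgn x - ch1 x

theorem g_a1 : IsGeneralizedCharacter M fun x => ev (fa1 x) := by
  convert gen_sub (gen_add (gen_of_char char_one') (gen_of_char c_sgn)) (gen_of_char c_ch1) using 2
  simp [fa1, ← ev_one']

theorem g_a2 : IsGeneralizedCharacter M fun x => ev (fa2 x) := by
  convert gen_sub (gen_add (gen_of_char char_one') (gen_of_char c_sgn)) (gen_of_char c_ch2) using 2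
  simp [fa2, ← ev_one']

theorem g_b : IsGeneralizedCharacter M fun x => ev (fb x) := by
  convert gen_sub (gen_sub (gen_of_char c_thp) (gen_of_char char_one')) (gen_of_char c_ch1) using 2
  simp [fb, ← ev_one']

theorem g_c : IsGeneralizedCharacter M fun x => ev (fc x) := by
  convert gen_sub (gen_sub (gen_of_char c_thm) (gen_of_char c_sgn)) (gen_of_char c_ch1) using 2
  simp [fc]

def ff : Fin 5 → M → ℤ × ℤ := ![fa1, fa2, fb, fc, one']

def gram : Fin 4 → Fin 5 → ℤ :=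
  ![![3, 2, 0, 0, 1], ![2, 3, -1, -1, 1], ![0, -1, 3, 1, -1], ![0, -1, 1, 3, 0]]

theorem gram_eq : ∀ (i : Fin 4) (j : Fin 5),
    ∑ x, mc (ff i.castSucc x) (ff j x) = (162 * gram i j, 0) := by decide +kernel

theorem g_ff (i : Fin 4) : IsGeneralizedCharacter M fun x => ev (ff i.castSucc x) := by
  fin_cases i
  exacts [g_a1, g_a2, g_b, g_c]

theorem supp_ff : ∀ (i : Fin 4) (x : M), x * x = 1 → ff i.castSucc x = 0 := by decide +kernel

theorem pow_ord : ∀ x : M, x * x ≠ 1 → (x ^ 2 ≠ 1 ∧ (x ^ 2) ^ 3 = 1) ∨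
    (x ^ 6 ≠ 1 ∧ (x ^ 6) ^ 3 = 1) := by decide +kernel

theorem not_real : ∀ x : M, fb x ≠ fc x → x * x ≠ 1 ∧ ∀ t, t * x ≠ x⁻¹ * t := by decide +kernel

def z0 : M := ⟨1, 0, 0, 0, false⟩
def w0 : M := ⟨0, 1, 0, 0, false⟩
def s0 : M := ⟨0, 0, 1, 0, false⟩
def c0 : M := ⟨0, 0, 0, 1, false⟩
def t0 : M := ⟨0, 0, 0, 0, true⟩

theorem mem_normal (K : Subgroup M) [K.Normal] (h : z0 ∉ K) : K = ⊥ := by
  have key : ∀ g : M, g = 1 ∨ ∃ y ∈ [g, ⁅z0, g⁆, ⁅w0, g⁆, ⁅c0, g⁆, ⁅c0, ⁅c0, g⁆⁆], y = z0 ∨ y⁻¹ = z0 := by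
    decide +kernel
  have hc : ∀ x, ∀ g ∈ K, ⁅x, g⁆ ∈ K := fun x g hg => by
    rw [commutatorElement_def]
    exact mul_mem (Subgroup.Normal.conj_mem inferInstance g hg x) (inv_mem hg)
  refine (Subgroup.eq_bot_iff_forall _).mpr fun g hg => (key g).resolve_right ?_
  rintro ⟨y, hy, e⟩
  have : y ∈ K := by
    simp only [List.mem_cons, List.not_mem_nil, or_false] at hy
    rcases hy with rfl | rfl | rfl | rfl | rfl
    exacts [hg, hc _ _ hg, hc _ _ hg, hc _ _ hg, hc _ _ (hc _ _ hg)]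
  rcases e with e | e
  · exact h (e ▸ this)
  · exact h (e ▸ inv_mem this)

end Cfsg.Agent.L43.SE
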