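import Cfsg.Agent.L43.Frame
import Cfsg.Agent.L43.Inv

/-! From the hypotheses of the recognition theorem to `Hyp`. -/

set_option autoImplicit false

namespace Cfsg.Agent.L43

open Subgroup Cfsg.Agent.Local

theorem pResidual_eq_top {X : Type*} [Group X] (e : X ≃* SL23) : Cfsg.pResidual 2 X = ⊤ := by
  have h1 : ∀ s : SL23, ∃ a b : SL23, a ^ 3 = 1 ∧ b ^ 3 = 1 ∧ (s = a * b ∨ s = a * b * (a * b)) := by
    decide
  have h2 : ∀ a : SL23, a ^ 3 = 1 → e.symm a ∈ Cfsg.pResidual 2 X := fun a ha =>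
    subset_closure (Nat.Coprime.coprime_dvd_left (orderOf_dvd_of_pow_eq_one (n := 3)
      (by rw [← map_pow, ha, map_one])) (by norm_num))
  refine eq_top_iff.2 fun x _ => ?_
  obtain ⟨a, b, ha, hb, h⟩ := h1 (e x)
  have h3 := mul_mem (h2 a ha) (h2 b hb)
  rw [← e.symm_apply_apply x]
  rcases h with h | h <;> rw [h]
  · rwa [map_mul]
  · rw [map_mul, map_mul]
    exact mul_mem h3 h3

theorem wrap {G : Type*} [Group G] [Finite G]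
    (S : Sylow 3 G) (Z : Subgroup G) (hZ : Z = (S : Subgroup G) ⊓ Subgroup.centralizer ((S : Subgroup G) : Set G))
    (C : Subgroup G) (hCZ : C = Subgroup.centralizer (Z : Set G))
    (Q : Subgroup G) (hQ : Q = (Cfsg.pCore 3 C).map C.subtype)
    (hQex : Cfsg.IsExtraspecial 3 Q) (hQcard : Nat.card Q = 3 ^ 5) (hQexp : ∀ a ∈ Q, a ^ 3 = 1)
    (hCQ : Subgroup.centralizer (Q : Set G) ≤ Q)
    (hZQ : ∃ x : G, Z.map (MulAut.conj x).toMonoidHom ≤ Q ∧ Z.map (MulAut.conj x).toMonoidHom ≠ Z)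
    (K : Subgroup G) (hK : K = ((Cfsg.pResidual 2 (C ⧸ Cfsg.pCore 3 C)).comap (QuotientGroup.mk' (Cfsg.pCore 3 C))).map C.subtype)
    (r : ℕ) (A : Fin (r + 1) → Subgroup G) (hA0 : A 0 = Z) (hAr : A (Fin.last r) = Q)
    (hmono : ∀ i : Fin r, A i.castSucc < A i.succ)
    (hinv : ∀ i : Fin (r + 1), ∀ k ∈ K, ∀ a ∈ A i, k * a * k⁻¹ ∈ A i)
    (hmax : ∀ i : Fin r, ∀ B : Subgroup G, A i.castSucc < B → B < A i.succ → ∃ k ∈ K, ∃ b ∈ B, k * b * k⁻¹ ∉ B)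
    (e : C ⧸ Cfsg.pCore 3 C ≃* Matrix.SpecialLinearGroup (Fin 2) (ZMod 3))
    (htwo : ∃ i j : Fin r, i ≠ j ∧ (∃ k ∈ K, ∃ a ∈ A i.succ, k * a * k⁻¹ * a⁻¹ ∉ A i.castSucc) ∧ (∃ k ∈ K, ∃ a ∈ A j.succ, k * a * k⁻¹ * a⁻¹ ∉ A j.castSucc) ∧
      ∀ l : Fin r, (∃ k ∈ K, ∃ a ∈ A l.succ, k * a * k⁻¹ * a⁻¹ ∉ A l.castSucc) → l = i ∨ l = j) :
    ∃ (z : G) (φ : G → Local.SL23) (x : G),
      Hyp z Q φ ∧ x * z * x⁻¹ ∈ Q ∧ x * z * x⁻¹ ∉ Subgroup.zpowers z := by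
  classical
  obtain ⟨x, hx1, hx2⟩ := hZQ
  have QC : Q ≤ C := hQ ▸ map_subtype_le _
  have ZC : ∀ z ∈ Z, ∀ q ∈ Q, q * z = z * q := fun z hz q hq => ((hCZ ▸ QC hq) z hz).symm
  have ZQ : Z ≤ Q := fun z hz => hCQ (ZC z hz)
  have Z1 : Z ≠ ⊥ := fun h => hx2 (by rw [h, Subgroup.map_bot])
  obtain ⟨⟨z, hz⟩, hz1⟩ := (Z.ne_bot_iff_exists_ne_one).1 Z1
  have oz : orderOf z = 3 := orderOf_eq_prime (hQexp z (ZQ hz)) fun h => hz1 (Subtype.ext h)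
  have cen : ∀ g, (∀ q ∈ Q, q * g = g * q) → g ∈ zpowers z := by
    intro g hg
    have h1 : zpowers z = (center Q).map Q.subtype := eq_of_le_of_card_ge
      (zpowers_le.2 ⟨⟨z, ZQ hz⟩, mem_center_iff.2 fun q => Subtype.ext (ZC z hz q q.2), rfl⟩)
      (by rw [card_subtype, hQex.2, Nat.card_zpowers, oz])
    rw [h1]
    exact ⟨⟨g, hCQ hg⟩, mem_center_iff.2 fun q => Subtype.ext (hg q q.2), rfl⟩
  have Zz : Z = zpowers z := le_antisymm (fun y hy => cen y (ZC y hy)) (zpowers_le.2 hz)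
  have mC : ∀ {g}, g ∈ C ↔ g * z = z * g := fun {g} =>
    ⟨fun h => ((hCZ ▸ h) z hz).symm, fun h => hCZ ▸ fun y hy => (cm_zp h (Zz ▸ hy)).symm⟩
  have mK : ∀ {g}, g ∈ K ↔ g * z = z * g := fun {g} => by
    rw [hK, pResidual_eq_top e, comap_top, ← MonoidHom.range_eq_map, range_subtype, mC]
  have mQ : ∀ {g : C}, (g : G) ∈ Q ↔ g ∈ pCore 3 C := hQ ▸ mem_map_iff_mem C.subtype_injective
  let π := e.toMonoidHom.comp (QuotientGroup.mk' (pCore 3 C))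
  have H : Hyp0 z Q fun g => if h : g ∈ C then π ⟨g, h⟩ else 1 := by
    refine ⟨oz, ZQ hz, hQexp, fun p hp q hq => cen _ fun y hy => ?_,
      fun g hg => cen g fun q hq => (hg q hq).symm, hQcard, ZC z hz, fun a b ha hb => ?_,
      fun a ha => ?_, fun σ => ?_⟩
    · have := hQex.1.2.2.le (commutator_mem_commutator (mem_top (⟨p, hp⟩ : Q)) (mem_top ⟨q, hq⟩))
      exact congrArg Subtype.val (mem_center_iff.1 this ⟨y, hy⟩)
    · rw [dif_pos (mC.2 ha), dif_pos (mC.2 hb), dif_pos (mul_mem (mC.2 ha) (mC.2 hb))]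
      exact map_mul π ⟨a, mC.2 ha⟩ ⟨b, mC.2 hb⟩
    · rw [dif_pos (mC.2 ha), mQ (g := ⟨a, mC.2 ha⟩)]
      exact e.map_eq_one_iff.trans (QuotientGroup.eq_one_iff _)
    · obtain ⟨g, hg⟩ := (e.surjective.comp (QuotientGroup.mk'_surjective _)) σ
      exact ⟨g, mC.1 g.2, (dif_pos g.2).trans hg⟩
  have mono : Monotone A := (Fin.strictMono_iff_lt_succ.2 hmono).monotone
  have F : ∀ i : Fin r, (∃ k ∈ K, ∃ a ∈ A i.succ, k * a * k⁻¹ * a⁻¹ ∉ A i.castSucc) →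
      Fac z Q (A i.castSucc) (A i.succ) := fun i ⟨k, hk, h⟩ =>
    ⟨Zz ▸ hA0 ▸ mono (Fin.zero_le _), hmono i, hAr ▸ mono (Fin.le_last _),
      fun g hg => hinv _ g (mK.2 hg), fun g hg => hinv _ g (mK.2 hg), fun D h1 h2 =>
        let ⟨k, hk, h⟩ := hmax i D h1 h2
        ⟨k, mK.1 hk, h⟩, k, mK.1 hk, h⟩
  obtain ⟨i, j, hij, hi, hj, -⟩ := htwo
  refine ⟨z, _, x, ⟨H, fun t ht hφ tt q hq => ?_⟩, hx1 ⟨z, hz, rfl⟩, fun h => hx2 ?_⟩
  · rcases lt_or_gt_of_ne hij with h | h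
    · exact H.inv_of_fac ht hφ tt (F i hi) (F j hj) (mono (Fin.succ_le_castSucc_iff.2 h)) hq
    · exact H.inv_of_fac ht hφ tt (F j hj) (F i hi) (mono (Fin.succ_le_castSucc_iff.2 h)) hq
  · refine eq_of_le_of_card_ge ?_ (card_map_of_injective (MulAut.conj x).injective).ge
    rw [Zz, MonoidHom.map_zpowers]
    exact zpowers_le.2 h

end Cfsg.Agent.L43
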